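import Cfsg.Agent.SmallOrder.SelfCentDegrees
import Cfsg.Agent.SmallOrder.Basic
import Cfsg.Agent.Blocks.SimpleAux
import Cfsg.Agent.Blocks.Basic
import Cfsg.Agent.Blocks.Orth
import Cfsg.Agent.DegreeGraph.AbelianNormal
import Cfsg.Agent.BlockChar.CharCount
import Cfsg.Agent.S0910
import Cfsg.Agent.S0944

/-!
Integral combinations of character values on elements of prime order, their sums over principal
blocks, and the divisibility that follows from vanishing on a Sylow subgroup.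
-/

set_option autoImplicit false

open scoped ComplexConjugate Classical

namespace Cfsg.Agent.SmallOrder.BlockSieve

open Cfsg Cfsg.Agent

universe u

variable {G : Type u} [Group G] [Fintype G]

theorem sum_subgroup_eq {χ : G → ℂ} (hχ : IsCharacter G χ) (H : Subgroup G) [Fintype H] :
    ∃ n : ℕ, ∑ h : H, χ h = (Nat.card H : ℂ) * n := by
  obtain ⟨n, hn⟩ := Chars.exists_classInner_eq_nat (Chars.isCharacter_restrict hχ H)
    (Chars.isCharacter_one (G := H))
  refine ⟨n, ?_⟩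
  have h : (Nat.card H : ℂ)⁻¹ * ∑ h : H, χ h = n := by
    rw [← hn, Chars.classInner_def]
    simp
  rw [← h, ← mul_assoc, mul_inv_cancel₀ Chars.card_ne_zero, one_mul]

/-- An algebraic integer with an integral positive multiple is an integer. -/
theorem exists_int {z : ℂ} (hz : IsIntegral ℤ z) {e : ℕ} (he : e ≠ 0) {c : ℤ}
    (h : (e : ℂ) * z = c) : ∃ u : ℤ, z = u := by
  have h1 : z = algebraMap ℚ ℂ ((c : ℚ) / e) := by
    rw [map_div₀, map_intCast, map_natCast, eq_div_iff (by exact_mod_cast he), mul_comm, h]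
  rw [h1, isIntegral_algebraMap_iff (algebraMap ℚ ℂ).injective] at hz
  obtain ⟨u, hu⟩ := IsIntegrallyClosed.isIntegral_iff.1 hz
  exact ⟨u, by rw [h1, ← hu]; simp⟩

/-- An integral combination of characters vanishing off the identity of a subgroup has degree
divisible by its order. -/
theorem card_dvd_of_vanish (H : Subgroup G) (S : Finset (IrrCharacter G)) (u : IrrCharacter G → ℤ)
    (h : ∀ g ∈ H, g ≠ 1 → ∑ χ ∈ S, (u χ : ℂ) * (χ : G → ℂ) g = 0) :
    (Nat.card H : ℤ) ∣ ∑ χ ∈ S, u χ * (charDegree (χ : G → ℂ) : ℤ) := by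
  choose n hn using fun χ : IrrCharacter G => sum_subgroup_eq (Chars.irr_isCharacter χ) H
  refine ⟨∑ χ ∈ S, u χ * n χ, ?_⟩
  have key : ∑ χ ∈ S, (u χ : ℂ) * (charDegree (χ : G → ℂ) : ℂ) =
      ∑ χ ∈ S, (u χ : ℂ) * ((Nat.card H : ℂ) * n χ) := by
    simp only [← hn, Finset.mul_sum]
    rw [Finset.sum_comm, Finset.sum_eq_single (1 : H)]
    · exact Finset.sum_congr rfl fun χ _ => by rw [Subgroup.coe_one, (Blocks.charDegree_eq χ.2).1]
    · intro g _ hg
      exact h g g.2 fun e => hg (Subtype.ext e)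
    · simp
  have : (((∑ χ ∈ S, u χ * (charDegree (χ : G → ℂ) : ℤ)) : ℤ) : ℂ) =
      (((Nat.card H : ℤ) * ∑ χ ∈ S, u χ * n χ : ℤ) : ℂ) := by
    push_cast
    rw [key, Finset.mul_sum]
    exact Finset.sum_congr rfl fun χ _ => by ring
  exact_mod_cast this

/-- The principal block part of a combination of columns of regular elements. -/
theorem block_part [IsSimpleGroup G] (hna : ∃ a b : G, a * b ≠ b * a) {ℓ a : ℕ} [hℓ : Fact ℓ.Prime]
    (ha : ℓ ^ a ∣ Nat.card G) (R : Finset G) (hR : ∀ r ∈ R, ¬ ℓ ∣ orderOf r) (u : IrrCharacter G → ℤ)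
    (hu : ∀ χ : IrrCharacter G, ∑ r ∈ R, (χ : G → ℂ) r = u χ) :
    ∃ S : Finset (IrrCharacter G), Blocks.oneChar G ∈ S ∧
      (∀ χ ∈ S, χ ≠ Blocks.oneChar G → ∀ k, charDegree (χ : G → ℂ) ≠ ℓ ^ k) ∧
      (∀ g : G, ℓ ∣ orderOf g → ∑ χ ∈ S, (u χ : ℂ) * (χ : G → ℂ) g = 0) ∧
      ((ℓ : ℤ) ^ a ∣ ∑ χ ∈ S, u χ * (charDegree (χ : G → ℂ) : ℤ)) := by
  obtain ⟨M, hMmax, hℓM⟩ := DegreeGraph.exists_isMaximal_mem ℓ
  haveI := hMmax
  set S := Finset.univ.filter (· ∈ principalBlock M G) with hS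
  have hvan : ∀ g : G, ℓ ∣ orderOf g → ∑ χ ∈ S, (u χ : ℂ) * (χ : G → ℂ) g = 0 := by
    intro g hg
    have h : ∑ χ ∈ S, (u χ : ℂ) * conj ((χ : G → ℂ) g) = 0 := by
      simp only [← hu, Finset.sum_mul]
      rw [Finset.sum_comm]
      exact Finset.sum_eq_zero fun r hr => Blocks.block_orth_weak hℓM
        (Blocks.isPBlock_principal (G := G) (M := M)) (hR r hr) hg
    have h' := congrArg (starRingEnd ℂ) h
    simpa [map_sum, map_mul] using h'
  refine ⟨S, Finset.mem_filter.2 ⟨Finset.mem_univ _, Blocks.one_mem_principal⟩, ?_, hvan, ?_⟩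
  · intro χ hχ hne k hk
    exact hne (Subtype.ext (S0910.result ℓ M ⟨hℓ.out, hMmax, hℓM⟩ hna χ (Finset.mem_filter.1 hχ).2 k
      (by rw [(Blocks.charDegree_eq χ.2).1, hk, Nat.cast_pow])))
  · obtain ⟨Q, hQ⟩ := Sylow.exists_subgroup_card_pow_prime ℓ ha
    have h := card_dvd_of_vanish Q S u fun g hg hne => hvan g (by
      have hd := Subgroup.orderOf_dvd_natCard Q hg
      rw [hQ] at hd
      obtain ⟨k, -, hk⟩ := (Nat.dvd_prime_pow hℓ.out).1 hd
      rcases Nat.eq_zero_or_pos k with rfl | hk0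
      · exact absurd (orderOf_eq_one_iff.1 (by simpa using hk)) hne
      · rw [hk]; exact dvd_pow_self _ hk0.ne')
    rw [hQ] at h
    exact_mod_cast h

/-- The full sum vanishes away from the classes used. -/
theorem total_part (R : Finset G) (u : IrrCharacter G → ℤ)
    (hu : ∀ χ : IrrCharacter G, ∑ r ∈ R, (χ : G → ℂ) r = u χ) (g : G) :
    ∑ χ : IrrCharacter G, (u χ : ℂ) * (χ : G → ℂ) g =
      ((∑ r ∈ R, if IsConj g r then Nat.card (Subgroup.centralizer ({g} : Set G)) else 0 : ℕ) : ℂ) := by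
  have h : ∑ χ : IrrCharacter G, (χ : G → ℂ) g * conj (u χ : ℂ) =
      ((∑ r ∈ R, if IsConj g r then Nat.card (Subgroup.centralizer ({g} : Set G)) else 0 : ℕ) : ℂ) := by
    simp only [← hu, map_sum, Finset.mul_sum]
    rw [Finset.sum_comm, Nat.cast_sum]
    exact Finset.sum_congr rfl fun r _ => by rw [Chars.column_orth]; split_ifs <;> simp
  rw [← h]
  exact Finset.sum_congr rfl fun χ _ => by rw [map_intCast, mul_comm]

theorem sum_sq_part (R : Finset G) (u : IrrCharacter G → ℤ)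
    (hu : ∀ χ : IrrCharacter G, ∑ r ∈ R, (χ : G → ℂ) r = u χ) :
    ∑ χ : IrrCharacter G, (u χ) ^ 2 =
      ((∑ s ∈ R, ∑ r ∈ R, if IsConj s r then Nat.card (Subgroup.centralizer ({s} : Set G)) else 0 : ℕ) : ℤ) := by
  have h : ((∑ χ : IrrCharacter G, (u χ) ^ 2 : ℤ) : ℂ) =
      (((∑ s ∈ R, ∑ r ∈ R, if IsConj s r then Nat.card (Subgroup.centralizer ({s} : Set G)) else 0 : ℕ) : ℤ) : ℂ) := by
    rw [Int.cast_natCast, Nat.cast_sum]
    simp only [← total_part R u hu]
    rw [Finset.sum_comm, Int.cast_sum]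
    refine Finset.sum_congr rfl fun χ _ => ?_
    rw [← Finset.mul_sum, hu χ, Int.cast_pow, sq]
  exact_mod_cast h

variable {p : ℕ} [hp : Fact p.Prime] {x : G}

/-- Sum of a character over the powers of an element of prime order. -/
theorem sum_powers (hx : orderOf x = p) (χ : IrrCharacter G) :
    ∃ m : ℕ, ∑ i ∈ Finset.range p, (χ : G → ℂ) (x ^ i) = (p : ℂ) * m := by
  obtain ⟨m, hm⟩ := sum_subgroup_eq (Chars.irr_isCharacter χ) (Subgroup.zpowers x)
  refine ⟨m, ?_⟩
  rw [Nat.card_zpowers, hx] at hm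
  rw [← hm, ← Fin.sum_univ_eq_sum_range fun i => (χ : G → ℂ) (x ^ i), ← hx]
  exact Fintype.sum_equiv (finEquivZPowers (isOfFinOrder_of_finite x)) _ _ fun i => by
    simp [finEquivZPowers_apply]

/-- A self-centralising element from a self-centralising Sylow subgroup of prime order. -/
theorem exists_selfcent_of_sylow {N : ℕ} (hN : Nat.card G = N) (P : Sylow p G) (hP : Nat.card P = p)
    (hC : Subgroup.centralizer ((P : Subgroup G) : Set G) = (P : Subgroup G)) :
    ∃ x : G, orderOf x = p ∧ Subgroup.centralizer ({x} : Set G) = Subgroup.zpowers x ∧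
      p * (SelfCentDeg.expSet p x).card * Nat.card (Sylow p G) = N ∧
      (P : Subgroup G).relIndex (Subgroup.normalizer ((P : Subgroup G) : Set G)) =
        (SelfCentDeg.expSet p x).card := by
  obtain ⟨x, hx⟩ := exists_prime_orderOf_dvd_card' (G := (P : Subgroup G)) p (dvd_of_eq hP.symm)
  rw [← Subgroup.orderOf_coe] at hx
  have hPx : Subgroup.zpowers (x : G) = (P : Subgroup G) :=
    Subgroup.eq_of_le_of_card_ge (Subgroup.zpowers_le.2 x.2) (by rw [Nat.card_zpowers, hx, hP])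
  have hCx : Subgroup.centralizer ({(x : G)} : Set G) = Subgroup.zpowers (x : G) := by
    rw [hPx]
    conv_rhs => rw [← hC, ← hPx, Subgroup.zpowers_eq_closure, Subgroup.centralizer_closure]
  have h := SelfCentDeg.card_normalizer (p := p) hx hCx
  rw [hPx] at h
  refine ⟨x, hx, hCx, ?_, ?_⟩
  · rw [← h, card_normalizer_mul_card_sylow, hN]
  · refine Nat.eq_of_mul_eq_mul_left hp.out.pos ?_
    rw [← h]
    nth_rw 1 [← hP]
    rw [← Subgroup.relIndex_bot_left, ← Subgroup.relIndex_bot_left,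
      Subgroup.relIndex_mul_relIndex ⊥ _ _ bot_le Subgroup.le_normalizer]

theorem not_dvd_orderOf_pow {ℓ : ℕ} (hℓ : ℓ.Prime) (hne : ℓ ≠ p) (hx : orderOf x = p) (i : ℕ) :
    ¬ ℓ ∣ orderOf (x ^ i) := fun h =>
  hne ((Nat.prime_dvd_prime_iff_eq hℓ hp.out).1 (h.trans (hx ▸ orderOf_pow_dvd i)))

end Cfsg.Agent.SmallOrder.BlockSieve
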