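import Cfsg.Agent.SmallOrder.SelfCentExclude
import Cfsg.Agent.SmallOrder.SelfCentInvolution

/-!
Involution centralizers in a simple group of order 4080.
-/

set_option autoImplicit false
set_option maxHeartbeats 1000000

namespace Cfsg.Agent.SmallOrder.Card4080

open Cfsg.Agent

variable {G : Type*} [Group G] [Fintype G]

theorem card_sylow_seventeen [IsSimpleGroup G] (hG : ¬ IsMulCommutative G) (h : Nat.card G = 4080) :
    Nat.card (Sylow 17 G) = 120 := by
  have : Fact (Nat.Prime 17) := ⟨by norm_num⟩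
  obtain ⟨P⟩ := (inferInstance : Nonempty (Sylow 17 G))
  obtain ⟨-, -, hd, hm⟩ := sylow_arith P (a := 1) (m := 240) (by rw [h]; norm_num) (by norm_num)
  have hne := card_sylow_ne_one (p := 17) hG (by rw [h]; norm_num)
  exact (by decide : ∀ n ∈ Nat.divisors 240, n % 17 = 1 → n ≠ 1 → n = 120) _
    (Nat.mem_divisors.mpr ⟨hd, by norm_num⟩) hm hne

/-- The centralizer of every involution is elementary abelian of order 16. -/
theorem centralizer_involution [IsSimpleGroup G] (h : Nat.card G = 4080) :
    (∀ t : G, orderOf t = 2 → Nat.card (Subgroup.centralizer ({t} : Set G)) = 16 ∧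
      ∀ c ∈ Subgroup.centralizer ({t} : Set G), c ^ 2 = 1) ∧ ∀ g : G, orderOf g ≠ 16 := by
  classical
  have hG : ¬ IsMulCommutative G := not_comm_of_not_prime (by rw [h]; norm_num)
  have : Fact (Nat.Prime 17) := ⟨by norm_num⟩
  have hn := card_sylow_seventeen hG h
  obtain ⟨x, hx, hC, he⟩ := exists_selfcent (r := 2) hG Nat.prime_two hn (by rw [h]) (by norm_num)
  have hperf := commutator_eq_top hG
  obtain ⟨t, ht, hti⟩ := SelfCentDeg.exists_inverting hx hC he (by norm_num)
  have hA8 : ∀ A B : ℤ, A + B = 1 → (17 : ℤ) ∣ A + 1 → A.natAbs ∣ 4080 → B.natAbs ∣ 4080 → 1 < A.natAbs →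
      A.natAbs ^ 2 + B.natAbs ^ 2 < 4080 → A = 16 := by
    intro A B hAB hA hAd hBd hA1 hsq
    have hlt : A.natAbs < 64 := by nlinarith
    have k1 : ∀ a < 64, 1 < a → a ∣ 4080 → a % 17 = 16 → (a - 1) ∣ 4080 → a = 16 := by decide +kernel
    have k2 : ∀ a < 64, 1 < a → a ∣ 4080 → a % 17 = 1 → ¬ (a + 1) ∣ 4080 := by decide +kernel
    rcases lt_trichotomy A 0 with h0 | h0 | h0
    · have e : B.natAbs = A.natAbs + 1 := by omega
      exact absurd (e ▸ hBd) (k2 _ hlt hA1 hAd (by omega))
    · omega
    · have e : B.natAbs = A.natAbs - 1 := by omega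
      have := k1 _ hlt hA1 hAd (by omega) (e ▸ hBd)
      omega
  have hdvd : ∀ u : G, Nat.card (Subgroup.centralizer ({u} : Set G)) ∣ 4080 := fun u =>
    h ▸ Subgroup.card_subgroup_dvd_card _
  -- the inverting class
  have hcentral : ∀ u : G, orderOf u = 2 → (∃ g : G, g * u * g⁻¹ * x * (g * u * g⁻¹)⁻¹ = x⁻¹) ∧
      Nat.card (Subgroup.centralizer ({u} : Set G)) = 16 := by
    intro u hu
    have hinv : ∃ g : G, g * u * g⁻¹ * x * (g * u * g⁻¹)⁻¹ = x⁻¹ := by
      by_contra hno
      push Not at hno
      obtain ⟨A, B, α, hAB, hA, -, hAd, hBd, hA1, -, hsq, key, hbd⟩ := SelfCentDeg.involution_core hx hC hperf he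
        (by norm_num) hu (SelfCentDeg.involution_count_zero hx hC hu hno)
      rw [h] at hAd hBd hsq
      obtain rfl := hA8 A B hAB hA hAd hBd hA1 hsq
      have hidx : ((Subgroup.centralizer ({u} : Set G)).index : ℤ) ≠ 0 := by
        exact_mod_cast Subgroup.index_ne_zero_of_finite
      have hα : α = 16 := by
        simp only [Nat.cast_zero, mul_zero, zero_mul] at key
        have := (mul_eq_zero.1 key.symm).resolve_left hidx
        rw [pow_eq_zero_iff two_ne_zero] at this
        omega
      subst hα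
      have hne : Subgroup.centralizer ({u} : Set G) ≠ ⊤ := by
        intro e
        have hz : u ∈ Subgroup.center G := Subgroup.mem_center_iff.2 fun g =>
          Subgroup.mem_centralizer_singleton_iff.1 (e ▸ Subgroup.mem_top g)
        rcases (Subgroup.Normal.eq_bot_or_eq_top (inferInstance : (Subgroup.center G).Normal)) with hc | hc
        · have : orderOf u = 1 := orderOf_eq_one_iff.2 (Subgroup.mem_bot.1 (hc ▸ hz))
          omega
        · exact hG ⟨⟨fun a b => (Subgroup.mem_center_iff.1 (hc ▸ Subgroup.mem_top b : b ∈ Subgroup.center G) a)⟩⟩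
      have hf := two_mul_card_dvd_factorial hG _ hne
      have hmul := (Subgroup.centralizer ({u} : Set G)).index_mul_card
      rw [h] at hf hmul
      have : (Subgroup.centralizer ({u} : Set G)).index ≤ 8 := by
        have : 482 ≤ Nat.card (Subgroup.centralizer ({u} : Set G)) := by
          norm_num [-Nat.card_eq_fintype_card] at hbd
          omega
        nlinarith
      have h1 := Nat.le_of_dvd (Nat.factorial_pos _) hf
      have h2 : (Subgroup.centralizer ({u} : Set G)).index.factorial ≤ Nat.factorial 8 := Nat.factorial_le this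
      have h17 : Nat.Prime 17 := by norm_num
      have := h17.dvd_factorial.1 ((show 17 ∣ 2 * 4080 by norm_num).trans hf)
      omega
    refine ⟨hinv, ?_⟩
    obtain ⟨g, hg⟩ := hinv
    have hu' : orderOf (g * u * g⁻¹) = 2 := (MulEquiv.orderOf_eq (MulAut.conj g) u).trans hu
    obtain ⟨A, B, α, hAB, hA, -, hAd, hBd, hA1, -, hsq, key, hbd⟩ := SelfCentDeg.involution_core hx hC hperf he
      (by norm_num) hu' (SelfCentDeg.involution_count hx hC (by norm_num) hu' hg)
    rw [h] at hAd hBd hsq
    obtain rfl := hA8 A B hAB hA hAd hBd hA1 hsq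
    have e : Subgroup.centralizer ({g * u * g⁻¹} : Set G) =
        (Subgroup.centralizer ({u} : Set G)).map (MulAut.conj g).toMonoidHom := by
      ext a
      rw [Subgroup.mem_map_equiv, Subgroup.mem_centralizer_singleton_iff, Subgroup.mem_centralizer_singleton_iff,
        MulAut.conj_symm_apply]
      constructor
      · intro h'
        calc g⁻¹ * a * g * u = g⁻¹ * (a * (g * u * g⁻¹)) * g := by group
          _ = _ := by rw [h']; group
      · intro h'
        calc a * (g * u * g⁻¹) = g * (g⁻¹ * a * g * u) * g⁻¹ := by group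
          _ = _ := by rw [h']; group
    have hcard : Nat.card (Subgroup.centralizer ({g * u * g⁻¹} : Set G)) =
        Nat.card (Subgroup.centralizer ({u} : Set G)) := by
      rw [e, Subgroup.card_map_of_injective (MulAut.conj g).injective]
    rw [← hcard]
    set c := Nat.card (Subgroup.centralizer ({g * u * g⁻¹} : Set G)) with hc
    have h2 : 2 ∣ c := hu' ▸ Subgroup.orderOf_dvd_natCard _ (Subgroup.mem_centralizer_singleton_iff.2 rfl)
    have hcd : c ∣ 4080 := hdvd _
    have hmul : ((Subgroup.centralizer ({g * u * g⁻¹} : Set G)).index : ℤ) * c = 4080 := by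
      exact_mod_cast (Subgroup.centralizer ({g * u * g⁻¹} : Set G)).index_mul_card.trans h
    have hsqc : (c : ℤ) ^ 2 = (16 - α) ^ 2 := by
      refine mul_left_cancel₀ (show (4080 : ℤ) ≠ 0 by norm_num) ?_
      push_cast at key
      linear_combination (c : ℤ) * key + (16 - α) ^ 2 * hmul
    rcases sq_eq_sq_iff_eq_or_eq_neg.1 hsqc with hh | hh
    · have : α ≤ 4 ∧ -4 ≤ α := by constructor <;> nlinarith
      obtain ⟨a1, a2⟩ := this
      have hcv : c = (16 - α).toNat := by omega
      interval_cases α <;> first | omega | (norm_num at hcv; rw [hcv] at hcd; norm_num at hcd) | (norm_num at hbd; omega)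
    · have : α ≤ 4 ∧ -4 ≤ α := by constructor <;> nlinarith
      obtain ⟨a1, a2⟩ := this
      interval_cases α <;> omega
  -- no element of order 4
  have hconj : ∀ u v : G, orderOf u = 2 → orderOf v = 2 → IsConj u v := by
    intro u v hu hv
    have key : ∀ w : G, orderOf w = 2 → IsConj t w := by
      intro w hw
      obtain ⟨⟨g, hg⟩, -⟩ := hcentral w hw
      refine IsConj.trans ?_ (isConj_iff.2 ⟨g, rfl⟩).symm
      have hmem : t⁻¹ * (g * w * g⁻¹) ∈ Subgroup.centralizer ({x} : Set G) := by
        rw [Subgroup.mem_centralizer_singleton_iff]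
        calc t⁻¹ * (g * w * g⁻¹) * x = t⁻¹ * (g * w * g⁻¹ * x * (g * w * g⁻¹)⁻¹) * (g * w * g⁻¹) := by group
          _ = t⁻¹ * (t * x * t⁻¹) * (g * w * g⁻¹) := by rw [hg, hti]
          _ = _ := by group
      rw [hC] at hmem
      obtain ⟨a, ha⟩ := (Submonoid.mem_powers_iff _ _).1 (mem_powers_iff_mem_zpowers.2 hmem)
      refine isConj_iff.2 ⟨(x ^ (9 * a))⁻¹, ?_⟩
      have h4 : (x ^ (9 * a))⁻¹ * t = t * x ^ (9 * a) := by
        rw [← SelfCentDeg.inverts_pow t hti (9 * a)]; group
      rw [inv_inv, h4, mul_assoc t, ← pow_add]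
      have h7 : x ^ (9 * a + 9 * a) = x ^ a := by
        rw [show 9 * a + 9 * a = a + 17 * a by ring, pow_add, pow_mul, ← hx, pow_orderOf_eq_one, one_pow, mul_one]
      rw [h7, ha, mul_inv_cancel_left]
    exact (key u hu).symm.trans (key v hv)
  have hcls : ∀ (S : Finset G) (d : ℕ), (∀ g h : G, g ∈ S → h * g * h⁻¹ ∈ S) →
      (∀ g ∈ S, d ∣ (OddChar.clOf g).card) → d ∣ S.card := by
    intro S d hinv hd
    rw [Finset.card_eq_sum_card_fiberwise (f := ConjClasses.mk) (t := S.image ConjClasses.mk)
      fun g hg => Finset.mem_image_of_mem _ hg]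
    refine Finset.dvd_sum fun c hc => ?_
    obtain ⟨g, hg, rfl⟩ := Finset.mem_image.1 hc
    rw [show (S.filter fun y => ConjClasses.mk y = ConjClasses.mk g) = OddChar.clOf g from ?_]
    · exact hd g hg
    ext y
    rw [Finset.mem_filter, OddChar.mem_clOf, ConjClasses.mk_eq_mk_iff_isConj]
    refine ⟨fun h => h.2.symm, fun h => ⟨?_, h.symm⟩⟩
    obtain ⟨w, rfl⟩ := isConj_iff.1 h
    exact hinv g w hg
  have hindex : ∀ g : G, (OddChar.clOf g).card * Nat.card (Subgroup.centralizer ({g} : Set G)) = 4080 := fun g => by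
    rw [OddChar.card_clOf, Subgroup.index_mul_card, h]
  have hordc : ∀ g h : G, orderOf (h * g * h⁻¹) = orderOf g := fun g h => MulEquiv.orderOf_eq (MulAut.conj h) g
  -- an element of even order has centralizer of 2-power order
  have heven : ∀ g : G, 2 ∣ orderOf g → Nat.card (Subgroup.centralizer ({g} : Set G)) ∣ 16 := by
    intro g hg
    have h0 : orderOf g / 2 ≠ 0 := by
      have := orderOf_pos g
      omega
    have hu : orderOf (g ^ (orderOf g / 2)) = 2 := by
      rw [orderOf_pow_of_dvd h0 (Nat.div_dvd_of_dvd hg)]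
      exact Nat.div_div_self hg (orderOf_pos g).ne'
    rw [← (hcentral _ hu).2]
    refine Subgroup.card_dvd_of_le fun c hc => Subgroup.mem_centralizer_singleton_iff.2 ?_
    exact Commute.pow_right (Subgroup.mem_centralizer_singleton_iff.1 hc) _
  set O : Finset G := Finset.univ.filter fun g => g ≠ 1 ∧ ¬ 2 ∣ orderOf g with hO
  set E : Finset G := Finset.univ.filter fun g => 2 ∣ orderOf g with hE
  have h8O : 16 ∣ O.card := by
    refine hcls O 16 (fun g w hg => ?_) fun g hg => ?_
    · simp only [hO, Finset.mem_filter, Finset.mem_univ, true_and] at hg ⊢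
      exact ⟨fun e => hg.1 (conj_eq_one_iff.1 e), by rw [hordc]; exact hg.2⟩
    · simp only [hO, Finset.mem_filter, Finset.mem_univ, true_and] at hg
      have hodd : ¬ 2 ∣ Nat.card (Subgroup.centralizer ({g} : Set G)) := by
        intro h2
        have : Fact (Nat.Prime 2) := ⟨Nat.prime_two⟩
        obtain ⟨u, hu⟩ := exists_prime_orderOf_dvd_card' 2 h2
        rw [← Subgroup.orderOf_coe] at hu
        have hgu : g ∈ Subgroup.centralizer ({(u : G)} : Set G) :=
          Subgroup.mem_centralizer_singleton_iff.2 (Subgroup.mem_centralizer_singleton_iff.1 u.2).symm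
        have hd := Subgroup.orderOf_dvd_natCard _ hgu
        rw [(hcentral _ hu).2] at hd
        have key : ∀ o < 17, o ∣ 16 → ¬ 2 ∣ o → o = 1 := by decide
        exact hg.1 (orderOf_eq_one_iff.1 (key _ (Nat.lt_succ_of_le (Nat.le_of_dvd (by norm_num) hd)) hd hg.2))
      have h8 : 16 ∣ (OddChar.clOf g).card * Nat.card (Subgroup.centralizer ({g} : Set G)) := by
        rw [hindex]; norm_num
      refine (Nat.Coprime.dvd_of_dvd_mul_right ?_ h8)
      exact Nat.Coprime.pow_left 4 (Nat.prime_two.coprime_iff_not_dvd.2 hodd)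
  have h63E : 255 ∣ E.card := by
    refine hcls E 255 (fun g w hg => ?_) fun g hg => ?_
    · simp only [hE, Finset.mem_filter, Finset.mem_univ, true_and] at hg ⊢
      rwa [hordc]
    · simp only [hE, Finset.mem_filter, Finset.mem_univ, true_and] at hg
      obtain ⟨k, hk⟩ := heven g hg
      refine ⟨k, ?_⟩
      refine Nat.eq_of_mul_eq_mul_right (Nat.card_pos (α := Subgroup.centralizer ({g} : Set G))) ?_
      rw [hindex, mul_assoc, mul_comm k, ← hk]
      all_goals norm_num

  have hsum : O.card + E.card = 4079 := by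
    have hd : Disjoint O E := Finset.disjoint_filter.2 fun g _ h1 h2 => h1.2 h2
    have hun : O ∪ E = Finset.univ.erase 1 := by
      ext g
      simp only [hO, hE, Finset.mem_union, Finset.mem_filter, Finset.mem_univ, true_and, Finset.mem_erase, and_true]
      refine ⟨?_, fun h => ?_⟩
      · rintro (h | h)
        · exact h.1
        · rintro rfl; simp at h
      · by_cases h2 : 2 ∣ orderOf g
        exacts [Or.inr h2, Or.inl ⟨h, h2⟩]
    rw [← Finset.card_union_of_disjoint hd, hun, Finset.card_erase_of_mem (Finset.mem_univ _), Finset.card_univ,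
      ← Nat.card_eq_fintype_card, h]
  have hJ : (OddChar.clOf t).card = 255 := by
    have := hindex t
    rw [(hcentral t ht).2] at this
    omega
  have hEJ : E = OddChar.clOf t := by
    symm
    refine Finset.eq_of_subset_of_card_le (fun g hg => ?_) ?_
    · obtain ⟨w, rfl⟩ := isConj_iff.1 (OddChar.mem_clOf.1 hg)
      simp only [hE, Finset.mem_filter, Finset.mem_univ, true_and]
      rw [hordc, ht]
    · rw [hJ]
      obtain ⟨a, ha⟩ := h8O
      obtain ⟨b, hb⟩ := h63E
      omega
  have hexp : ∀ g : G, 2 ∣ orderOf g → orderOf g = 2 := fun g hg => by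
    have : g ∈ E := by simp [hE, hg]
    rw [hEJ] at this
    obtain ⟨w, rfl⟩ := isConj_iff.1 (OddChar.mem_clOf.1 this)
    rw [hordc, ht]
  refine ⟨fun u hu => ⟨(hcentral u hu).2, fun c hc => ?_⟩, fun g hg => ?_⟩
  · have hd := Subgroup.orderOf_dvd_natCard _ hc
    rw [(hcentral u hu).2] at hd
    by_cases hc2 : 2 ∣ orderOf c
    · rw [← hexp c hc2]; exact pow_orderOf_eq_one c
    · have key : ∀ o < 17, o ∣ 16 → ¬ 2 ∣ o → o = 1 := by decide
      rw [orderOf_eq_one_iff.1 (key _ (Nat.lt_succ_of_le (Nat.le_of_dvd (by norm_num) hd)) hd hc2), one_pow]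
  · have := hexp g (by rw [hg]; norm_num)
    omega

end Cfsg.Agent.SmallOrder.Card4080
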