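import Cfsg.Agent.SmallOrder.Basic
import Cfsg.Agent.S0732
import Cfsg.Agent.Linear.Congr

/-!
Simple groups with exactly `p + 1` Sylow `p`-subgroups and a normalizer of order `p * d`, `d < p`.
-/

set_option autoImplicit false

namespace Cfsg.Agent.SmallOrder

variable {G : Type*} [Group G] [Finite G] [IsSimpleGroup G]

theorem degree_succ_cases (hG : ¬ IsMulCommutative G) {p d : ℕ} [hp : Fact p.Prime]
    (hn : Nat.card (Sylow p G) = p + 1) (hc : Nat.card G = (p + 1) * p * d) (hd : d < p)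
    (hpow : ∀ q : ℕ, p + 1 ≠ 2 ^ q) :
    (d = p - 1 ∧ Nonempty (G ≃* Matrix.ProjGenLinGroup (Fin 2) (ZMod p))) ∨
      (2 * d = p - 1 ∧ Nonempty (G ≃* Matrix.ProjectiveSpecialLinearGroup (Fin 2) (ZMod p))) := by
  classical
  have := Fintype.ofFinite (Sylow p G)
  have hp1 := hp.out.one_lt
  set φ := MulAction.toPermHom G (Sylow p G) with hφ
  have hinj : Function.Injective φ := by
    rw [← MonoidHom.ker_eq_bot_iff]
    refine (MonoidHom.normal_ker φ).eq_bot_or_eq_top.resolve_right fun htop => ?_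
    have hsub : Subsingleton (Sylow p G) := ⟨fun P Q => by
      obtain ⟨g, hg⟩ := MulAction.exists_smul_eq G P Q
      have h1 : φ g = 1 := MonoidHom.mem_ker.1 (htop ▸ Subgroup.mem_top g)
      have h2 : φ g P = P := by rw [h1, Equiv.Perm.one_apply]
      rw [← hg]; exact h2.symm⟩
    have := Finite.card_le_one_iff_subsingleton.2 hsub
    omega
  let e : G ≃* φ.range := MonoidHom.ofInjective hinj
  haveI : MulAction.IsPretransitive φ.range (Sylow p G) := ⟨fun P Q => by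
    obtain ⟨g, hg⟩ := MulAction.exists_smul_eq G P Q
    exact ⟨⟨φ g, g, rfl⟩, hg⟩⟩
  rcases S0732.result hp.out (by rw [← Nat.card_eq_fintype_card, hn]) φ.range
      (d := d) (by rw [← Nat.card_congr e.toEquiv, hc]) hd with ⟨h1, ⟨f⟩⟩ | ⟨h1, ⟨f⟩⟩ | ⟨q, -, hq, -⟩
  · exact Or.inl ⟨h1, ⟨e.trans f⟩⟩
  · exact Or.inr ⟨h1, ⟨e.trans f⟩⟩
  · exact absurd hq (hpow q)

/-- The number of Sylow `p`-subgroups is `p + 1` when that is the only candidate. -/
theorem card_sylow_eq_succ (hG : ¬ IsMulCommutative G) {p m : ℕ} [hp : Fact p.Prime]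
    (hc : Nat.card G = p ^ 1 * m) (hm : ¬ p ∣ m)
    (honly : ∀ d ∈ m.divisors, d % p = 1 → d = 1 ∨ d = p + 1) :
    Nat.card (Sylow p G) = p + 1 := by
  obtain ⟨P⟩ := (inferInstance : Nonempty (Sylow p G))
  obtain ⟨-, -, hd, hmod⟩ := sylow_arith P hc hm
  have hm0 : m ≠ 0 := fun e => hm (e ▸ dvd_zero p)
  rcases honly _ (Nat.mem_divisors.2 ⟨hd, hm0⟩) hmod with h1 | h1
  · exact absurd h1 (card_sylow_ne_one hG (hc ▸ dvd_mul_of_dvd_left (dvd_pow_self p one_ne_zero) m))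
  · exact h1

/-- Recognition of `PSL(2, p)` from its order. -/
theorem iso_psl_of_card (hG : ¬ IsMulCommutative G) {p d : ℕ} [hp : Fact p.Prime]
    (hn : Nat.card (Sylow p G) = p + 1) (hc : Nat.card G = (p + 1) * p * d) (hd : 2 * d = p - 1)
    (hpow : ∀ q : ℕ, p + 1 ≠ 2 ^ q) {F : Type*} [Field F] [Fintype F] (hF : Fintype.card F = p) :
    Nonempty (G ≃* Matrix.ProjectiveSpecialLinearGroup (Fin 2) F) := by
  have hp1 := hp.out.one_lt
  rcases degree_succ_cases hG hn hc (by omega) hpow with ⟨h1, -⟩ | ⟨-, ⟨f⟩⟩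
  · exfalso
    have := hp.out.two_le
    omega
  · exact ⟨f.trans (Linear.pslCongr (ZMod.ringEquivOfPrime F hp.out hF))⟩

theorem ne_two_pow {n : ℕ} (h : n ∈ [18, 20, 24]) (q : ℕ) : n ≠ 2 ^ q := by
  intro e
  have hq : q < 5 := by
    by_contra hq
    have : 2 ^ 5 ≤ 2 ^ q := Nat.pow_le_pow_right (by norm_num) (by omega)
    simp at h
    omega
  interval_cases q <;> simp_all

end Cfsg.Agent.SmallOrder
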