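import Mathlib
import Cfsg.Agent.FGS3.PGroupAut

/-!
Automorphisms of prime order of a finite space that preserve a non-degenerate pairing, and the
prime divisors of the automorphism group of an elementary abelian group.
-/

set_option autoImplicit false
set_option linter.style.haveILetI false
set_option linter.unusedSectionVars false

namespace Cfsg.Agent.SmallOrder.Pairing

open Polynomial

variable {s r : ℕ} [hs : Fact s.Prime] {W : Type*} [AddCommGroup W] [Module (ZMod s) W] [Finite W]
  {M : Type*} [AddCommGroup M]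

/-- An isometry of prime order `r` has `r ∣ s ^ l ± 1` with `2 l` at most the dimension. -/
theorem order_bound (hr : r.Prime) (hrs : r ≠ s) (B : W →+ W →+ M)
    (halt : ∀ u, B u u = 0) (hnd : ∀ v, (∀ u, B u v = 0) → v = 0) (T : Module.End (ZMod s) W)
    (hT : T ^ r = 1) (hT1 : T ≠ 1) (hB : ∀ u v, B (T u) (T v) = B u v) :
    ∃ l : ℕ, 0 < l ∧ 2 * l ≤ Module.finrank (ZMod s) W ∧ (r ∣ s ^ l + 1 ∨ r ∣ s ^ l - 1) := by
  classical
  set t := Module.finrank (ZMod s) W
  -- dimension at least two
  have ht2 : 2 ≤ t := by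
    by_contra hlt
    apply hT1
    refine LinearMap.ext fun x => ?_
    have hall : ∀ v : W, v = 0 := by
      intro v
      by_contra hv
      refine hv (hnd v fun u => ?_)
      haveI : Nontrivial W := ⟨⟨v, 0, hv⟩⟩
      have h1 : Module.finrank (ZMod s) W = 1 := le_antisymm (by omega) Module.finrank_pos
      obtain ⟨c, hc⟩ := (finrank_eq_one_iff_of_nonzero' v hv).1 h1 u
      rw [← hc, ← ZMod.natCast_zmod_val c, Nat.cast_smul_eq_nsmul, map_nsmul, AddMonoidHom.nsmul_apply,
        halt, nsmul_zero]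
    rw [hall (T x), hall ((1 : Module.End (ZMod s) W) x)]
  by_cases hr2 : r = 2
  · subst hr2
    refine ⟨1, one_pos, by omega, Or.inl ?_⟩
    rw [pow_one]
    have := Nat.odd_iff.mp (hs.out.odd_of_ne_two hrs.symm)
    omega
  -- `T⁻¹` is annihilated by the minimal polynomial of `T`
  set T' := T ^ (r - 1)
  have hTT' : T * T' = 1 := by
    rw [← pow_succ', Nat.sub_add_cancel hr.one_le, hT]
  have hpow : ∀ m : ℕ, T ^ m * T' ^ m = 1 := fun m => by
    rw [← (show Commute T T' from (Commute.refl T).pow_right _).mul_pow, hTT', one_pow]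
  have hBm : ∀ m u v, B ((T ^ m) u) ((T ^ m) v) = B u v := by
    intro m
    induction m with
    | zero => intro u v; rfl
    | succ m ih => intro u v; rw [pow_succ', Module.End.mul_apply, Module.End.mul_apply, hB, ih]
  have hadj : ∀ (f : (ZMod s)[X]) u v, B u (aeval T' f v) = B (aeval T f u) v := by
    intro f
    induction f using Polynomial.induction_on' with
    | add f g hf hg =>
      intro u v
      rw [map_add, map_add, LinearMap.add_apply, LinearMap.add_apply, map_add, hf, hg, map_add,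
        AddMonoidHom.add_apply]
    | monomial m c =>
      intro u v
      rw [aeval_monomial, aeval_monomial, Module.End.mul_apply, Module.End.mul_apply,
        Module.algebraMap_end_apply, Module.algebraMap_end_apply, ← ZMod.natCast_zmod_val c,
        Nat.cast_smul_eq_nsmul, Nat.cast_smul_eq_nsmul, map_nsmul, map_nsmul,
        AddMonoidHom.nsmul_apply]
      congr 1
      conv_lhs => rw [← hBm m, ← Module.End.mul_apply (T ^ m) (T' ^ m), hpow, Module.End.one_apply]
  set μ := minpoly (ZMod s) T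
  have hμT' : aeval T' μ = 0 := LinearMap.ext fun v => hnd _ fun u => by
    rw [hadj, minpoly.aeval, LinearMap.zero_apply, map_zero, AddMonoidHom.zero_apply]
  have hμdeg : μ.natDegree ≤ t := by
    show μ.natDegree ≤ Module.finrank (ZMod s) W
    rw [← LinearMap.charpoly_natDegree T]
    exact natDegree_le_of_dvd (LinearMap.minpoly_dvd_charpoly T) (LinearMap.charpoly_monic T).ne_zero
  have hμ0 : μ ≠ 0 := minpoly.ne_zero (Algebra.IsIntegral.isIntegral T)
  have hμX : μ ∣ X ^ r - 1 := minpoly.dvd _ _ (by simp [hT])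
  let F := AlgebraicClosure (ZMod s)
  haveI : CharP F s := charP_of_injective_algebraMap (algebraMap (ZMod s) F).injective s
  haveI hFs : Fact s.Prime := hs
  have hrF : (r : F) ≠ 0 := fun h => hrs (((Nat.prime_dvd_prime_iff_eq hs.out hr).mp
    ((CharP.cast_eq_zero_iff F s r).mp h)).symm)
  -- a root different from one
  obtain ⟨ζ, hζ, hζ1⟩ : ∃ ζ ∈ μ.aroots F, ζ ≠ 1 := by
    by_contra hcon
    push Not at hcon
    have hsep : μ.Separable := Separable.of_dvd (separable_X_pow_sub_C (1 : ZMod s)
      (fun h => hrs (((Nat.prime_dvd_prime_iff_eq hs.out hr).mp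
        ((ZMod.natCast_eq_zero_iff r s).mp h)).symm)) one_ne_zero) (by rwa [map_one])
    have hnd' : (μ.aroots F).Nodup := nodup_roots hsep.map
    have hle : Multiset.card (μ.aroots F) ≤ 1 := by
      rw [← Multiset.toFinset_card_of_nodup hnd']
      refine Finset.card_le_one.mpr fun a ha b hb => ?_
      rw [hcon a (Multiset.mem_toFinset.mp ha), hcon b (Multiset.mem_toFinset.mp hb)]
    rw [IsAlgClosed.card_aroots_eq_natDegree] at hle
    have hm := minpoly.monic (Algebra.IsIntegral.isIntegral (R := ZMod s) T)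
    have hpos : 0 < μ.natDegree := by
      haveI : Nontrivial (Module.End (ZMod s) W) := ⟨⟨T, 1, hT1⟩⟩
      exact minpoly.natDegree_pos (Algebra.IsIntegral.isIntegral T)
    have hd1 : μ.natDegree = 1 := le_antisymm hle hpos
    have hμ1 : μ = X + C (μ.coeff 0) := hm.eq_X_add_C hd1
    have h0 : aeval T μ = 0 := minpoly.aeval _ _
    have h1 : (1 : F) ∈ μ.aroots F := by
      obtain ⟨z, hz⟩ : ∃ z, z ∈ μ.aroots F := Multiset.card_pos_iff_exists_mem.mp
        (by rw [IsAlgClosed.card_aroots_eq_natDegree]; exact hpos)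
      exact hcon z hz ▸ hz
    have hc : μ.coeff 0 = -1 := by
      have h2 := (mem_aroots.mp h1).2
      rw [hμ1, map_add, aeval_X, aeval_C] at h2
      apply (algebraMap (ZMod s) F).injective
      rw [map_neg, map_one, eq_neg_iff_add_eq_zero, add_comm]
      exact h2
    rw [hμ1, hc, map_add, aeval_X, aeval_C, map_neg, map_one, ← sub_eq_add_neg, sub_eq_zero] at h0
    exact hT1 h0
  have hroot : ∀ {x : F}, x ∈ μ.aroots F ↔ aeval x μ = 0 := fun {x} => by
    rw [mem_aroots]; exact and_iff_right hμ0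
  rw [hroot] at hζ
  have hζr : ζ ^ r = 1 := by
    obtain ⟨g, hg⟩ := hμX
    have := congrArg (aeval ζ) hg
    rw [map_mul, hζ, zero_mul, map_sub, map_pow, aeval_X, map_one, sub_eq_zero] at this
    exact this
  haveI := Fact.mk hr
  have hord : orderOf ζ = r := orderOf_eq_prime hζr hζ1
  have hfin : IsOfFinOrder ζ := orderOf_pos_iff.mp (hord ▸ hr.pos)
  -- Frobenius
  have hfrob : ∀ (x : F), aeval x μ = 0 → aeval (x ^ s) μ = 0 := by
    intro x hx
    have h := congrArg (fun y => y ^ s) hx
    simp only [zero_pow hs.out.ne_zero] at h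
    rw [← h, ← map_pow, ← expand_aeval, ZMod.expand_card]
  have hfrobj : ∀ j : ℕ, aeval (ζ ^ s ^ j) μ = 0 := by
    intro j
    induction j with
    | zero => simpa using hζ
    | succ j ih => rw [pow_succ, pow_mul]; exact hfrob _ ih
  -- inversion
  have hinv : ∀ x : F, x ^ r = 1 → aeval x μ = 0 → aeval x⁻¹ μ = 0 := by
    intro x hx hx0
    have hd : μ ∣ μ.comp (X ^ (r - 1)) := minpoly.dvd _ _ (by rw [aeval_comp, map_pow, aeval_X]; exact hμT')
    obtain ⟨g, hg⟩ := hd
    have := congrArg (aeval x) hg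
    rw [aeval_comp, map_pow, aeval_X, map_mul, hx0, zero_mul] at this
    rwa [inv_eq_of_mul_eq_one_right (by rw [← pow_succ', Nat.sub_add_cancel hr.one_le, hx] :
      x * x ^ (r - 1) = 1)]
  -- the length of the orbit
  have hex : ∃ i, 0 < i ∧ r ∣ s ^ i - 1 := by
    refine ⟨r - 1, by have := hr.two_le; omega, ?_⟩
    have hcop : s.Coprime r := (Nat.coprime_primes hs.out hr).mpr hrs.symm
    have := Nat.ModEq.pow_totient hcop
    rw [Nat.totient_prime hr] at this
    exact (Nat.modEq_iff_dvd' (Nat.one_le_pow _ _ hs.out.pos)).mp this.symm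
  set i := Nat.find hex
  obtain ⟨hi0, hir⟩ := Nat.find_spec hex
  have hdist : ∀ a b, a < b → b < i → ζ ^ s ^ a ≠ ζ ^ s ^ b := by
    intro a b hab hbi he
    rw [hfin.pow_eq_pow_iff_modEq, hord] at he
    have h1 := (Nat.modEq_iff_dvd' (Nat.pow_le_pow_right hs.out.pos hab.le)).mp he
    rw [show s ^ b - s ^ a = s ^ a * (s ^ (b - a) - 1) by
      rw [Nat.mul_sub_one, ← pow_add, Nat.add_sub_cancel' hab.le]] at h1
    rcases (Nat.Prime.dvd_mul hr).mp h1 with h | h
    · exact hrs ((Nat.prime_dvd_prime_iff_eq hr hs.out).mp (hr.dvd_of_dvd_pow h))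
    · exact Nat.find_min hex (show b - a < i by omega) ⟨by omega, h⟩
  have hinjS : Set.InjOn (fun j => ζ ^ s ^ j) (Set.Iio i) := fun a ha b hb h => by
    rcases lt_trichotomy a b with h' | h' | h'
    · exact absurd h (hdist a b h' hb)
    · exact h'
    · exact absurd h.symm (hdist b a h' ha)
  let S : Finset F := (Finset.range i).image fun j => ζ ^ s ^ j
  have hScard : S.card = i := by
    rw [Finset.card_image_of_injOn (by simpa using hinjS), Finset.card_range]
  have hle : ∀ U : Finset F, (∀ x ∈ U, aeval x μ = 0) → U.card ≤ t := fun U hU =>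
    calc U.card ≤ (μ.aroots F).toFinset.card :=
          Finset.card_le_card fun x hx => Multiset.mem_toFinset.mpr (hroot.mpr (hU x hx))
      _ ≤ Multiset.card (μ.aroots F) := Multiset.toFinset_card_le _
      _ ≤ t := by rw [IsAlgClosed.card_aroots_eq_natDegree]; exact hμdeg
  have hS0 : ∀ x ∈ S, aeval x μ = 0 ∧ x ^ r = 1 := by
    intro x hx
    obtain ⟨j, -, rfl⟩ := Finset.mem_image.mp hx
    exact ⟨hfrobj j, by rw [← pow_mul, mul_comm, pow_mul, hζr, one_pow]⟩
  by_cases hself : ∃ j < i, ζ⁻¹ = ζ ^ s ^ j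
  · obtain ⟨j, hji, hj⟩ := hself
    have hdvd : r ∣ s ^ j + 1 := by
      rw [← hord, orderOf_dvd_iff_pow_eq_one, pow_succ, ← hj, inv_mul_cancel₀]
      intro h; rw [h, zero_pow hr.ne_zero] at hζr; exact zero_ne_one hζr
    have hj0 : 0 < j := by
      by_contra h0
      rw [show j = 0 by omega, pow_zero] at hdvd
      exact hr2 ((Nat.prime_dvd_prime_iff_eq hr Nat.prime_two).mp hdvd)
    have h2j : r ∣ s ^ (2 * j) - 1 := by
      rw [mul_comm 2 j, pow_mul, show (s ^ j) ^ 2 - 1 = (s ^ j + 1) * (s ^ j - 1) from by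
        rw [show (s ^ j) ^ 2 - 1 = (s ^ j) ^ 2 - 1 ^ 2 by rw [one_pow]]
        exact Nat.sq_sub_sq _ _]
      exact dvd_mul_of_dvd_left hdvd _
    have hij : i = 2 * j := by
      have hle2 : i ≤ 2 * j := Nat.find_min' hex ⟨by omega, h2j⟩
      rcases hle2.lt_or_eq with h | h
      · exfalso
        have h3 : r ∣ s ^ (2 * j - i) - 1 := by
          have e1 : s ^ (2 * j) - 1 = s ^ (2 * j - i) * (s ^ i - 1) + (s ^ (2 * j - i) - 1) := by
            rw [Nat.mul_sub_one, ← pow_add, Nat.sub_add_cancel hle2]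
            have h4 := Nat.pow_le_pow_right hs.out.pos (show 2 * j - i ≤ 2 * j by omega)
            have h5 := Nat.one_le_pow (2 * j - i) s hs.out.pos
            omega
          rw [e1] at h2j
          exact (Nat.dvd_add_right (dvd_mul_of_dvd_right hir _)).mp h2j
        exact Nat.find_min hex (show 2 * j - i < i by omega) ⟨by omega, h3⟩
      · exact h
    exact ⟨j, hj0, by rw [← hij, ← hScard]; exact hle S fun x hx => (hS0 x hx).1, Or.inl hdvd⟩
  · refine ⟨i, hi0, ?_, Or.inr hir⟩
    have hd : Disjoint S (S.image fun x => x⁻¹) := by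
      rw [Finset.disjoint_left]
      intro x hx hx'
      obtain ⟨a, ha, rfl⟩ := Finset.mem_image.mp hx
      obtain ⟨y, hy, hy'⟩ := Finset.mem_image.mp hx'
      obtain ⟨b, hb, rfl⟩ := Finset.mem_image.mp hy
      rw [Finset.mem_range] at ha hb
      apply hself
      -- `ζ ^ (s ^ b)` is the inverse of `ζ ^ (s ^ a)`
      refine ⟨(i + a - b) % i, Nat.mod_lt _ hi0, ?_⟩
      have hper : ∀ m, ζ ^ s ^ m = ζ ^ s ^ (m % i) := by
        intro m
        have hsi : ζ ^ s ^ i = ζ := by
          conv_rhs => rw [← pow_one ζ]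
          rw [hfin.pow_eq_pow_iff_modEq, hord]
          exact ((Nat.modEq_iff_dvd' (Nat.one_le_pow _ _ hs.out.pos)).mpr hir).symm
        conv_lhs => rw [← Nat.mod_add_div m i]
        rw [pow_add, pow_mul]
        generalize m / i = c
        induction c with
        | zero => simp
        | succ c ih => rw [pow_mul s i, pow_succ, pow_mul, ← pow_mul s i, ih, ← pow_mul, mul_comm, pow_mul, hsi]
      have h1 := congrArg (fun z => z ^ s ^ (i - b)) hy'
      simp only [inv_pow, ← pow_mul, ← pow_add] at h1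
      rw [Nat.add_sub_cancel' hb.le, hper i, Nat.mod_self, pow_zero, pow_one] at h1
      rw [h1, show a + (i - b) = i + a - b by omega, ← hper]
    have hcardI : (S.image fun x => x⁻¹).card = i := by
      rw [Finset.card_image_of_injective _ inv_injective, hScard]
    calc 2 * i = (S ∪ S.image fun x => x⁻¹).card := by
          rw [Finset.card_union_of_disjoint hd, hScard, hcardI]; ring
      _ ≤ t := hle _ fun x hx => by
          rcases Finset.mem_union.mp hx with h | h
          · exact (hS0 x h).1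
          · obtain ⟨y, hy, rfl⟩ := Finset.mem_image.mp h
            exact hinv y (hS0 y hy).2 (hS0 y hy).1

/-- The automorphism group of an elementary abelian group of order `s ^ t`. -/
theorem card_mulAut_elementary {Q : Type*} [CommGroup Q] [Finite Q] {t : ℕ}
    (hexp : ∀ x : Q, x ^ s = 1) (hQ : Nat.card Q = s ^ t) :
    ∀ r : ℕ, r.Prime → r ≠ s → r ∣ Nat.card (MulAut Q) → ∃ i, i < t ∧ r ∣ s ^ (t - i) - 1 := by
  intro r hr hrs hdvd
  have hP : IsPGroup s Q := IsPGroup.of_card hQ
  obtain ⟨j, hjt, hj⟩ := (Nat.dvd_prime_pow hs.out).mp (hQ ▸ (frattini Q).index_dvd_card)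
  have h1 := hdvd.trans (FGS3.card_mulAut_dvd hP hj)
  rcases (Nat.Prime.dvd_mul hr).mp h1 with h | h
  · exfalso
    obtain ⟨m, -, hm⟩ := (Nat.dvd_prime_pow hs.out).mp (hQ ▸ Subgroup.card_subgroup_dvd_card (frattini Q))
    rw [hm, ← pow_mul] at h
    exact hrs ((Nat.prime_dvd_prime_iff_eq hr hs.out).mp (hr.dvd_of_dvd_pow h))
  obtain ⟨i, hi, hri⟩ := (Prime.dvd_finsetProd_iff hr.prime _).mp h
  rw [Finset.mem_range] at hi
  refine ⟨t - (j - i), by omega, ?_⟩
  rw [show t - (t - (j - i)) = j - i by omega]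
  rw [show s ^ j - s ^ i = s ^ i * (s ^ (j - i) - 1) by
    rw [Nat.mul_sub_one, ← pow_add, Nat.add_sub_cancel' hi.le]] at hri
  exact ((Nat.Prime.dvd_mul hr).mp hri).resolve_left fun h =>
    hrs ((Nat.prime_dvd_prime_iff_eq hr hs.out).mp (hr.dvd_of_dvd_pow h))

end Cfsg.Agent.SmallOrder.Pairing
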