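import Cfsg.Agent.SmallOrder.TransLinear
import Cfsg.Agent.SmallOrder.PairingAut

/-!
Solvable linear groups that are transitive on the non-zero vectors (Huppert's theorem).
-/

set_option autoImplicit false
set_option linter.style.haveILetI false
set_option linter.unusedSectionVars false

namespace Cfsg.Agent.SmallOrder.TransSolv

open Cfsg.Agent.SmallOrder.TransLin
open scoped commutatorElement

variable {p : ℕ} [hp : Fact p.Prime] {V : Type*} [AddCommGroup V] [Module (ZMod p) V] [Finite V]
  [Nontrivial V] {G : Type*} [Group G] [Finite G] {ρ : G →* (V ≃ₗ[ZMod p] V)}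

/-- The order of the group is a multiple of the number of non-zero vectors. -/
theorem dvd_card (htrans : ∀ v w : V, v ≠ 0 → w ≠ 0 → ∃ g : G, ρ g v = w) :
    p ^ Module.finrank (ZMod p) V - 1 ∣ Nat.card G := by
  classical
  letI : MulAction G V :=
    { smul := fun g v => ρ g v
      one_smul := fun v => by show ρ 1 v = v; rw [map_one]; rfl
      mul_smul := fun g h v => by show ρ (g * h) v = ρ g (ρ h v); rw [map_mul]; rfl }
  obtain ⟨v, hv⟩ := exists_ne (0 : V)
  have horb : MulAction.orbit G v = ({0} : Set V)ᶜ := by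
    ext w
    constructor
    · rintro ⟨g, rfl⟩
      exact fun h => hv ((ρ g).map_eq_zero_iff.1 h)
    · intro hw
      obtain ⟨g, hg⟩ := htrans v w hv hw
      exact ⟨g, hg⟩
  have h1 : (MulAction.stabilizer G v).index = p ^ Module.finrank (ZMod p) V - 1 := by
    rw [MulAction.index_stabilizer, horb, Set.ncard_compl, Set.ncard_singleton,
      Module.natCard_eq_pow_finrank (K := ZMod p) (V := V), Nat.card_zmod]
  rw [← h1]
  exact Subgroup.index_dvd_card _

/-- An element of prime order `r`, primitive for `p ^ n - 1`, has a commutative centralizer. -/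
theorem centralizer_comm (hρ : Function.Injective ρ) {r : ℕ} (hr : r.Prime)
    (hprim : ∀ j, 0 < j → j < Module.finrank (ZMod p) V → ¬ r ∣ p ^ j - 1) (hrp : r ≠ p) {x : G}
    (hx : orderOf x = r) {y z : G} (hy : y * x = x * y) (hz : z * x = x * z) : y * z = z * y := by
  classical
  haveI := Fact.mk hr
  set n := Module.finrank (ZMod p) V
  letI : MulAction (Subgroup.zpowers x) V :=
    { smul := fun g v => ρ (g : G) v
      one_smul := fun v => by show ρ (1 : G) v = v; rw [map_one]; rfl
      mul_smul := fun g h v => by show ρ ((g : G) * h) v = ρ (g : G) (ρ (h : G) v); rw [map_mul]; rfl }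
  have hpgrp : IsPGroup r (Subgroup.zpowers x) := IsPGroup.of_card (n := 1) (by rw [Nat.card_zpowers, hx, pow_one])
  have hfix : ∀ {v : V}, ρ x v = v → ∀ g : Subgroup.zpowers x, ρ (g : G) v = v := by
    intro v hv g
    obtain ⟨i, hi⟩ := g.2
    let S : Subgroup G :=
      { carrier := {g | ρ g v = v}
        one_mem' := by simp
        mul_mem' := fun {a b} (ha : ρ a v = v) (hb : ρ b v = v) => by
          show ρ (a * b) v = v; rw [map_mul, LinearEquiv.mul_apply, hb, ha]
        inv_mem' := fun {a} (ha : ρ a v = v) => by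
          show ρ a⁻¹ v = v
          conv_lhs => rw [← ha]
          rw [← LinearEquiv.mul_apply, ← map_mul, inv_mul_cancel, map_one]
          rfl }
    exact (Subgroup.zpowers_le.mpr (show x ∈ S from hv)) g.2
  -- congruences on invariant submodules
  have hmod : ∀ U : Submodule (ZMod p) V, (∀ v ∈ U, ρ x v ∈ U) →
      ∀ F : Submodule (ZMod p) V, (∀ v, v ∈ F ↔ v ∈ U ∧ ρ x v = v) →
      p ^ Module.finrank (ZMod p) U ≡ p ^ Module.finrank (ZMod p) F [MOD r] := by
    intro U hU F hF
    let S : SubMulAction (Subgroup.zpowers x) V :=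
      { carrier := U
        smul_mem' := fun g {v} hv => by
          obtain ⟨i, hi⟩ := mem_powers_iff_mem_zpowers.mpr g.2
          show ρ (g : G) v ∈ U
          rw [← hi]
          clear hi
          induction i with
          | zero => simpa using hv
          | succ i ih => simp only [pow_succ', map_mul, LinearEquiv.mul_apply]; exact hU _ ih }
    have h := hpgrp.card_modEq_card_fixedPoints S
    have h1 : Nat.card S = p ^ Module.finrank (ZMod p) U := by
      show Nat.card U = _
      rw [Module.natCard_eq_pow_finrank (K := ZMod p) (V := U), Nat.card_zmod]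
    have h2 : Nat.card (MulAction.fixedPoints (Subgroup.zpowers x) S) = p ^ Module.finrank (ZMod p) F := by
      rw [show p ^ Module.finrank (ZMod p) F = Nat.card F by
        rw [Module.natCard_eq_pow_finrank (K := ZMod p) (V := F), Nat.card_zmod]]
      refine Nat.card_congr
        { toFun := fun w => ⟨(w.1.1 : V), (hF _).2 ⟨w.1.2,
            congrArg Subtype.val (w.2 ⟨x, Subgroup.mem_zpowers x⟩)⟩⟩
          invFun := fun v => ⟨⟨v.1, ((hF v.1).1 v.2).1⟩, fun g =>
            Subtype.ext (hfix ((hF v.1).1 v.2).2 g)⟩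
          left_inv := fun w => rfl
          right_inv := fun v => rfl }
    rwa [h1, h2] at h
  have hpr : ∀ {a b : ℕ}, b ≤ a → p ^ a ≡ p ^ b [MOD r] → r ∣ p ^ (a - b) - 1 := by
    intro a b hab h
    have h1 := (Nat.modEq_iff_dvd' (Nat.pow_le_pow_right hp.out.pos hab)).mp h.symm
    rw [show p ^ a - p ^ b = p ^ b * (p ^ (a - b) - 1) by
      rw [Nat.mul_sub_one, ← pow_add, Nat.add_sub_cancel' hab]] at h1
    exact ((Nat.Prime.dvd_mul hr).mp h1).resolve_left fun h2 =>
      hrp ((Nat.prime_dvd_prime_iff_eq hr hp.out).mp (hr.dvd_of_dvd_pow h2))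
  let F0 : Submodule (ZMod p) V := LinearMap.ker (endHom ρ x - 1)
  have hF0 : ∀ v, v ∈ F0 ↔ ρ x v = v := fun v => by
    rw [LinearMap.mem_ker, LinearMap.sub_apply, sub_eq_zero]; rfl
  have hF0bot : F0 = ⊥ := by
    have h := hmod ⊤ (fun v _ => trivial) F0 (fun v => by rw [hF0]; exact ⟨fun h => ⟨trivial, h⟩, And.right⟩)
    rw [finrank_top] at h
    rw [← Submodule.finrank_eq_zero (R := ZMod p)]
    by_contra hne
    have hle : Module.finrank (ZMod p) F0 ≤ n := Submodule.finrank_le F0
    rcases hle.lt_or_eq with hlt | heq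
    · exact hprim (n - Module.finrank (ZMod p) F0) (by omega) (by omega) (hpr hle h)
    · have htop : F0 = ⊤ := Submodule.eq_top_of_finrank_eq heq
      have : x = 1 := hρ (LinearEquiv.ext fun v => by
        rw [map_one]; exact (hF0 v).1 (htop ▸ Submodule.mem_top))
      rw [this, orderOf_one] at hx
      exact hr.ne_one hx.symm
  have hirr : ∀ U : Submodule (ZMod p) V, (∀ v ∈ U, ρ x v ∈ U) → U = ⊥ ∨ U = ⊤ := by
    intro U hU
    have h := hmod U hU ⊥ (fun v => by
      rw [Submodule.mem_bot]
      refine ⟨fun h => by subst h; exact ⟨U.zero_mem, map_zero _⟩, fun h => ?_⟩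
      have : v ∈ F0 := (hF0 v).2 h.2
      rwa [hF0bot, Submodule.mem_bot] at this)
    rw [finrank_bot] at h
    by_contra hcon
    push Not at hcon
    exact hprim (Module.finrank (ZMod p) U)
      (Nat.pos_of_ne_zero fun h0 => hcon.1 (Submodule.finrank_eq_zero.mp h0))
      (Submodule.finrank_lt hcon.2) (by simpa using hpr (Nat.zero_le _) h)
  obtain ⟨v, hv⟩ := exists_ne (0 : V)
  set S := Algebra.adjoin (ZMod p) ({endHom ρ x} : Set (Module.End (ZMod p) V))
  let U : Submodule (ZMod p) V := Submodule.map (LinearMap.applyₗ v) (Subalgebra.toSubmodule S)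
  have hUm : ∀ w, w ∈ U ↔ ∃ f ∈ S, f v = w := fun w => by simp [U, Submodule.mem_map]
  have htop : U = ⊤ := by
    refine (hirr U fun w hw => ?_).resolve_left fun h0 => hv ?_
    · obtain ⟨f, hf, rfl⟩ := (hUm w).1 hw
      exact (hUm _).2 ⟨endHom ρ x * f, mul_mem (Algebra.subset_adjoin rfl) hf, rfl⟩
    · have : v ∈ U := (hUm v).2 ⟨1, one_mem _, rfl⟩
      rwa [h0, Submodule.mem_bot] at this
  have hcom : ∀ {y : G}, y * x = x * y → ∀ f ∈ S, endHom ρ y * f = f * endHom ρ y := by
    intro y hy f hf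
    induction hf using Algebra.adjoin_induction with
    | mem g hg =>
      rw [Set.mem_singleton_iff] at hg
      rw [hg, ← map_mul, ← map_mul, hy]
    | algebraMap c => exact (Algebra.commutes c _).symm
    | add a b _ _ ha hb => rw [mul_add, add_mul, ha, hb]
    | mul a b _ _ ha hb => rw [← mul_assoc, ha, mul_assoc, hb, mul_assoc]
  have hScomm : ∀ f ∈ S, ∀ g ∈ S, f * g = g * f := by
    intro f hf g hg
    induction hf using Algebra.adjoin_induction with
    | mem a ha =>
      rw [Set.mem_singleton_iff] at ha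
      rw [ha]; exact hcom rfl g hg
    | algebraMap c => exact Algebra.commutes c _
    | add a b _ _ ha hb => rw [mul_add, add_mul, ha, hb]
    | mul a b _ _ ha hb => rw [mul_assoc, hb, ← mul_assoc, ha, mul_assoc]
  have hinS : ∀ {y : G}, y * x = x * y → endHom ρ y ∈ S := by
    intro y hy
    obtain ⟨f, hf, hfv⟩ := (hUm (endHom ρ y v)).1 (htop ▸ Submodule.mem_top)
    suffices e : endHom ρ y = f by rw [e]; exact hf
    refine LinearMap.ext fun w => ?_
    obtain ⟨g, hg, rfl⟩ := (hUm w).1 (htop ▸ Submodule.mem_top)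
    calc endHom ρ y (g v) = g (endHom ρ y v) := LinearMap.congr_fun (hcom hy g hg) v
      _ = g (f v) := by rw [hfv]
      _ = f (g v) := (LinearMap.congr_fun (hScomm f hf g hg) v).symm
  exact endHom_injective hρ (by rw [map_mul, map_mul]; exact hcom hy _ (hinS hz))

/-- The bound of `Pairing.order_bound`, for an additive map. -/
theorem order_bound_addHom {s r : ℕ} [Fact s.Prime] (hr : r.Prime) (hrs : r ≠ s) {W : Type*} [AddCommGroup W]
    [Module (ZMod s) W] [Finite W] {M : Type*} [AddCommGroup M]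
    (B : W →+ W →+ M) (halt : ∀ u, B u u = 0) (hnd : ∀ v, (∀ u, B u v = 0) → v = 0) (f : W →+ W)
    (hf : ∀ w, (⇑f)^[r] w = w) (hf1 : ∃ w, f w ≠ w) (hB : ∀ u v, B (f u) (f v) = B u v) :
    ∃ l : ℕ, 0 < l ∧ 2 * l ≤ Module.finrank (ZMod s) W ∧ (r ∣ s ^ l + 1 ∨ r ∣ s ^ l - 1) := by
  refine Pairing.order_bound hr hrs B halt hnd (f.toZModLinearMap s) (LinearMap.ext fun w => ?_) ?_ hB
  · exact (Module.End.pow_apply _ r w).trans (hf w)
  · intro h
    obtain ⟨w, hw⟩ := hf1
    exact hw (LinearMap.congr_fun h w)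

/-- The number of elements of a space over a prime field. -/
theorem finrank_eq_of_card {s t : ℕ} [Fact s.Prime] (W : Type*) [AddCommGroup W] [Finite W]
    [Module (ZMod s) W] (h : Nat.card W = s ^ t) : Module.finrank (ZMod s) W = t := by
  rw [Module.natCard_eq_pow_finrank (K := ZMod s) (V := W), Nat.card_zmod] at h
  exact Nat.pow_right_injective (Fact.out : s.Prime).two_le h

/-- The bound of `Pairing.order_bound`, for a group of prime exponent. -/
theorem order_bound_group {s t r : ℕ} [Fact s.Prime] (hr : r.Prime) (hrs : r ≠ s) {Q : Type*} [CommGroup Q]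
    [Finite Q] (hexp : ∀ w : Q, w ^ s = 1) (hQ : Nat.card Q = s ^ t) {M : Type*} [AddCommGroup M]
    (B : Additive Q →+ Additive Q →+ M) (halt : ∀ u, B u u = 0)
    (hnd : ∀ v, (∀ u, B u v = 0) → v = 0) (ψ : MulAut Q) (hψ : ψ ^ r = 1) (hψ1 : ψ ≠ 1)
    (hB : ∀ u v, B (Additive.ofMul (ψ (Additive.toMul u))) (Additive.ofMul (ψ (Additive.toMul v))) = B u v) :
    ∃ l : ℕ, 0 < l ∧ 2 * l ≤ t ∧ (r ∣ s ^ l + 1 ∨ r ∣ s ^ l - 1) := by
  have hsm : ∀ w : Additive Q, s • w = 0 := fun w => by
    show Additive.ofMul (Additive.toMul w ^ s) = 0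
    rw [hexp]; rfl
  let f : Additive Q →+ Additive Q := ψ.toMonoidHom.toAdditive
  have hTm : ∀ (m : ℕ) (w : Additive Q), (⇑f)^[m] w = Additive.ofMul ((ψ ^ m) (Additive.toMul w)) := by
    intro m
    induction m with
    | zero => intro w; rfl
    | succ m ih => intro w; rw [Function.iterate_succ_apply', ih, pow_succ']; rfl
  have hf : ∀ w, (⇑f)^[r] w = w := fun w => by rw [hTm, hψ]; rfl
  have hf1 : ∃ w, f w ≠ w := by
    by_contra hcon
    push Not at hcon
    exact hψ1 (MulEquiv.ext fun w => congrArg Additive.toMul (hcon (Additive.ofMul w)))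
  haveI : Finite (Additive Q) := inferInstanceAs (Finite Q)
  letI : Module (ZMod s) (Additive Q) := AddCommGroup.zmodModule hsm
  obtain ⟨l, h0, hl, h⟩ := order_bound_addHom hr hrs B halt hnd f hf hf1 hB
  exact ⟨l, h0, hl.trans (finrank_eq_of_card (Additive Q) hQ).le, h⟩

set_option maxHeartbeats 4000000 in
set_option synthInstance.maxHeartbeats 400000 in
/-- Everything the main argument uses about the critical normal section. -/
theorem exceptional (hρ : Function.Injective ρ)
    (htrans : ∀ v w : V, v ≠ 0 → w ≠ 0 → ∃ g : G, ρ g v = w) (hsol : Group.IsSolvable G)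
    (hz : ∀ n : ℕ, 3 ≤ n → ¬ (p = 2 ∧ n = 6) →
      ∃ r : ℕ, r.Prime ∧ r ∣ p ^ n - 1 ∧ ∀ j, 0 < j → j < n → ¬ r ∣ p ^ j - 1)
    {A : Subgroup G} [A.Normal] (hA : IsMulCommutative A)
    (hmax : ∀ B : Subgroup G, B.Normal → IsMulCommutative B → A ≤ B → B = A)
    {d : ℕ} (hd : 2 ≤ d) (hnd : Module.finrank (ZMod p) V = deg ρ A * d) :
    Nat.card V ∈ ({9, 25, 49, 121, 529, 81} : Set ℕ) := by
  classical
  obtain ⟨hcyc, hAdvd, hk, hidx, -⟩ := field_facts hρ htrans hA
  set k := deg ρ A
  set n := Module.finrank (ZMod p) V with hn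
  set C := Subgroup.centralizer (A : Set G) with hC
  have hGdvd := dvd_card htrans
  have hq2 : 2 ≤ p ^ k := (hp.out.two_le).trans (Nat.le_self_pow hk.ne' p)
  have hkn : k < n := by rw [hnd]; exact lt_mul_of_one_lt_right hk (by omega)
  have hAC : A ≤ C := fun a ha => Subgroup.mem_centralizer_iff.2 fun b hb =>
    congrArg Subtype.val (hA.is_comm.comm ⟨b, hb⟩ ⟨a, ha⟩)
  -- the centralizer is larger than `A`
  have hCne : A < C := by
    refine lt_of_le_of_ne hAC fun he => ?_
    have h1 : Nat.card G ≤ (p ^ k - 1) * k := by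
      rw [← A.card_mul_index]
      exact Nat.mul_le_mul (Nat.le_of_dvd (by omega) hAdvd) (Nat.le_of_dvd hk (he ▸ hidx))
    have h2 : p ^ (2 * k) - 1 ≤ Nat.card G :=
      (Nat.sub_le_sub_right (Nat.pow_le_pow_right hp.out.pos (by show 2 * k ≤ n; rw [hnd, mul_comm]; exact Nat.mul_le_mul_left k hd)) 1).trans
        (Nat.le_of_dvd Nat.card_pos hGdvd)
    have h3 : k < p ^ k := Nat.lt_pow_self hp.out.one_lt
    rw [mul_comm 2 k, pow_mul] at h2
    obtain ⟨q, hq⟩ : ∃ q, p ^ k = q + 1 := ⟨p ^ k - 1, by omega⟩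
    rw [hq] at h1 h2 h3
    have h4 : (q + 1) ^ 2 = q * q + 2 * q + 1 := by ring
    simp only [Nat.add_sub_cancel] at h1
    have h5 : q * k ≤ q * q := Nat.mul_le_mul_left q (by omega)
    omega
  -- a minimal normal subgroup above `A` in the centralizer
  obtain ⟨N, ⟨hNn, hAN, hNC⟩, hNmin⟩ := Set.exists_min_image
    {M : Subgroup G | M.Normal ∧ A < M ∧ M ≤ C} (fun M => Nat.card M) (Set.toFinite _)
    ⟨C, inferInstance, hCne, le_rfl⟩
  haveI := hNn
  have hNmin' : ∀ M : Subgroup G, M.Normal → A < M → M ≤ N → M = N := fun M h1 h2 h3 =>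
    Subgroup.eq_of_le_of_card_ge h3 (hNmin M ⟨h1, h2, h3.trans hNC⟩)
  have hcentA : ∀ x ∈ C, ∀ a ∈ A, x * a = a * x := fun x hx a ha =>
    (Subgroup.mem_centralizer_iff.1 hx a ha).symm
  have hderived : ⁅N, N⁆ ≤ A := by
    haveI : (⁅N, N⁆ ⊔ A : Subgroup G).Normal := inferInstance
    by_contra hnot
    have hlt : A < ⁅N, N⁆ ⊔ A := lt_of_le_of_ne le_sup_right fun h => hnot (h ▸ le_sup_left)
    have heq := hNmin' _ inferInstance hlt (sup_le (Subgroup.commutator_le_left N N) hAN.le)
    let f := QuotientGroup.mk' A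
    have hfA : A.map f = ⊥ := by
      rw [Subgroup.map_eq_bot_iff, QuotientGroup.ker_mk']
    have hperf : ⁅N.map f, N.map f⁆ = N.map f := by
      conv_rhs => rw [← heq, Subgroup.map_sup, hfA, sup_bot_eq, Subgroup.map_commutator]
    haveI := hsol
    haveI : Group.IsSolvable (G ⧸ A) := Group.isSolvable_of_surjective (f := f) (QuotientGroup.mk'_surjective A)
    have hser : ∀ m, N.map f ≤ derivedSeries (G ⧸ A) m := by
      intro m
      induction m with
      | zero => exact le_top
      | succ m ih =>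
        rw [derivedSeries_succ, ← hperf]
        exact Subgroup.commutator_mono ih ih
    obtain ⟨m, hm⟩ := (Group.isSolvable_def (G ⧸ A)).mp inferInstance
    have hbot : N.map f = ⊥ := le_bot_iff.mp (hm ▸ hser m)
    rw [Subgroup.map_eq_bot_iff, QuotientGroup.ker_mk'] at hbot
    exact absurd hbot (not_le_of_gt hAN)
  have hcm : ∀ u v : N, ((⁅u, v⁆ : N) : G) ∈ A := fun u v =>
    hderived (Subgroup.commutator_mem_commutator u.2 v.2)
  set A' := A.subgroupOf N with hA'
  have hWcomm : ∀ a b : N ⧸ A', a * b = b * a := by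
    intro a b
    induction a using QuotientGroup.induction_on with
    | H a =>
      induction b using QuotientGroup.induction_on with
      | H b =>
        refine QuotientGroup.eq.2 ?_
        rw [show (a * b)⁻¹ * (b * a) = ⁅b⁻¹, a⁻¹⁆ by rw [commutatorElement_def]; group]
        exact hcm _ _
  letI instW : CommGroup (N ⧸ A') :=
    { (inferInstance : Group (N ⧸ A')) with mul_comm := hWcomm }
  haveI : Nontrivial (N ⧸ A') := by
    rw [QuotientGroup.nontrivial_iff]
    intro h
    exact absurd (Subgroup.subgroupOf_eq_top.mp h) (not_le_of_gt hAN)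
  -- exponent
  obtain ⟨s, hs, w0, hw0⟩ : ∃ s : ℕ, s.Prime ∧ ∃ w0 : N ⧸ A', orderOf w0 = s := by
    obtain ⟨s, hs, hsd⟩ := Nat.exists_prime_and_dvd (Finite.one_lt_card (α := N ⧸ A')).ne'
    haveI := Fact.mk hs
    exact ⟨s, hs, exists_prime_orderOf_dvd_card' s hsd⟩
  haveI := Fact.mk hs
  have hexp : ∀ w : N ⧸ A', w ^ s = 1 := by
    let L : Subgroup N := ((powMonoidHom s : N ⧸ A' →* N ⧸ A').ker).comap (QuotientGroup.mk' A')
    have hLmem : ∀ u : N, u ∈ L ↔ ((u ^ s : N) : G) ∈ A := fun u => by
      show (QuotientGroup.mk' A' u) ^ s = 1 ↔ _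
      rw [← map_pow, QuotientGroup.mk'_apply, QuotientGroup.eq_one_iff, Subgroup.mem_subgroupOf]
    let M := L.map N.subtype
    haveI : M.Normal := by
      refine ⟨fun m hm g => ?_⟩
      obtain ⟨u, hu, rfl⟩ := hm
      refine ⟨⟨g * u * g⁻¹, hNn.conj_mem _ u.2 g⟩, ?_, rfl⟩
      rw [SetLike.mem_coe, hLmem] at hu ⊢
      rw [Subgroup.coe_pow] at hu ⊢
      show (g * (u : G) * g⁻¹) ^ s ∈ A
      rw [conj_pow]
      exact Subgroup.Normal.conj_mem ‹A.Normal› _ hu g
    have hAM : A < M := by
      refine lt_of_le_of_ne (fun a ha => ⟨⟨a, hAN.le ha⟩, (hLmem _).2 (A.pow_mem ha s), rfl⟩) fun h => ?_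
      obtain ⟨u, rfl⟩ := QuotientGroup.mk_surjective w0
      have hu : (u : G) ∈ M := ⟨u, by
        show (QuotientGroup.mk' A' u) ^ s = 1
        rw [← hw0]; exact pow_orderOf_eq_one _, rfl⟩
      rw [← h] at hu
      rw [(QuotientGroup.eq_one_iff u).2 hu, orderOf_one] at hw0
      exact hs.ne_one hw0.symm
    have hMN := hNmin' M inferInstance hAM (Subgroup.map_subtype_le L)
    intro w
    obtain ⟨u, rfl⟩ := QuotientGroup.mk_surjective w
    have hu : (u : G) ∈ M := hMN.symm ▸ u.2
    obtain ⟨u', hu', he⟩ := hu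
    obtain rfl : u' = u := Subtype.ext he
    exact hu'
  have hsmul : ∀ w : Additive (N ⧸ A'), s • w = 0 := fun w => by
    show Additive.ofMul (Additive.toMul w ^ s) = 0
    rw [hexp]; rfl
  obtain ⟨t, hcardW⟩ := IsPGroup.iff_card.1 (show IsPGroup s (N ⧸ A') from fun w => ⟨1, by rw [pow_one, hexp]⟩)
  -- the pairing
  haveI := hA
  letI : CommGroup A := { (inferInstance : Group A) with mul_comm := fun a b => hA.is_comm.comm a b }
  have hcc : ∀ (u : N) (a : G), a ∈ A → (u : G) * a * (u : G)⁻¹ = a := fun u a ha => by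
    rw [hcentA u (hNC u.2) a ha, mul_inv_cancel_right]
  have hbil : ∀ x y v : N, (⁅x * y, v⁆ : N) = ⁅x, v⁆ * ⁅y, v⁆ := fun x y v => by
    have e : (⁅x * y, v⁆ : N) = x * ⁅y, v⁆ * x⁻¹ * ⁅x, v⁆ := by simp only [commutatorElement_def]; group
    have hx : x * ⁅y, v⁆ * x⁻¹ = ⁅y, v⁆ := Subtype.ext (hcc x _ (hcm y v))
    rw [e, hx]
    exact Subtype.ext (hcentA _ (hNC (⁅y, v⁆ : N).2) _ (hcm x v))
  let c0 : N → N →* A := fun v => MonoidHom.mk' (fun u => ⟨((⁅u, v⁆ : N) : G), hcm u v⟩)
    fun x y => Subtype.ext (congrArg (fun z : N => (z : G)) (hbil x y v))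
  let c1 : N → (N ⧸ A') →* A := fun v => QuotientGroup.lift A' (c0 v) fun a ha => by
    refine MonoidHom.mem_ker.2 (Subtype.ext ?_)
    show (a : G) * v * (a : G)⁻¹ * (v : G)⁻¹ = 1
    rw [← hcentA v (hNC v.2) a ha, mul_inv_cancel_right, mul_inv_cancel]
  have hskew : ∀ u v : N, c1 v (u : N ⧸ A') = (c1 u (v : N ⧸ A'))⁻¹ := fun u v =>
    Subtype.ext (by
      show ((⁅u, v⁆ : N) : G) = ((⁅v, u⁆ : N) : G)⁻¹
      rw [← Subgroup.coe_inv, commutatorElement_inv])
  let B2 : (N ⧸ A') → (N ⧸ A') →* A := fun w => c1 w.out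
  have hB2 : ∀ u v : N, B2 (v : N ⧸ A') (u : N ⧸ A') = c1 v (u : N ⧸ A') := fun u v => by
    show c1 _ _ = _
    rw [hskew u, hskew u v, QuotientGroup.out_eq']
  let B : Additive (N ⧸ A') →+ Additive (N ⧸ A') →+ Additive A :=
    AddMonoidHom.mk' (fun w => (B2 (Additive.toMul w)).toAdditive) (by
      intro a b
      refine AddMonoidHom.ext fun u => ?_
      obtain ⟨a, rfl⟩ := QuotientGroup.mk_surjective (Additive.toMul a)
      obtain ⟨b, rfl⟩ := QuotientGroup.mk_surjective (Additive.toMul b)
      obtain ⟨u, rfl⟩ := QuotientGroup.mk_surjective (Additive.toMul u)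
      show Additive.ofMul (B2 ((a * b : N) : N ⧸ A') (u : N ⧸ A')) =
        Additive.ofMul (B2 (a : N ⧸ A') (u : N ⧸ A')) + Additive.ofMul (B2 (b : N ⧸ A') (u : N ⧸ A'))
      rw [hB2, hB2, hB2, ← ofMul_mul, hskew u (a * b), hskew u a, hskew u b, QuotientGroup.mk_mul, map_mul,
        mul_inv])
  have hBmk : ∀ u v : N, B (Additive.ofMul (v : N ⧸ A')) (Additive.ofMul (u : N ⧸ A')) =
      Additive.ofMul (⟨((⁅u, v⁆ : N) : G), hcm u v⟩ : A) := fun u v => congrArg Additive.ofMul (hB2 u v)
  -- only elements of `A` commute with all of `N`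
  have hrad : ∀ u : N, (∀ v : N, u * v = v * u) → (u : G) ∈ A := by
    intro u hu
    let Z := N ⊓ Subgroup.centralizer (N : Set G)
    have hZA : Z = A := by
      refine hmax Z inferInstance ⟨⟨fun a b => Subtype.ext (Subgroup.mem_centralizer_iff.1 b.2.2 a a.2.1)⟩⟩
        (le_inf hAN.le fun a ha => Subgroup.mem_centralizer_iff.2 fun v hv => ?_)
      exact hcentA v (hNC hv) a ha
    rw [← hZA]
    exact ⟨u.2, Subgroup.mem_centralizer_iff.2 fun v hv => congrArg Subtype.val (hu ⟨v, hv⟩).symm⟩
  have hnd' : ∀ v, (∀ u, B u v = 0) → v = 0 := by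
    intro v hv
    obtain ⟨v, rfl⟩ := QuotientGroup.mk_surjective (Additive.toMul v)
    refine congrArg Additive.ofMul ((QuotientGroup.eq_one_iff v).2 (hrad v fun u => ?_))
    have h := hv (Additive.ofMul (u : N ⧸ A'))
    have h' : B (Additive.ofMul (u : N ⧸ A')) (Additive.ofMul (v : N ⧸ A')) = 0 := h
    rw [hBmk] at h'
    have h2 : ((⁅v, u⁆ : N) : G) = 1 := congrArg (fun z : Additive A => ((Additive.toMul z : A) : G)) h'
    exact commutatorElement_eq_one_iff_mul_comm.1 (Subtype.ext h2)
  have halt : ∀ u, B u u = 0 := by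
    intro u
    obtain ⟨u, rfl⟩ := QuotientGroup.mk_surjective (Additive.toMul u)
    refine (hBmk u u).trans (congrArg Additive.ofMul (Subtype.ext ?_))
    show ((⁅u, u⁆ : N) : G) = 1
    rw [commutatorElement_self, Subgroup.coe_one]
  -- an element of order `s` in `A`
  have hsA : s ∣ Nat.card A := by
    obtain ⟨v, hv⟩ := exists_ne (1 : N ⧸ A')
    obtain ⟨u, hu⟩ : ∃ u, B u (Additive.ofMul v) ≠ 0 := by
      by_contra hcon
      push Not at hcon
      exact hv (congrArg Additive.toMul (hnd' (Additive.ofMul v) hcon))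
    have h1 : s • B u (Additive.ofMul v) = 0 := by
      rw [← AddMonoidHom.nsmul_apply, ← map_nsmul, hsmul u]
      simp
    have h2 : (Additive.toMul (B u (Additive.ofMul v)) : A) ^ s = 1 := congrArg Additive.toMul h1
    rw [← orderOf_eq_prime h2 (fun h => hu (congrArg Additive.ofMul h))]
    exact orderOf_dvd_natCard _
  have hsk : s ∣ p ^ k - 1 := hsA.trans hAdvd
  have hsp : s ≠ p := fun h => by
    subst h
    have h1 : s ∣ s ^ k - (s ^ k - 1) := Nat.dvd_sub (dvd_pow_self s hk.ne') hsk
    rw [Nat.sub_sub_self (by omega)] at h1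
    exact hs.not_dvd_one h1
  -- the representatives are independent over the field
  have hWd : s ^ t ≤ d * d ∧ (s ^ t = d * d → C ⊓ Subgroup.centralizer (N : Set G) = A) := by
    haveI := finite_alg (ρ := ρ) A
    haveI := isDomain_alg htrans hA
    haveI := Fintype.ofFinite (alg ρ A)
    letI : CommRing (alg ρ A) :=
      { (inferInstance : Ring (alg ρ A)) with
        mul_comm := fun r s => Subtype.ext (alg_comm hA r.2 s.2) }
    haveI : IsDomain (alg ρ A) := isDomain_alg htrans hA
    letI : Field (alg ρ A) := (Finite.isDomain_to_isField (alg ρ A)).toField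
    obtain ⟨N', ⟨eq⟩⟩ : ∃ N' : ℕ, Nonempty (alg ρ A ≃ Carrier N') :=
      ⟨_, ⟨(Finite.equivFin (alg ρ A))⟩⟩
    letI : Field (Carrier N') := eq.symm.field
    let er : alg ρ A ≃+* Carrier N' := (eq.symm.ringEquiv).symm
    let ι : Carrier N' →+* Module.End (ZMod p) V := (alg ρ A).val.toRingHom.comp er.symm.toRingHom
    have hι : ∀ c : Carrier N', ι c ∈ alg ρ A := fun c => (er.symm c).2
    letI : Module (Carrier N') V := Module.compHom V ι
    have hdV : Module.finrank (Carrier N') V = d := by
      have h1 := Module.natCard_eq_pow_finrank (K := Carrier N') (V := V)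
      rw [← Nat.card_congr er.toEquiv, card_alg, ← pow_mul,
        Module.natCard_eq_pow_finrank (K := ZMod p) (V := V), Nat.card_zmod, ← hn, hnd] at h1
      exact (Nat.eq_of_mul_eq_mul_left hk (Nat.pow_right_injective hp.out.two_le h1)).symm
    let lin : C → (V →ₗ[Carrier N'] V) := fun x =>
      { toFun := fun v => ρ (x : G) v
        map_add' := fun a b => map_add _ a b
        map_smul' := fun c v => LinearMap.congr_fun (alg_commute x.2 (hι c)) v }
    let u : N ⧸ A' → (V →ₗ[Carrier N'] V) := fun w => lin ⟨(w.out : G), hNC w.out.2⟩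
    have hli : LinearIndependent (Carrier N') u := by
      haveI := Fintype.ofFinite (N ⧸ A')
      rw [linearIndependent_iff']
      suffices ∀ (m : ℕ) (S : Finset (N ⧸ A')), S.card ≤ m → ∀ c : N ⧸ A' → Carrier N',
          ∑ w ∈ S, c w • u w = 0 → ∀ w ∈ S, c w = 0 from fun S c => this S.card S le_rfl c
      intro m
      induction m with
      | zero => intro S hS c _ w hw; rw [Finset.card_eq_zero.mp (by omega : S.card = 0)] at hw; simp at hw
      | succ m ih =>
        intro S hS c hsum w0 hw0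
        by_contra hc0
        -- a second index
        obtain ⟨w1, hw1, hne, hc1⟩ : ∃ w1 ∈ S, w1 ≠ w0 ∧ c w1 ≠ 0 := by
          by_contra hcon
          push Not at hcon
          apply hc0
          rw [Finset.sum_eq_single_of_mem w0 hw0 (fun b hb hbne => by rw [hcon b hb hbne, zero_smul])] at hsum
          obtain ⟨v, hv⟩ := exists_ne (0 : V)
          have h := LinearMap.congr_fun hsum v
          have h0 : er.symm (c w0) = 0 :=
            Subtype.ext (alg_eq_zero htrans hA (er.symm (c w0)).2 (endHom_ne_zero (w0.out : G) hv) h)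
          exact er.symm.map_eq_zero_iff.mp h0
        -- separate the two
        obtain ⟨y, hy⟩ : ∃ y : N, (⁅y, w0.out⁆ : N) ≠ ⁅y, w1.out⁆ := by
          by_contra hcon
          push Not at hcon
          apply hne
          have h : ∀ x, B x (Additive.ofMul (w0⁻¹ * w1)) = 0 := by
            intro x
            obtain ⟨x, rfl⟩ := QuotientGroup.mk_surjective (Additive.toMul x)
            show B (Additive.ofMul (x : N ⧸ A')) (Additive.ofMul (w0⁻¹ * w1)) = 0
            rw [ofMul_mul, ofMul_inv, map_add, map_neg, ← QuotientGroup.out_eq' w0, ← QuotientGroup.out_eq' w1,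
              hBmk, hBmk, neg_add_eq_zero]
            refine congrArg Additive.ofMul (Subtype.ext ?_)
            have h2 := hcon x
            show ((⁅w0.out, x⁆ : N) : G) = ((⁅w1.out, x⁆ : N) : G)
            rw [← commutatorElement_inv, ← commutatorElement_inv (x) (w1.out), h2]
          have h3 : w0⁻¹ * w1 = 1 := congrArg Additive.toMul (hnd' _ h)
          rw [inv_mul_eq_one] at h3
          exact h3.symm
        let e : N ⧸ A' → Carrier N' := fun w =>
          er ⟨endHom ρ ((⁅y, w.out⁆ : N) : G), mem_alg (hcm y w.out)⟩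
        have hsum2 : ∑ w ∈ S, (c w * e w) • u w = 0 := by
          refine LinearMap.ext fun v => ?_
          have h := LinearMap.congr_fun hsum (endHom ρ (y : G)⁻¹ v)
          have h2 := congrArg (endHom ρ (y : G)) h
          rw [LinearMap.sum_apply, map_sum, LinearMap.zero_apply, map_zero] at h2
          rw [LinearMap.sum_apply, LinearMap.zero_apply, ← h2]
          refine Finset.sum_congr rfl fun w _ => ?_
          show ι (c w * e w) (endHom ρ (w.out : G) v) =
            endHom ρ (y : G) (ι (c w) (endHom ρ (w.out : G) (endHom ρ (y : G)⁻¹ v)))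
          rw [map_mul, Module.End.mul_apply, show ι (e w) = endHom ρ ((⁅y, w.out⁆ : N) : G) by
              show ((er.symm (er _) : alg ρ A) : Module.End (ZMod p) V) = _
              rw [er.symm_apply_apply],
            show endHom ρ (y : G) (ι (c w) (endHom ρ (w.out : G) (endHom ρ (y : G)⁻¹ v))) =
              ι (c w) (endHom ρ (y : G) (endHom ρ (w.out : G) (endHom ρ (y : G)⁻¹ v))) from
            LinearMap.congr_fun (alg_commute (hNC y.2) (hι (c w))) _]
          congr 1
          simp only [← Module.End.mul_apply, ← map_mul]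
          congr 2
          simp only [commutatorElement_def, Subgroup.coe_mul, Subgroup.coe_inv]
          group
        have hsum3 : ∑ w ∈ S.erase w0, (c w * (e w - e w0)) • u w = 0 := by
          have h1 : ∑ w ∈ S, (c w * (e w - e w0)) • u w = 0 := by
            calc ∑ w ∈ S, (c w * (e w - e w0)) • u w
                = ∑ w ∈ S, ((c w * e w) • u w - e w0 • (c w • u w)) := Finset.sum_congr rfl fun w _ => by
                  rw [mul_sub, sub_smul, smul_smul, mul_comm (e w0)]
              _ = 0 := by rw [Finset.sum_sub_distrib, hsum2, ← Finset.smul_sum, hsum, smul_zero, sub_zero]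
          rw [← Finset.add_sum_erase S _ hw0, sub_self, mul_zero, zero_smul, zero_add] at h1
          exact h1
        have h := ih (S.erase w0) (by rw [Finset.card_erase_of_mem hw0]; omega) _ hsum3 w1
          (Finset.mem_erase.mpr ⟨hne, hw1⟩)
        rcases mul_eq_zero.mp h with h | h
        · exact hc1 h
        · exact hy (Subtype.ext (endHom_injective hρ (congrArg Subtype.val (er.injective (sub_eq_zero.mp h)))).symm)
    have hrank : Module.finrank (Carrier N') (V →ₗ[Carrier N'] V) = d * d := by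
      rw [Module.finrank_linearMap, hdV]
    haveI := Fintype.ofFinite (N ⧸ A')
    have hle := hli.fintype_card_le_finrank
    rw [hrank, ← Nat.card_eq_fintype_card, hcardW] at hle
    refine ⟨hle, fun heq => ?_⟩
    have hspan : Submodule.span (Carrier N') (Set.range u) = ⊤ := hli.span_eq_top_of_card_eq_finrank'
      (by rw [hrank, ← heq, ← hcardW, Nat.card_eq_fintype_card])
    refine hmax _ inferInstance ⟨⟨fun a b => Subtype.ext ?_⟩⟩
      (le_inf hAC fun a ha => Subgroup.mem_centralizer_iff.2 fun v hv => hcentA v (hNC hv) a ha)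
    let la := lin ⟨(a : G), a.2.1⟩
    let lb := lin ⟨(b : G), b.2.1⟩
    have hcomm : ∀ f ∈ Submodule.span (Carrier N') (Set.range u), lb.comp f = f.comp lb := by
      intro f hf
      induction hf using Submodule.span_induction with
      | mem f hf =>
        obtain ⟨w, rfl⟩ := hf
        refine LinearMap.ext fun v => ?_
        have := Subgroup.mem_centralizer_iff.1 b.2.2 (w.out : G) w.out.2
        show ρ (b : G) (ρ (w.out : G) v) = ρ (w.out : G) (ρ (b : G) v)
        rw [← LinearEquiv.mul_apply, ← LinearEquiv.mul_apply, ← map_mul, ← map_mul, this]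
      | zero => simp
      | add f g _ _ hf hg => rw [LinearMap.comp_add, LinearMap.add_comp, hf, hg]
      | smul c f _ hf => rw [LinearMap.comp_smul, LinearMap.smul_comp, hf]
    have h := hcomm la (hspan ▸ Submodule.mem_top)
    refine hρ (LinearEquiv.ext fun v => ?_)
    show ρ ((a : G) * b) v = ρ ((b : G) * a) v
    rw [map_mul, map_mul, LinearEquiv.mul_apply, LinearEquiv.mul_apply]
    exact (LinearMap.congr_fun h v).symm
  obtain ⟨hWle, hWfull⟩ := hWd
  -- the dimension of the section
  have ht2 : 2 ≤ t := by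
    by_contra hlt
    have h1 : t = 1 := by
      rcases Nat.eq_zero_or_pos t with h | h
      · exfalso
        rw [h, pow_zero] at hcardW
        exact absurd hcardW (Finite.one_lt_card (α := N ⧸ A')).ne'
      · omega
    rw [h1, pow_one] at hcardW
    haveI : IsCyclic (N ⧸ A') := isCyclic_of_prime_card hcardW
    obtain ⟨g, hg⟩ := IsCyclic.exists_generator (α := N ⧸ A')
    obtain ⟨v, hv⟩ := exists_ne (1 : N ⧸ A')
    refine hv (congrArg Additive.toMul (hnd' (Additive.ofMul v) fun u => ?_))
    obtain ⟨a, ha⟩ := Subgroup.mem_zpowers_iff.mp (hg v)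
    obtain ⟨b, hb⟩ := Subgroup.mem_zpowers_iff.mp (hg (Additive.toMul u))
    rw [← ha, show u = Additive.ofMul (g ^ b) by rw [hb]; rfl, ofMul_zpow, ofMul_zpow, map_zsmul, map_zsmul,
      AddMonoidHom.zsmul_apply, halt, zsmul_zero, zsmul_zero]
  -- conjugation on the section
  have hmapA : ∀ x : C, A'.map (MulAut.conjNormal (H := N) (x : G)).toMonoidHom = A' := by
    intro x
    ext u
    constructor
    · rintro ⟨v, hv, rfl⟩
      exact Subgroup.Normal.conj_mem ‹A.Normal› _ hv _
    · intro hu
      refine ⟨(MulAut.conjNormal (H := N) (x : G))⁻¹ u, ?_, (MulAut.conjNormal (H := N) (x : G)).apply_symm_apply u⟩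
      rw [SetLike.mem_coe, Subgroup.mem_subgroupOf, ← map_inv, MulAut.conjNormal_apply, inv_inv]
      have := Subgroup.Normal.conj_mem ‹A.Normal› (u : G) hu (x : G)⁻¹
      rwa [inv_inv] at this
  let φ : C →* MulAut (N ⧸ A') := MonoidHom.mk'
    (fun x => QuotientGroup.congr A' A' (MulAut.conjNormal (H := N) (x : G)) (hmapA x)) (by
      intro x y
      refine MulEquiv.ext fun w => ?_
      obtain ⟨v, rfl⟩ := QuotientGroup.mk_surjective w
      show QuotientGroup.mk _ = QuotientGroup.mk _
      exact congrArg _ (Subtype.ext (by simp [mul_assoc])))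
  have hφmk : ∀ (x : C) (u : N),
      φ x (u : N ⧸ A') = ((⟨x * u * (x : G)⁻¹, hNn.conj_mem _ u.2 _⟩ : N) : N ⧸ A') := fun x u => by
    show QuotientGroup.mk _ = _
    exact congrArg _ (Subtype.ext (MulAut.conjNormal_apply _ _))
  have hfixK : ∀ x : C, φ x = 1 → ∀ u : N, (u : G)⁻¹ * ((x : G) * u * (x : G)⁻¹) ∈ A := by
    intro x hx u
    have h := hφmk x u
    rw [hx, MulAut.one_apply] at h
    exact Subgroup.mem_subgroupOf.1 (QuotientGroup.eq.1 h)
  have hAs : ∀ x : C, φ x = 1 → ∀ u : N, ((u : G)⁻¹ * ((x : G) * u * (x : G)⁻¹)) ^ s = 1 := by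
    intro x hx u
    set a := (u : G)⁻¹ * ((x : G) * u * (x : G)⁻¹) with ha
    have haA := hfixK x hx u
    have hus : ((u : G)) ^ s ∈ A := by
      have h := hexp (u : N ⧸ A')
      rw [← QuotientGroup.mk_pow, QuotientGroup.eq_one_iff, Subgroup.mem_subgroupOf] at h
      simpa using h
    have hc : Commute (u : G) a := hcentA u (hNC u.2) a haA
    have h1 : ((u : G) * a) ^ s = (u : G) ^ s := by
      rw [ha, mul_inv_cancel_left, conj_pow, hcentA _ x.2 _ hus, mul_inv_cancel_right]
    rwa [hc.mul_pow, mul_eq_left] at h1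
  have hpow : ∀ x : C, φ x = 1 → ∀ u : N, ∀ m : ℕ,
      (x : G) ^ m * u * ((x : G) ^ m)⁻¹ = u * ((u : G)⁻¹ * ((x : G) * u * (x : G)⁻¹)) ^ m := by
    intro x hx u m
    induction m with
    | zero => simp
    | succ m ih =>
      set a := (u : G)⁻¹ * ((x : G) * u * (x : G)⁻¹) with ha
      have hxa : (x : G) * a * (x : G)⁻¹ = a := by
        rw [hcentA _ x.2 a (hfixK x hx u), mul_inv_cancel_right]
      calc (x : G) ^ (m + 1) * u * ((x : G) ^ (m + 1))⁻¹
          = (x : G) * ((x : G) ^ m * u * ((x : G) ^ m)⁻¹) * (x : G)⁻¹ := by rw [pow_succ']; group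
        _ = (x : G) * u * (x : G)⁻¹ * ((x : G) * a ^ m * (x : G)⁻¹) := by rw [ih]; group
        _ = u * a ^ (m + 1) := by rw [← conj_pow, hxa, pow_succ', ← mul_assoc, ha, mul_inv_cancel_left]
  -- elements of prime order outside `s` acting trivially on the section centralize `N`
  have hno : ∀ (x : C) (r : ℕ), r.Prime → r ≠ s → orderOf (x : G) = r → φ x = 1 →
      (x : G) ∈ Subgroup.centralizer (N : Set G) := by
    intro x r hr hrs hxr hx
    refine Subgroup.mem_centralizer_iff.2 fun v hv => ?_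
    have h1 := hpow x hx ⟨v, hv⟩ r
    rw [← hxr, pow_orderOf_eq_one, hxr, one_mul, inv_one, mul_one] at h1
    have ha1 : ((v : G)⁻¹ * ((x : G) * v * (x : G)⁻¹)) = 1 := orderOf_eq_one_iff.1
      (Nat.eq_one_of_dvd_coprimes ((Nat.coprime_primes hr hs).mpr hrs)
        (orderOf_dvd_of_pow_eq_one (left_eq_mul.mp h1)) (orderOf_dvd_of_pow_eq_one (hAs x hx ⟨v, hv⟩)))
    exact (mul_inv_eq_iff_eq_mul.1 (inv_mul_eq_one.1 ha1).symm).symm
  have hinC : ∀ (x : G) (r : ℕ), r.Prime → k < r → orderOf x = r → x ∈ C := by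
    intro x r hr hkr hx
    rw [← QuotientGroup.eq_one_iff, ← orderOf_eq_one_iff]
    have h1 : orderOf (QuotientGroup.mk' C x) ∣ r := hx ▸ orderOf_map_dvd _ x
    have h2 : orderOf (QuotientGroup.mk' C x) ∣ C.index := orderOf_dvd_natCard _
    rcases (Nat.dvd_prime hr).mp h1 with h | h
    · exact h
    · exfalso
      rw [h] at h2
      have := Nat.le_of_dvd (Nat.pos_of_dvd_of_pos hidx hk) h2
      have := Nat.le_of_dvd hk hidx
      omega
  have hNna : ∃ u v : N, u * v ≠ v * u := by
    by_contra hcon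
    push Not at hcon
    obtain ⟨u, hu, hu'⟩ := SetLike.exists_of_lt hAN
    exact hu' (hrad ⟨u, hu⟩ (hcon _))
  -- a large primitive prime
  have hprimitive : ∀ r : ℕ, r.Prime → r ∣ p ^ n - 1 → (∀ j, 0 < j → j < n → ¬ r ∣ p ^ j - 1) → 3 ≤ n →
      k = 1 ∧ r = n + 1 ∧ s = 2 ∧ ∃ l, 2 ≤ l ∧ n = 2 ^ l ∧ t = 2 * l ∧
        ∀ x : C, orderOf (x : G) = r → φ x ≠ 1 := by
    intro r hr hrn hprim hn3
    haveI := Fact.mk hr
    have hrp : r ≠ p := fun h => by
      subst h
      have h1 : r ∣ r ^ n - (r ^ n - 1) := Nat.dvd_sub (dvd_pow_self r (by omega)) hrn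
      rw [Nat.sub_sub_self (Nat.one_le_pow _ _ hr.pos)] at h1
      exact hr.not_dvd_one h1
    have hrn1 : n + 1 ≤ r := by
      by_contra hlt
      have h2 := hr.two_le
      refine hprim (r - 1) (by omega) (by omega) ?_
      have h := Nat.ModEq.pow_totient ((Nat.coprime_primes hp.out hr).mpr (Ne.symm hrp))
      rw [Nat.totient_prime hr] at h
      exact (Nat.modEq_iff_dvd' (Nat.one_le_pow _ _ hp.out.pos)).mp h.symm
    have hrs : r ≠ s := fun h => hprim k hk hkn (h ▸ hsk)
    have hact : ∀ x : C, orderOf (x : G) = r → φ x ≠ 1 := by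
      intro x hx h1
      obtain ⟨u, v, huv⟩ := hNna
      have hc := Subgroup.mem_centralizer_iff.1 (hno x r hr hrs hx h1)
      exact huv (Subtype.ext (centralizer_comm hρ hr hprim hrp hx (hc u u.2) (hc v v.2)))
    obtain ⟨x, hx⟩ := exists_prime_orderOf_dvd_card' r (hrn.trans hGdvd)
    let xC : C := ⟨x, hinC x r hr (by omega) hx⟩
    have hxC : orderOf (xC : G) = r := hx
    have hφr : φ xC ^ r = 1 := by
      rw [← map_pow, ← map_one φ]
      exact congrArg φ (Subtype.ext (by rw [Subgroup.coe_pow, ← hxC, pow_orderOf_eq_one]; rfl))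
    obtain ⟨l, hl0, hlt, hl⟩ := order_bound_group hr hrs hexp hcardW B halt hnd' (φ xC) hφr
      (hact xC hxC) (by
      intro u v
      obtain ⟨u, rfl⟩ := QuotientGroup.mk_surjective (Additive.toMul u)
      obtain ⟨v, rfl⟩ := QuotientGroup.mk_surjective (Additive.toMul v)
      show B (Additive.ofMul (φ xC (u : N ⧸ A'))) (Additive.ofMul (φ xC (v : N ⧸ A'))) =
        B (Additive.ofMul (u : N ⧸ A')) (Additive.ofMul (v : N ⧸ A'))
      rw [hφmk, hφmk, hBmk, hBmk]
      refine congrArg Additive.ofMul (Subtype.ext ?_)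
      have h := hcentA x xC.2 _ (hcm v u)
      show _ = ((⁅v, u⁆ : N) : G)
      rw [show ((⁅v, u⁆ : N) : G) = x * ((⁅v, u⁆ : N) : G) * x⁻¹ by rw [h, mul_inv_cancel_right]]
      simp only [commutatorElement_def, Subgroup.coe_mul, Subgroup.coe_inv, xC]
      group)
    have hsl : s ^ l ≤ d := by
      have : (s ^ l) ^ 2 ≤ d ^ 2 := by
        rw [← pow_mul, mul_comm l 2, sq]
        exact (Nat.pow_le_pow_right hs.pos hlt).trans hWle
      exact (Nat.pow_le_pow_iff_left two_ne_zero).mp this
    have hd1 : d ≤ n := by rw [hnd]; exact Nat.le_mul_of_pos_left d hk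
    have hsl1 : 1 < s ^ l := Nat.one_lt_pow hl0.ne' hs.one_lt
    have hl' : r ∣ s ^ l + 1 := by
      rcases hl with h | h
      · exact h
      · have := Nat.le_of_dvd (by omega) h
        omega
    have hrle := Nat.le_of_dvd (by omega) hl'
    have hdn : d = n := by omega
    have hk1 : k = 1 := by
      rw [← hdn] at hnd
      exact Nat.eq_of_mul_eq_mul_right (by omega : 0 < d) (by omega)
    have hs2 : s = 2 := by
      by_contra hne
      have h1 := Nat.odd_iff.mp ((hs.odd_of_ne_two hne).pow (n := l))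
      have h2 := Nat.odd_iff.mp (hr.odd_of_ne_two (by omega))
      omega
    subst hs2
    refine ⟨hk1, by omega, rfl, l, ?_, by omega, ?_, hact⟩
    · by_contra h
      rw [show l = 1 by omega] at hsl1 hrle
      omega
    · by_contra hne
      have h1 : 2 ^ (2 * l + 1) ≤ 2 ^ t := Nat.pow_le_pow_right two_pos (by omega)
      rw [pow_succ, mul_comm 2 l, pow_mul] at h1
      have h2 : 2 ^ l = d := by omega
      rw [h2, sq] at h1
      have : 0 < d * d := Nat.mul_pos (by omega) (by omega)
      omega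
  have hV : Nat.card V = p ^ n := by
    rw [Module.natCard_eq_pow_finrank (K := ZMod p) (V := V), Nat.card_zmod]
  have hn2 : 2 ≤ n := by
    rw [hnd]; exact hd.trans (Nat.le_mul_of_pos_left d hk)
  by_cases hn3 : 3 ≤ n
  · by_cases h26 : p = 2 ∧ n = 6
    · exfalso
      obtain ⟨rfl, hn6⟩ := h26
      rw [hn6] at hnd
      have hk6 : k ∣ 6 := ⟨d, hnd⟩
      have hk6' : k ≤ 3 := by
        have := Nat.mul_le_mul_left k hd
        omega
      have h7 : 7 ∣ Nat.card G := (by rw [hn6]; norm_num : 7 ∣ 2 ^ n - 1).trans hGdvd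
      interval_cases k
      · norm_num at hsk
        exact hs.not_dvd_one (by rw [hsk])
      · -- the field of four elements
        have hs3 : s = 3 := (Nat.prime_dvd_prime_iff_eq hs Nat.prime_three).mp (by simpa using hsk)
        subst hs3
        have hd3 : d = 3 := by omega
        subst hd3
        have ht' : t = 2 := by
          by_contra hne
          have : 3 ^ 3 ≤ 3 ^ t := Nat.pow_le_pow_right (by norm_num) (by omega)
          omega
        have hCN := hWfull (by rw [ht']; norm_num)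
        haveI : Fact (Nat.Prime 7) := ⟨by norm_num⟩
        obtain ⟨x, hx⟩ := exists_prime_orderOf_dvd_card' 7 h7
        let xC : C := ⟨x, hinC x 7 (by norm_num) (by norm_num) hx⟩
        by_cases hφ : φ xC = 1
        · have hxA : x ∈ A := hCN ▸ ⟨xC.2, hno xC 7 (by norm_num) (by norm_num) hx hφ⟩
          have h1 : 7 ∣ 3 := by
            have := (hx ▸ Subgroup.orderOf_dvd_natCard A hxA).trans hAdvd
            simpa using this
          norm_num at h1
        · have h1 : orderOf (φ xC) = 7 := by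
            rcases (Nat.dvd_prime (by norm_num)).mp ((orderOf_map_dvd φ xC).trans
              (show orderOf xC ∣ 7 by rw [← Subgroup.orderOf_coe]; exact hx.dvd)) with h | h
            · exact absurd (orderOf_eq_one_iff.mp h) hφ
            · exact h
          obtain ⟨i, hi, h7i⟩ := Pairing.card_mulAut_elementary hexp hcardW 7 (by norm_num) (by norm_num)
            (h1 ▸ orderOf_dvd_natCard _)
          rw [ht'] at hi h7i
          interval_cases i <;> norm_num at h7i
      · have hs7 : s = 7 := (Nat.prime_dvd_prime_iff_eq hs (by norm_num)).mp (by simpa using hsk)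
        subst hs7
        have hd2 : d = 2 := by omega
        subst hd2
        have : 7 ^ 2 ≤ 7 ^ t := Nat.pow_le_pow_right (by norm_num) ht2
        omega
    · -- primitive primes
      obtain ⟨r, hr, hrn, hprim⟩ := hz n hn3 h26
      obtain ⟨hk1, hr1, hs2, l, hl, hnl, htl, hact⟩ := hprimitive r hr hrn hprim hn3
      subst hs2
      haveI := Fact.mk hr
      have hp2 : p ≠ 2 := fun h => hsp h.symm
      have hpodd := Nat.odd_iff.mp (hp.out.odd_of_ne_two hp2)
      have hCtop : C = ⊤ := Subgroup.index_eq_one.mp (Nat.dvd_one.mp (hk1 ▸ hidx))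
      -- `r` divides the order only once
      have hone : ¬ r ^ 2 ∣ Nat.card G := by
        intro h2
        have hK : ¬ r ∣ Nat.card φ.ker := by
          intro hd'
          obtain ⟨⟨x, hxk⟩, hx⟩ := exists_prime_orderOf_dvd_card' r hd'
          rw [Subgroup.orderOf_mk] at hx
          exact hact x (by rw [Subgroup.orderOf_coe, hx]) hxk
        have h3 : r ^ 2 ∣ Nat.card φ.range := by
          have hC' : Nat.card C = Nat.card G := by rw [hCtop, Subgroup.card_top]
          rw [← hC', ← Subgroup.card_mul_index φ.ker, Subgroup.index_ker] at h2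
          exact (((hr.coprime_iff_not_dvd).mpr hK).pow_left 2).dvd_of_dvd_mul_left h2
        have h4 := h3.trans (Subgroup.card_subgroup_dvd_card _)
        obtain ⟨j, hjt, hj⟩ := (Nat.dvd_prime_pow Nat.prime_two).mp (hcardW ▸ (frattini (N ⧸ A')).index_dvd_card)
        have h5 := h4.trans (FGS3.card_mulAut_dvd (IsPGroup.of_card hcardW) hj)
        have hr2 : r ≠ 2 := by omega
        have hcop2 : ∀ m : ℕ, (r ^ 2).Coprime (2 ^ m) := fun m =>
          ((Nat.coprime_primes hr Nat.prime_two).mpr hr2).pow 2 m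
        obtain ⟨m, -, hm⟩ := (Nat.dvd_prime_pow Nat.prime_two).mp
          (hcardW ▸ Subgroup.card_subgroup_dvd_card (frattini (N ⧸ A')))
        rw [hm, ← pow_mul] at h5
        have h6 := (hcop2 _).dvd_of_dvd_mul_left h5
        have hfac : ∀ i, i < j → (i = 0 → j ≠ 2 * l) → ¬ r ∣ 2 ^ j - 2 ^ i := by
          intro i hi hne h
          rw [show 2 ^ j - 2 ^ i = 2 ^ i * (2 ^ (j - i) - 1) by
            rw [Nat.mul_sub_one, ← pow_add, Nat.add_sub_cancel' hi.le]] at h
          rcases (Nat.Prime.dvd_mul hr).mp h with h | h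
          · exact hr2 ((Nat.prime_dvd_prime_iff_eq hr Nat.prime_two).mp (hr.dvd_of_dvd_pow h))
          have hm0 : j - i ≠ 2 * l := fun e => hne (by omega) (by omega)
          have hmlt : j - i < 2 * l := by omega
          have hrval : r = 2 ^ l + 1 := by omega
          by_cases hle : j - i ≤ l
          · have h1 : 2 ^ (j - i) ≤ 2 ^ l := Nat.pow_le_pow_right two_pos hle
            have h2 : 2 ≤ 2 ^ (j - i) := Nat.le_self_pow (by omega) 2
            have := Nat.le_of_dvd (by omega) h
            omega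
          · obtain ⟨c, hc⟩ : ∃ c, j - i = l + c := ⟨j - i - l, by omega⟩
            rw [hc] at h
            have hc1 : 2 ^ c < 2 ^ l := Nat.pow_lt_pow_right (by norm_num) (by omega)
            have hid : 2 ^ (l + c) - 1 + (2 ^ c + 1) = r * 2 ^ c := by
              rw [hrval, pow_add, add_mul, one_mul]
              obtain ⟨q, hq⟩ : ∃ q, 2 ^ l * 2 ^ c = q + 1 :=
                ⟨2 ^ l * 2 ^ c - 1, (Nat.sub_add_cancel (Nat.mul_pos (Nat.two_pow_pos l) (Nat.two_pow_pos c))).symm⟩
              rw [hq, Nat.add_sub_cancel]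
              ring
            have : r ∣ 2 ^ c + 1 := (Nat.dvd_add_right h).mp (hid ▸ dvd_mul_right r _)
            have h9 := Nat.le_of_dvd (Nat.succ_pos _) this
            omega
        have hprod : ∀ S : Finset ℕ, (∀ i ∈ S, ¬ r ∣ 2 ^ j - 2 ^ i) →
            (r ^ 2).Coprime (∏ i ∈ S, (2 ^ j - 2 ^ i)) := fun S hS =>
          Nat.Coprime.prod_right fun i hi => ((hr.coprime_iff_not_dvd).mpr (hS i hi)).pow_left 2
        by_cases hj' : j = 2 * l
        · subst hj'
          rw [← Finset.mul_prod_erase _ _ (Finset.mem_range.mpr (by omega : 0 < 2 * l))] at h6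
          have h7 := (hprod _ fun i hi => hfac i (Finset.mem_range.mp (Finset.mem_of_mem_erase hi))
            (fun e => absurd e (Finset.ne_of_mem_erase hi))).dvd_of_dvd_mul_right h6
          rw [pow_zero, show 2 ^ (2 * l) - 1 = (2 ^ l + 1) * (2 ^ l - 1) by
            rw [mul_comm 2 l, pow_mul, ← Nat.sq_sub_sq, one_pow], show 2 ^ l + 1 = r by omega, sq] at h7
          have h8 := Nat.le_of_dvd (by omega) (Nat.dvd_of_mul_dvd_mul_left hr.pos h7)
          omega
        · have h7 := hprod (Finset.range j) fun i hi => hfac i (Finset.mem_range.mp hi) fun _ => hj'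
          have : r ^ 2 = 1 := Nat.Coprime.eq_one_of_dvd (h7.coprime_dvd_left dvd_rfl) h6
          nlinarith [hr.two_le]
      -- the number `p ^ (n / 2) + 1`
      obtain ⟨m, hm⟩ : ∃ m, n = 2 * m ∧ 2 ∣ m := by
        refine ⟨2 ^ (l - 1), ?_, dvd_pow_self 2 (by omega)⟩
        rw [hnl, ← pow_succ', Nat.sub_add_cancel (by omega : 1 ≤ l)]
      have hm1 : 2 ≤ m := by obtain ⟨c, hc⟩ := hm.2; omega
      have hM4 : (p ^ m + 1) % 4 = 2 := by
        obtain ⟨c, hc⟩ := hm.2
        rw [hc, pow_mul]
        have hp4 : p ^ 2 % 4 = 1 := by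
          rw [Nat.pow_mod]
          have : p % 4 = 1 ∨ p % 4 = 3 := by omega
          rcases this with h | h <;> rw [h]
        rw [Nat.add_mod, Nat.pow_mod, hp4, one_pow]
        try norm_num
      obtain ⟨M, hM⟩ : ∃ M, p ^ m + 1 = 2 * M ∧ M % 2 = 1 := ⟨(p ^ m + 1) / 2, by omega⟩
      have hMdvd : M ∣ p ^ n - 1 := by
        rw [hm.1, mul_comm 2 m, pow_mul, show (p ^ m) ^ 2 - 1 = (p ^ m + 1) * (p ^ m - 1) by
          rw [← Nat.sq_sub_sq, one_pow], hM.1]
        exact dvd_mul_of_dvd_left (dvd_mul_left M 2) _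
      have hall : ∀ q : ℕ, q.Prime → q ∣ M → q = r := by
        intro q hq hqM
        have hq2 : q ≠ 2 := by rintro rfl; omega
        have hqn := hqM.trans hMdvd
        have hqprim : ∀ i, 0 < i → i < n → ¬ q ∣ p ^ i - 1 := by
          intro i hi0 hin hqi
          haveI := Fact.mk hq
          have hone' : ∀ e, q ∣ p ^ e - 1 ↔ (p : ZMod q) ^ e = 1 := fun e => by
            rw [← ZMod.natCast_eq_zero_iff, Nat.cast_sub (Nat.one_le_pow _ _ hp.out.pos), sub_eq_zero]
            push_cast; rfl
          have h1 := orderOf_dvd_of_pow_eq_one ((hone' i).mp hqi)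
          have h2 := orderOf_dvd_of_pow_eq_one ((hone' n).mp hqn)
          obtain ⟨e, he, heq⟩ := (Nat.dvd_prime_pow Nat.prime_two).mp (hnl ▸ h2)
          have he' : e < l := by
            rcases he.lt_or_eq with h | h
            · exact h
            · exfalso
              subst h
              rw [heq, ← hnl] at h1
              exact absurd (Nat.le_of_dvd hi0 h1) (by omega)
          have hdm : orderOf (p : ZMod q) ∣ m := by
            have hmv : m = 2 ^ (l - 1) := by
              have : 2 * m = 2 * 2 ^ (l - 1) := by rw [← hm.1, hnl, ← pow_succ', Nat.sub_add_cancel (by omega : 1 ≤ l)]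
              omega
            rw [heq, hmv]
            exact pow_dvd_pow 2 (by omega)
          have h4 : q ∣ p ^ m - 1 := (hone' m).mpr (orderOf_dvd_iff_pow_eq_one.mp hdm)
          have h5 : q ∣ p ^ m + 1 := hM.1 ▸ dvd_mul_of_dvd_right hqM 2
          have h6 : q ∣ p ^ m + 1 - (p ^ m - 1) := Nat.dvd_sub h5 h4
          rw [show p ^ m + 1 - (p ^ m - 1) = 2 by have := Nat.one_le_pow m p hp.out.pos; omega] at h6
          exact hq2 ((Nat.prime_dvd_prime_iff_eq hq Nat.prime_two).mp h6)
        obtain ⟨-, hq1, -⟩ := hprimitive q hq hqn hqprim hn3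
        omega
      have hMle : M ≤ r := by
        by_contra hlt
        have hM1 : M ≠ 1 := by have := hr.two_le; omega
        obtain ⟨c, hc⟩ := hall _ (Nat.minFac_prime hM1) (Nat.minFac_dvd M) ▸ Nat.minFac_dvd M
        have hc1 : c ≠ 1 := by rintro rfl; omega
        obtain ⟨e, he⟩ := Nat.minFac_dvd c
        have hcr := hall _ (Nat.minFac_prime hc1) (hc ▸ dvd_mul_of_dvd_right (Nat.minFac_dvd c) r)
        refine hone (dvd_trans ?_ (hMdvd.trans hGdvd))
        rw [sq, hc]
        exact Nat.mul_dvd_mul_left r (hcr ▸ Nat.minFac_dvd c)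
      rw [hr1] at hMle
      have hbound : p ^ m ≤ 4 * m + 1 := by omega
      have hp3 : 3 ≤ p := by have := hp.out.two_le; omega
      have hm3 : m < 3 := by
        by_contra hge
        have key : ∀ a, 3 ≤ a → 4 * a + 1 < 3 ^ a := by
          intro a ha
          induction a, ha using Nat.le_induction with
          | base => norm_num
          | succ a ha ih => rw [pow_succ]; omega
        have := (key m (by omega)).trans_le (Nat.pow_le_pow_left hp3 m)
        omega
      obtain rfl : m = 2 := by omega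
      have hp9 : p = 3 := by nlinarith
      subst hp9
      rw [hV, hm.1]
      norm_num
  · -- the plane
    have hn2' : n = 2 := by omega
    have hk1 : k = 1 := by
      rw [hn2'] at hnd
      have := Nat.mul_le_mul_left k hd
      omega
    rw [hn2', hk1, one_mul] at hnd
    subst hnd
    have hs2 : s = 2 := by
      have h1 : s ^ 2 ≤ s ^ t := Nat.pow_le_pow_right hs.pos ht2
      have h2 : s ^ 2 ≤ 4 := h1.trans (by simpa using hWle)
      have := hs.two_le
      nlinarith
    subst hs2
    have ht' : t = 2 := by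
      by_contra hne
      have : 2 ^ 3 ≤ 2 ^ t := Nat.pow_le_pow_right two_pos (by omega)
      omega
    have hCN := hWfull (by rw [ht']; norm_num)
    have hCtop : C = ⊤ := Subgroup.index_eq_one.mp (Nat.dvd_one.mp (hk1 ▸ hidx))
    rw [ht'] at hcardW
    -- three non-trivial cosets
    have h6 : Nat.card φ.range ∣ 6 := by
      let f : MulAut (N ⧸ A') →* Equiv.Perm {w : N ⧸ A' // w ≠ 1} :=
        MonoidHom.mk' (fun a => Equiv.Perm.subtypePerm (a.toEquiv : Equiv.Perm (N ⧸ A')) fun w => by
          show a w ≠ 1 ↔ w ≠ 1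
          rw [ne_eq, ne_eq, not_iff_not, EmbeddingLike.map_eq_one_iff]) fun a b => by ext; rfl
      have hf : Function.Injective f := fun a b h => MulEquiv.ext fun w => by
        by_cases hw : w = 1
        · rw [hw, map_one, map_one]
        · exact congrArg Subtype.val (Equiv.congr_fun h ⟨w, hw⟩)
      refine ((Subgroup.card_subgroup_dvd_card _).trans (Subgroup.card_dvd_of_injective f hf)).trans (dvd_of_eq ?_)
      rw [Nat.card_perm]
      have : Nat.card {w : N ⧸ A' // w ≠ 1} = 3 := by
        show Nat.card ({1}ᶜ : Set (N ⧸ A')) = 3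
        rw [Nat.card_coe_set_eq, Set.ncard_compl, Set.ncard_singleton, hcardW]
        norm_num
      rw [this]; rfl
    let K0 := φ.ker
    let ψ : K0 →* ((N ⧸ A') →* A) := MonoidHom.mk' (fun x => QuotientGroup.lift A'
        (MonoidHom.mk' (fun u : N => (⟨_, hfixK x.1 x.2 u⟩ : A)) fun u v => Subtype.ext (by
          show ((u : G) * v)⁻¹ * ((x.1 : G) * ((u : G) * v) * (x.1 : G)⁻¹) =
            (u : G)⁻¹ * ((x.1 : G) * u * (x.1 : G)⁻¹) * ((v : G)⁻¹ * ((x.1 : G) * v * (x.1 : G)⁻¹))
          rw [hcentA _ (hNC (N.inv_mem v.2)) _ (hfixK x.1 x.2 u) |>.symm |> fun h => show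
            (u : G)⁻¹ * ((x.1 : G) * u * (x.1 : G)⁻¹) * ((v : G)⁻¹ * ((x.1 : G) * v * (x.1 : G)⁻¹)) =
            (v : G)⁻¹ * ((u : G)⁻¹ * ((x.1 : G) * u * (x.1 : G)⁻¹)) * ((x.1 : G) * v * (x.1 : G)⁻¹) by
              rw [← mul_assoc, h]]
          group))
        fun a ha => by
          refine MonoidHom.mem_ker.2 (Subtype.ext ?_)
          show (a : G)⁻¹ * ((x.1 : G) * a * (x.1 : G)⁻¹) = 1
          rw [hcentA _ x.1.2 a ha, mul_inv_cancel_right, inv_mul_cancel]) (by
      intro x y
      refine MonoidHom.ext fun w => ?_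
      obtain ⟨u, rfl⟩ := QuotientGroup.mk_surjective w
      refine Subtype.ext ?_
      show (u : G)⁻¹ * (((x.1 : G) * y.1) * u * ((x.1 : G) * y.1)⁻¹) =
        (u : G)⁻¹ * ((x.1 : G) * u * (x.1 : G)⁻¹) * ((u : G)⁻¹ * ((y.1 : G) * u * (y.1 : G)⁻¹))
      set a := (u : G)⁻¹ * ((y.1 : G) * u * (y.1 : G)⁻¹) with ha
      have hxa : (x.1 : G) * a = a * x.1 := hcentA _ x.1.2 a (hfixK y.1 y.2 u)
      calc (u : G)⁻¹ * (((x.1 : G) * y.1) * u * ((x.1 : G) * y.1)⁻¹)
          = (u : G)⁻¹ * ((x.1 : G) * u) * a * (x.1 : G)⁻¹ := by rw [ha]; group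
        _ = (u : G)⁻¹ * ((x.1 : G) * u) * (a * (x.1 : G)⁻¹) := by group
        _ = (u : G)⁻¹ * ((x.1 : G) * u) * ((x.1 : G)⁻¹ * a) := by
            congr 1
            rw [eq_inv_mul_iff_mul_eq, ← mul_assoc, hxa, mul_inv_cancel_right]
        _ = _ := by group)
    have hψker : Nat.card ψ.ker ∣ Nat.card A := by
      have hmem : ∀ x : ψ.ker, ((x : K0) : C).1 ∈ A := by
        intro x
        refine hCN.le ⟨((x : K0) : C).2, Subgroup.mem_centralizer_iff.2 fun v hv => ?_⟩
        have h := congrArg (fun z : (N ⧸ A') →* A => ((z ((⟨v, hv⟩ : N) : N ⧸ A')) : G)) x.2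
        have h' : v⁻¹ * (((x : K0) : C).1 * v * (((x : K0) : C).1)⁻¹) = 1 := h
        exact (mul_inv_eq_iff_eq_mul.1 (inv_mul_eq_one.1 h').symm).symm
      let g : ψ.ker →* A :=
        { toFun := fun x => ⟨((x : K0) : C).1, hmem x⟩
          map_one' := rfl
          map_mul' := fun _ _ => rfl }
      exact Subgroup.card_dvd_of_injective g fun a b h =>
        Subtype.ext (Subtype.ext (Subtype.ext (congrArg (fun z : A => (z : G)) h)))
    have hψ4 : Nat.card ψ.range ∣ 4 := by
      have hexp2 : ∀ f ∈ ψ.range, f ^ 2 = 1 := by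
        intro f _
        refine MonoidHom.ext fun w => ?_
        show f w ^ 2 = 1
        rw [← map_pow, hexp, map_one]
      obtain ⟨w1, hw1⟩ := exists_ne (1 : N ⧸ A')
      have hw1o : orderOf w1 = 2 := orderOf_eq_prime (hexp w1) hw1
      obtain ⟨w2, hw2⟩ : ∃ w2, w2 ∉ Subgroup.zpowers w1 := by
        by_contra hcon
        push Not at hcon
        have h := Subgroup.card_top (G := N ⧸ A')
        rw [show (⊤ : Subgroup (N ⧸ A')) = Subgroup.zpowers w1 from (eq_top_iff.2 fun w _ => hcon w).symm,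
          Nat.card_zpowers, hw1o, hcardW] at h
        omega
      have hgen : Subgroup.closure {w1, w2} = (⊤ : Subgroup (N ⧸ A')) := by
        apply Subgroup.eq_top_of_card_eq
        have hlt : Subgroup.zpowers w1 < Subgroup.closure {w1, w2} := lt_of_le_of_ne
          (Subgroup.zpowers_le.2 (Subgroup.subset_closure (by simp)))
          fun h => hw2 (h ▸ Subgroup.subset_closure (by simp))
        have h1 := Set.ncard_lt_ncard (SetLike.coe_ssubset_coe.2 hlt) (Set.toFinite _)
        rw [← Nat.card_coe_set_eq, ← Nat.card_coe_set_eq] at h1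
        change Nat.card (Subgroup.zpowers w1) < Nat.card (Subgroup.closure {w1, w2}) at h1
        rw [Nat.card_zpowers, hw1o] at h1
        rw [hcardW]
        have h2 := Subgroup.card_subgroup_dvd_card (Subgroup.closure {w1, w2})
        rw [hcardW] at h2
        have h3 := Nat.le_of_dvd (by norm_num) h2
        generalize Nat.card (Subgroup.closure {w1, w2}) = c at h1 h2 h3 ⊢
        norm_num at h3
        interval_cases c
        · norm_num at h2
        · norm_num
      let T2 := {a : A // a ^ 2 = 1}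
      let g : ((N ⧸ A') →* A) → T2 × T2 := fun f =>
        (⟨f w1, by rw [← map_pow, hexp, map_one]⟩, ⟨f w2, by rw [← map_pow, hexp, map_one]⟩)
      have hg : Function.Injective g := fun f f' h => by
        simp only [g, Prod.mk.injEq, T2, Subtype.mk.injEq] at h
        refine MonoidHom.eq_of_eqOn_dense hgen ?_
        rintro w (rfl | rfl)
        · exact h.1
        · exact h.2
      have hT2 : Nat.card T2 ≤ 2 := by
        haveI := hcyc
        haveI := Fintype.ofFinite A
        show Nat.card {a : A // a ^ 2 = 1} ≤ 2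
        rw [Nat.card_eq_fintype_card, Fintype.card_subtype]
        exact IsCyclic.card_pow_eq_one_le two_pos
      haveI : Finite ((N ⧸ A') →* A) := Finite.of_injective g hg
      have hle : Nat.card ψ.range ≤ 4 := by
        refine (Nat.card_le_card_of_injective (fun f : ψ.range => g f.1) (hg.comp Subtype.val_injective)).trans ?_
        rw [Nat.card_prod]
        exact Nat.mul_le_mul hT2 hT2
      have hpg : IsPGroup 2 ψ.range := fun f => ⟨1, Subtype.ext (by
        rw [pow_one, Subgroup.coe_pow]; exact hexp2 f.1 f.2)⟩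
      obtain ⟨e, he⟩ := IsPGroup.iff_card.1 hpg
      rw [he] at hle ⊢
      rw [show (4 : ℕ) = 2 ^ 2 from rfl] at hle ⊢
      exact Nat.pow_dvd_pow 2 ((Nat.pow_le_pow_iff_right (by norm_num)).mp hle)
    have hG : Nat.card G ∣ (p - 1) * 24 := by
      have hC' : Nat.card C = Nat.card G := by rw [hCtop, Subgroup.card_top]
      rw [← hC', ← Subgroup.card_mul_index φ.ker, Subgroup.index_ker, ← Subgroup.card_mul_index ψ.ker,
        Subgroup.index_ker, show (p - 1) * 24 = (p - 1) * 4 * 6 by ring]
      refine Nat.mul_dvd_mul (Nat.mul_dvd_mul (hψker.trans ?_) hψ4) h6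
      rwa [hk1, pow_one] at hAdvd
    have hp24 : p + 1 ∣ 24 := by
      have h1 : p ^ n - 1 ∣ (p - 1) * 24 := hGdvd.trans hG
      rw [hn2', show p ^ 2 - 1 = (p - 1) * (p + 1) by rw [mul_comm, ← Nat.sq_sub_sq, one_pow]] at h1
      exact Nat.dvd_of_mul_dvd_mul_left (by have := hp.out.two_le; omega) h1
    have hp23 : p ≤ 23 := by have := Nat.le_of_dvd (by norm_num) hp24; omega
    rw [hV, hn2']
    have hp2 : p ≠ 2 := fun h => hsp h.symm
    have h2le := hp.out.two_le
    rcases (by decide : ∀ q < 24, q + 1 ∣ 24 → q = 0 ∨ q = 1 ∨ q = 2 ∨ q = 3 ∨ q = 5 ∨ q = 7 ∨ q = 11 ∨ q = 23)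
      p (by omega) hp24 with h | h | h | h | h | h | h | h <;> first | omega | (rw [h]; norm_num)

/-- Huppert's theorem. -/
theorem main (hρ : Function.Injective ρ)
    (htrans : ∀ v w : V, v ≠ 0 → w ≠ 0 → ∃ g : G, ρ g v = w) (hsol : Group.IsSolvable G)
    (hz : ∀ n : ℕ, 3 ≤ n → ¬ (p = 2 ∧ n = 6) →
      ∃ r : ℕ, r.Prime ∧ r ∣ p ^ n - 1 ∧ ∀ j, 0 < j → j < n → ¬ r ∣ p ^ j - 1) :
    (∃ (F : Type) (_ : Field F) (_ : Fintype F) (e : V ≃+ F),
        ∀ g : G, ∃ (a : F) (σ : F ≃+* F), ∀ v : V, e (ρ g v) = a * σ (e v)) ∨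
      Nat.card V ∈ ({9, 25, 49, 121, 529, 81} : Set ℕ) := by
  classical
  obtain ⟨A, ⟨hAn, hAc⟩, hmax⟩ := Set.exists_max_image
    {A : Subgroup G | A.Normal ∧ IsMulCommutative A} (fun A => Nat.card A) (Set.toFinite _)
    ⟨⊥, inferInstance, inferInstance⟩
  haveI := hAn
  obtain ⟨-, -, hk, -, d, hd, hnd⟩ := field_facts hρ htrans hAc
  by_cases hd1 : d = 1
  · left
    refine semilinear htrans hAc ?_
    rw [Module.natCard_eq_pow_finrank (K := ZMod p) (V := V), Nat.card_zmod, hnd, hd1, mul_one]
  · exact Or.inr (exceptional hρ htrans hsol hz hAc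
      (fun B hBn hBc hle => (Subgroup.eq_of_le_of_card_ge hle (hmax B ⟨hBn, hBc⟩)).symm) (by omega) hnd)

end Cfsg.Agent.SmallOrder.TransSolv
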