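import Cfsg.Agent.KnownA.SzSubgroups
import Cfsg.Agent.Suzuki.SzLie

/-!
Transitive faithful actions of the Suzuki groups in which every non-trivial element fixes at most two
points, and some element fixes exactly two.
-/

set_option autoImplicit false

namespace Cfsg.Agent.SmallOrder.SzFixity

open Cfsg.Agent.Suzuki Cfsg.Agent.KnownA.SzSubgroups

section Generic

variable {G Ω : Type*} [Group G] [Finite G] [MulAction G Ω] [Finite Ω]
  (hfix : ∀ g : G, g ≠ 1 → Nat.card (MulAction.fixedBy Ω g) ≤ 2)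

include hfix

theorem index_le_two {α : Ω} {g : G} (hg1 : g ≠ 1) (K : Subgroup G)
    (hK : ∀ k ∈ K, k⁻¹ * g * k ∈ MulAction.stabilizer G α) :
    ((MulAction.stabilizer G α).subgroupOf K).index ≤ 2 := by
  have e : (MulAction.stabilizer G α).subgroupOf K = MulAction.stabilizer K α := by
    ext x; exact Iff.rfl
  rw [e, MulAction.index_stabilizer]
  refine le_trans (Set.ncard_le_ncard ?_ (Set.toFinite _))
    (by rw [← Nat.card_coe_set_eq]; exact hfix g hg1)
  rintro x ⟨k, rfl⟩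
  have h1 := hK k k.2
  rw [MulAction.mem_stabilizer_iff, mul_smul, mul_smul, inv_smul_eq_iff] at h1
  exact h1

theorem mul_self_mem {α : Ω} {g : G} (hg1 : g ≠ 1) (K : Subgroup G)
    (hK : ∀ k ∈ K, k⁻¹ * g * k ∈ MulAction.stabilizer G α) {k : G} (hk : k ∈ K) :
    k * k ∈ MulAction.stabilizer G α := by
  have h2 := index_le_two hfix hg1 K hK
  have h0 := Subgroup.index_ne_zero_of_finite (H := (MulAction.stabilizer G α).subgroupOf K)
  rcases (show ((MulAction.stabilizer G α).subgroupOf K).index = 1 ∨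
      ((MulAction.stabilizer G α).subgroupOf K).index = 2 by omega) with e | e
  · have hle := Subgroup.subgroupOf_eq_top.1 (Subgroup.index_eq_one.1 e)
    exact mul_mem (hle hk) (hle hk)
  · exact Subgroup.mem_subgroupOf.1 (Subgroup.mul_self_mem_of_index_two e (⟨k, hk⟩ : K))

theorem mem_of_odd {α : Ω} {g : G} (hg1 : g ≠ 1) (K : Subgroup G)
    (hK : ∀ k ∈ K, k⁻¹ * g * k ∈ MulAction.stabilizer G α) {k : G} (hk : k ∈ K)
    (ho : Odd (orderOf k)) : k ∈ MulAction.stabilizer G α := by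
  obtain ⟨i, hi⟩ := ho
  have e : k ^ (i + 1) * k ^ (i + 1) = k := by
    rw [← pow_add, show i + 1 + (i + 1) = orderOf k + 1 by omega, pow_add, pow_orderOf_eq_one,
      pow_one, one_mul]
  rw [← e]
  exact mul_self_mem hfix hg1 K hK (pow_mem hk _)

end Generic

variable {F : Type*} [Field F] {m : ℕ} (h : Ctx F m)
include h

theorem exists_unit_sqrt (l : Fˣ) : ∃ s : Fˣ, s * s = l := by
  refine ⟨l ^ (2 ^ (2 * m)), Units.ext ?_⟩
  rw [← pow_add, Units.val_pow_eq_pow_val, ← two_mul, ← pow_succ', h.pow_q]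

/-- The split torus as a subgroup. -/
def hGrp : Subgroup (Cfsg.Sz F m) := (MonoidHom.mk' (hEl h) (hEl_mul h)).range

theorem mem_hGrp {g : Cfsg.Sz F m} : g ∈ hGrp h ↔ ∃ l : Fˣ, hEl h l = g := Iff.rfl

theorem card_hGrp : Nat.card (hGrp h) = 2 ^ (2 * m + 1) - 1 := by
  have := h.finite
  rw [hGrp, Nat.card_congr (MonoidHom.ofInjective (f := MonoidHom.mk' (hEl h) (hEl_mul h))
    (hEl_inj h)).symm.toEquiv, Nat.card_units, h.card]

theorem hEl_comm (k l : Fˣ) : hEl h k * hEl h l = hEl h l * hEl h k := by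
  rw [← hEl_mul, mul_comm, hEl_mul]

theorem wEl_ne_one : wEl h ≠ 1 := fun e => by
  have h1 := wEl_smul_inf h
  rw [e, one_smul] at h1
  exact pt_ne_inf (m := m) (0 : F) 0 h1.symm

theorem hEl_fixed {k : Fˣ} (hk : k ≠ 1) {p : Cfsg.suzukiOvoid F m} (hp : hEl h k • p = p) :
    p = inf' F m ∨ p = pt m (0 : F) 0 := by
  by_contra hne
  push Not at hne
  exact hk (hEl_inj h ((three_fixed h (inf_pt_zero_ne h) hne.2.symm hne.1.symm (hEl_smul_inf h k)
    (hEl_smul_zero h k) hp).trans (hEl_one h).symm))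

/-- What conjugates a non-trivial torus element into the torus. -/
theorem conj_cases {s : Cfsg.Sz F m} {k l : Fˣ} (hk : k ≠ 1)
    (e : s * hEl h k * s⁻¹ = hEl h l) : ∃ c : Fˣ, s = hEl h c ∨ s = wEl h * hEl h c := by
  have hl : l ≠ 1 := by
    rintro rfl
    rw [hEl_one, conj_eq_one_iff] at e
    exact hk (hEl_inj h (e.trans (hEl_one h).symm))
  have hmaps : ∀ p : Cfsg.suzukiOvoid F m, hEl h k • p = p → hEl h l • (s • p) = s • p := by
    intro p hp
    rw [← e, mul_smul, inv_smul_smul, mul_smul, hp]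
  rcases hEl_fixed h hl (hmaps _ (hEl_smul_inf h k)) with e0 | e0
  · rcases hEl_fixed h hl (hmaps _ (hEl_smul_zero h k)) with e1 | e1
    · exact absurd (smul_left_cancel s (e1.trans e0.symm)) (pt_ne_inf _ _)
    · obtain ⟨c, hc⟩ := fix_two h e0 e1
      exact ⟨c, Or.inl hc⟩
  · rcases hEl_fixed h hl (hmaps _ (hEl_smul_zero h k)) with e1 | e1
    · obtain ⟨c, hc⟩ := fix_two h (g := wEl h * s) (by rw [mul_smul, e0, wEl_smul_zero])
        (by rw [mul_smul, e1, wEl_smul_inf])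
      exact ⟨c, Or.inr (by rw [← hc, ← mul_assoc, wEl_sq, one_mul])⟩
    · exact absurd (smul_left_cancel s (e1.trans e0.symm)) (pt_ne_inf _ _)

theorem torus_norm {s : Cfsg.Sz F m} {k l j : Fˣ} (hk : k ≠ 1)
    (e : s * hEl h k * s⁻¹ = hEl h l) (hj : j ≠ 1) :
    ∃ j' : Fˣ, j' ≠ 1 ∧ s * hEl h j * s⁻¹ = hEl h j' := by
  obtain ⟨c, rfl | rfl⟩ := conj_cases h hk e
  · exact ⟨j, hj, by rw [hEl_comm, mul_inv_cancel_right]⟩
  · refine ⟨j⁻¹, inv_ne_one.2 hj, ?_⟩
    rw [mul_inv_rev, show wEl h * hEl h c * hEl h j * ((hEl h c)⁻¹ * (wEl h)⁻¹) =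
      wEl h * (hEl h c * hEl h j * (hEl h c)⁻¹) * (wEl h)⁻¹ by group, hEl_comm h c j,
      mul_inv_cancel_right, inv_eq_of_mul_eq_one_right (wEl_sq h), wEl_conj, hEl_inv]

variable {Ω : Type*} [MulAction (Cfsg.Sz F m) Ω] [Finite Ω]
  (hfix : ∀ g : Cfsg.Sz F m, g ≠ 1 → Nat.card (MulAction.fixedBy Ω g) ≤ 2)
include hfix

/-- A stabiliser containing a unipotent element contains a Borel subgroup. -/
theorem unipotent_case {α : Ω} {a b : F} (hab : ¬(a = 0 ∧ b = 0))
    (hu : uEl h a b • α = α) :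
    MulAction.stabilizer (Cfsg.Sz F m) α = ⊤ ∨
      MulAction.stabilizer (Cfsg.Sz F m) α = MulAction.stabilizer (Cfsg.Sz F m) (inf' F m) := by
  have := finite_sz h
  set H := MulAction.stabilizer (Cfsg.Sz F m) α with hH
  have hu' : uEl h a b ∈ H := hu
  obtain ⟨b0, hb0, hz⟩ : ∃ b0 : F, b0 ≠ 0 ∧ uEl h 0 b0 ∈ H := by
    by_cases ha : a = 0
    · subst ha
      exact ⟨b, fun e => hab ⟨rfl, e⟩, hu'⟩
    · exact ⟨th m a * a, mul_ne_zero (fun e => ha (h.th_eq_zero.1 e)) ha,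
        uEl_sq h a b ▸ mul_mem hu' hu'⟩
  have hz1 : uEl h 0 b0 ≠ 1 := fun e => hb0 (uEl_inj h (e.trans (uEl_zero h).symm)).2
  have hcen : ∀ c d : F, (uEl h c d)⁻¹ * uEl h 0 b0 * uEl h c d = uEl h 0 b0 := by
    intro c d
    rw [mul_assoc, inv_mul_eq_iff_eq_mul, uEl_mul, uEl_mul, th_zero]
    congr 1 <;> ring
  have hKU : ∀ k ∈ uGrp h, k⁻¹ * uEl h 0 b0 * k ∈ H := by
    rintro k ⟨c, d, rfl⟩
    rw [hcen]; exact hz
  have hZ : ∀ d : F, uEl h 0 d ∈ H := by
    intro d
    by_cases hd : d = 0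
    · rw [hd, uEl_zero]; exact one_mem _
    obtain ⟨k, hk⟩ := exists_root h hd
    have h1 := mul_self_mem hfix hz1 (uGrp h) hKU (uEl_mem h (k : F) 0)
    rwa [uEl_sq, mul_comm, hk] at h1
  set B := MulAction.stabilizer (Cfsg.Sz F m) (inf' F m) with hB
  have hKB : ∀ k ∈ B, k⁻¹ * uEl h 0 b0 * k ∈ H := by
    intro k hk
    obtain ⟨c, d, l, rfl⟩ := fix_inf h hk
    rw [show (uEl h c d * hEl h l)⁻¹ * uEl h 0 b0 * (uEl h c d * hEl h l) =
      (hEl h l)⁻¹ * ((uEl h c d)⁻¹ * uEl h 0 b0 * uEl h c d) * ((hEl h l)⁻¹)⁻¹ by group, hcen,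
      hEl_inv, hEl_conj, mul_zero]
    exact hZ _
  have hHh : ∀ l : Fˣ, hEl h l ∈ H := by
    intro l
    obtain ⟨s, rfl⟩ := exists_unit_sqrt h l
    rw [hEl_mul]
    exact mul_self_mem hfix hz1 B hKB (hEl_smul_inf h s)
  have hUH : ∀ a' b' : F, uEl h a' b' ∈ H := by
    intro a' b'
    obtain ⟨x, hx0, hx1⟩ := h.exists_ne_zero_one
    have hx : x + 1 ≠ 0 := fun e => hx1 (by rw [← h.neg_eq (1 : F)]; linear_combination e)
    let l : Fˣ := Units.mk0 x hx0
    obtain ⟨s, hs⟩ := exists_unit_sqrt h l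
    set c := a' / (x + 1) with hc
    have h1 : uEl h c 0 * hEl h l * (uEl h c 0)⁻¹ ∈ H := by
      have h2 := mul_self_mem hfix hz1 B hKB (k := uEl h c 0 * hEl h s * (uEl h c 0)⁻¹)
        (mul_mem (mul_mem (uEl_smul_inf h c 0) (hEl_smul_inf h s)) (inv_mem (uEl_smul_inf h c 0)))
      rwa [show uEl h c 0 * hEl h s * (uEl h c 0)⁻¹ * (uEl h c 0 * hEl h s * (uEl h c 0)⁻¹) =
        uEl h c 0 * (hEl h s * hEl h s) * (uEl h c 0)⁻¹ by group, ← hEl_mul, hs] at h2
    have h3 := mul_mem h1 (inv_mem (hHh l))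
    rw [show uEl h c 0 * hEl h l * (uEl h c 0)⁻¹ * (hEl h l)⁻¹ =
      uEl h c 0 * (hEl h l * (uEl h c 0)⁻¹ * (hEl h l)⁻¹) by group, uEl_inv, hEl_conj, uEl_mul] at h3
    have hca : c + (l : F) * c = a' := by
      rw [Units.val_mk0, hc]; field_simp; ring
    rw [hca] at h3
    generalize (0 : F) + _ + _ = X at h3
    have h4 := mul_mem h3 (hZ (b' - X))
    rw [uEl_mul, add_zero, mul_zero, add_zero, add_sub_cancel] at h4
    exact h4
  have hBH : B ≤ H := by
    intro g hg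
    obtain ⟨c, d, l, rfl⟩ := fix_inf h hg
    exact mul_mem (hUH c d) (hHh l)
  have hcoat : IsCoatom B := by
    have h1 := (sylow_maximal h (uSylow h)).1
    rwa [uSylow_coe, normalizer_uGrp] at h1
  exact hcoat.le_iff.1 hBH

variable (hno : ∀ (β : Ω) (a b : F), uEl h a b • β = β → a = 0 ∧ b = 0)
include hno

theorem no_two {g : Cfsg.Sz F m} (hg : g * g = 1) {β : Ω} (hβ : g • β = β) : g = 1 := by
  have := finite_sz h
  by_contra hg1
  obtain ⟨t, ht⟩ := forms h hg1
  have hfx : (t * g * t⁻¹) • (t • β) = t • β := by rw [mul_smul, inv_smul_smul, mul_smul, hβ]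
  have hsq : t * g * t⁻¹ * (t * g * t⁻¹) = 1 := by
    rw [show t * g * t⁻¹ * (t * g * t⁻¹) = t * (g * g) * t⁻¹ by group, hg]; group
  rcases ht with ⟨a, b, hab, e⟩ | ⟨k, hk, e⟩ | hf
  · exact hab (hno _ a b (e ▸ hfx))
  · rw [e, ← hEl_mul, ← hEl_one h] at hsq
    refine hk (Units.ext (h.sq_injective ?_))
    have h1 := congrArg Units.val (hEl_inj h hsq)
    simpa [sq] using h1
  · have hord : orderOf (t * g * t⁻¹) = 2 :=
      orderOf_eq_prime_iff.2 ⟨by rw [sq, hsq], fun e => hg1 (conj_eq_one_iff.1 e)⟩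
    have hd : 2 ∣ Nat.card (Subgroup.centralizer ({t * g * t⁻¹} : Set (Cfsg.Sz F m))) := by
      rw [← hord]
      have h1 := orderOf_dvd_natCard (⟨t * g * t⁻¹, Subgroup.mem_centralizer_singleton_iff.2 rfl⟩ :
        Subgroup.centralizer ({t * g * t⁻¹} : Set (Cfsg.Sz F m)))
      rwa [← Subgroup.orderOf_coe] at h1
    obtain ⟨-, -, -, -, -, -, hp, hm, -⟩ := orders (m := m) h.one_le
    rcases card_torus h hf with e | e <;> rw [e] at hd
    · exact hp hd
    · exact hm hd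

theorem no_fpf {g : Cfsg.Sz F m} (hg : Fpf g) {β : Ω} (hβ : g • β = β) : False := by
  have := finite_sz h
  obtain ⟨-, hkm, hkp, -, -, -, hpo, hmo, -⟩ := orders (m := m) h.one_le
  have hAc := card_torus h hg
  set A := Subgroup.centralizer ({g} : Set (Cfsg.Sz F m)) with hA
  obtain ⟨hA5, hodd⟩ : 5 ≤ Nat.card A ∧ ¬ 2 ∣ Nat.card A := by
    rcases hAc with e | e <;> rw [e]
    exacts [⟨hkp, hpo⟩, ⟨hkm, hmo⟩]
  obtain ⟨p, hp, hpA⟩ := Nat.exists_prime_and_dvd (show Nat.card A ≠ 1 by omega)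
  have := Fact.mk hp
  have hp2 : p ≠ 2 := fun e => hodd (e ▸ hpA)
  obtain ⟨z, hz⟩ := exists_prime_orderOf_dvd_card' (G := A) p hpA
  rw [← Subgroup.orderOf_coe] at hz
  have hzβ : z.1 ∈ MulAction.stabilizer (Cfsg.Sz F m) β := by
    refine mem_of_odd hfix hg.ne_one A (fun k hk => ?_) z.2 (hz ▸ hp.odd_of_ne_two hp2)
    rw [mul_assoc, ← Subgroup.mem_centralizer_singleton_iff.1 hk, inv_mul_cancel_left]
    exact hβ
  obtain ⟨U, -, hUc, hUC, hUN⟩ := exceptional_tori h _ hAc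
  obtain ⟨y, hy⟩ := exists_prime_orderOf_dvd_card' (G := U) p (hUc ▸ hpA)
  rw [← Subgroup.orderOf_coe] at hy
  have hy1 : y.1 ≠ 1 := fun e => hp.ne_one (by rw [← hy, e, orderOf_one])
  have hz1 : z.1 ≠ 1 := fun e => hp.ne_one (by rw [← hz, e, orderOf_one])
  obtain ⟨Pz, hPz⟩ := (IsPGroup.of_card (p := p) (n := 1)
    (G := Subgroup.zpowers z.1) (by rw [Nat.card_zpowers, hz, pow_one])).exists_le_sylow
  obtain ⟨Py, hPy⟩ := (IsPGroup.of_card (p := p) (n := 1)
    (G := Subgroup.zpowers y.1) (by rw [Nat.card_zpowers, hy, pow_one])).exists_le_sylow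
  obtain ⟨t, ht⟩ := MulAction.exists_smul_eq (Cfsg.Sz F m) Pz Py
  have hPU : (Py : Subgroup (Cfsg.Sz F m)) ≤ U := by
    rw [← hUC y.1 y.2 hy1]
    intro x hx
    have := sylow_cyclic h hp2 Py
    exact Subgroup.mem_centralizer_singleton_iff.2 (congrArg Subtype.val
      ((IsCyclic.isMulCommutative (α := (Py : Subgroup (Cfsg.Sz F m)))).is_comm.comm ⟨x, hx⟩
        ⟨y.1, hPy (Subgroup.mem_zpowers _)⟩))
  have hzU : t * z.1 * t⁻¹ ∈ U := hPU (by
    rw [← ht, Sylow.coe_subgroup_smul]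
    exact Subgroup.smul_mem_pointwise_smul _ (MulAut.conj t) _ (hPz (Subgroup.mem_zpowers _)))
  set v := t * z.1 * t⁻¹ with hv
  have hv1 : v ≠ 1 := fun e => hz1 (conj_eq_one_iff.1 e)
  have hvfix : v • (t • β) = t • β := by
    rw [hv, mul_smul, inv_smul_smul, mul_smul, MulAction.mem_stabilizer_iff.1 hzβ]
  have hUle : U ≤ MulAction.stabilizer (Cfsg.Sz F m) (t • β) := by
    intro u hu
    refine mem_of_odd hfix hv1 U (fun k hk => ?_) hu ?_
    · have hc : k ∈ Subgroup.centralizer ({v} : Set (Cfsg.Sz F m)) := (hUC v hzU hv1).symm ▸ hk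
      rw [mul_assoc, ← Subgroup.mem_centralizer_singleton_iff.1 hc, inv_mul_cancel_left]
      exact hvfix
    · rw [← Nat.not_even_iff_odd, even_iff_two_dvd]
      intro h2
      have h3 := orderOf_dvd_natCard (⟨u, hu⟩ : U)
      rw [← Subgroup.orderOf_coe, hUc] at h3
      exact hodd (h2.trans h3)
  have hidx := index_le_two hfix hv1 (Subgroup.normalizer (U : Set (Cfsg.Sz F m)))
    (α := t • β) (fun k hk => hUle ((Subgroup.mem_normalizer_iff''.1 hk v).1 hzU))
  set S := (MulAction.stabilizer (Cfsg.Sz F m) (t • β)).subgroupOf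
    (Subgroup.normalizer (U : Set (Cfsg.Sz F m))) with hS
  have h0 := Subgroup.index_ne_zero_of_finite (H := S)
  have hcard := S.card_mul_index
  rw [hUN] at hcard
  have h2 : 2 ∣ Nat.card S := by
    rcases (show S.index = 1 ∨ S.index = 2 by omega) with e | e <;> rw [e] at hcard <;> omega
  have := Fact.mk Nat.prime_two
  obtain ⟨w, hw⟩ := exists_prime_orderOf_dvd_card' (G := S) 2 h2
  have hw' : orderOf w.1.1 = 2 := by rw [Subgroup.orderOf_coe, Subgroup.orderOf_coe, hw]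
  have h3 := no_two h hfix hno (g := w.1.1) (by rw [← sq, ← hw', pow_orderOf_eq_one]) w.2
  rw [h3, orderOf_one] at hw'
  omega

theorem h_form {g : Cfsg.Sz F m} (hg : g ≠ 1) {β : Ω} (hβ : g • β = β) :
    ∃ (y : Cfsg.Sz F m) (k : Fˣ), k ≠ 1 ∧ g = y * hEl h k * y⁻¹ ∧
      hEl h k • (y⁻¹ • β) = y⁻¹ • β := by
  obtain ⟨t, ht⟩ := forms h hg
  have hfx : (t * g * t⁻¹) • (t • β) = t • β := by rw [mul_smul, inv_smul_smul, mul_smul, hβ]
  rcases ht with ⟨a, b, hab, e⟩ | ⟨k, hk, e⟩ | hf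
  · exact absurd (hno _ a b (e ▸ hfx)) hab
  · exact ⟨t⁻¹, k, hk, by rw [← e]; group, by rw [inv_inv, ← e]; exact hfx⟩
  · exact (no_fpf h hfix hno hf hfx).elim

omit hno in
theorem torus_le {k : Fˣ} (hk : k ≠ 1) {β : Ω} (hβ : hEl h k • β = β) (l : Fˣ) :
    hEl h l • β = β := by
  have := finite_sz h
  obtain ⟨s, rfl⟩ := exists_unit_sqrt h l
  rw [hEl_mul]
  refine mul_self_mem hfix (g := hEl h k) (fun e => hk (hEl_inj h (e.trans (hEl_one h).symm)))
    (hGrp h) ?_ ⟨s, rfl⟩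
  rintro _ ⟨c, rfl⟩
  show (hEl h c)⁻¹ * hEl h k * hEl h c ∈ _
  rw [mul_assoc, hEl_comm, inv_mul_cancel_left]
  exact hβ

/-- A stabiliser containing a split torus element is the split torus. -/
theorem stabilizer_eq {k0 : Fˣ} (hk0 : k0 ≠ 1) {α : Ω} (hα : hEl h k0 • α = α) :
    MulAction.stabilizer (Cfsg.Sz F m) α = hGrp h := by
  classical
  have := finite_sz h
  have := h.finite
  let := Fintype.ofFinite (Cfsg.Sz F m)
  let := Fintype.ofFinite Fˣ
  set H := MulAction.stabilizer (Cfsg.Sz F m) α with hHdef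
  have hT : hGrp h ≤ H := by rintro _ ⟨l, rfl⟩; exact torus_le h hfix hk0 hα l
  refine le_antisymm ?_ hT
  set q := 2 ^ (2 * m + 1) with hq
  have hq8 : 8 ≤ q := by rw [hq, ← h.card]; exact h.eight_le
  set T := (hGrp h).subgroupOf H with hTdef
  have hTc : Nat.card T = q - 1 := by
    rw [Nat.card_congr (Subgroup.subgroupOfEquivOfLe hT).toEquiv, card_hGrp]
  let := Fintype.ofFinite (H ⧸ T)
  let L : Finset Fˣ := Finset.univ.erase 1
  have hL : L.card = q - 2 := by
    rw [Finset.card_erase_of_mem (Finset.mem_univ _), Finset.card_univ, ← Nat.card_eq_fintype_card,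
      Nat.card_units, h.card]
    omega
  let Y0 : Finset (Cfsg.Sz F m) := ((Finset.univ : Finset (H ⧸ T)) ×ˢ L).image fun p =>
    (p.1.out : H).1 * hEl h p.2 * (p.1.out : H).1⁻¹
  have hY0 : ∀ x ∈ H, ∀ l : Fˣ, l ≠ 1 → x * hEl h l * x⁻¹ ∈ Y0 := by
    intro x hx l hl
    obtain ⟨t, ht⟩ := QuotientGroup.mk_out_eq_mul T (⟨x, hx⟩ : H)
    obtain ⟨c, hc⟩ := t.2
    refine Finset.mem_image.2 ⟨(QuotientGroup.mk ⟨x, hx⟩, l),
      Finset.mem_product.2 ⟨Finset.mem_univ _, Finset.mem_erase.2 ⟨hl, Finset.mem_univ _⟩⟩, ?_⟩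
    rw [ht]
    show x * t.1.1 * hEl h l * (x * t.1.1)⁻¹ = _
    rw [show t.1.1 = hEl h c from hc.symm,
      show x * hEl h c * hEl h l * (x * hEl h c)⁻¹ = x * (hEl h c * hEl h l * (hEl h c)⁻¹) * x⁻¹ by
        group, hEl_comm h c l, mul_inv_cancel_right]
  let Hs : Finset (Cfsg.Sz F m) := Finset.univ.filter (· ∈ H)
  have hHs : Hs.card = Nat.card H := by
    rw [Nat.card_eq_fintype_card, Fintype.card_subtype]
  by_cases hall : ∀ x ∈ H, x ≠ 1 → x ∈ Y0
  · have h1 : Hs ⊆ insert 1 Y0 := fun x hx => by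
      simp only [Hs, Finset.mem_filter, Finset.mem_univ, true_and] at hx
      by_cases e : x = 1
      · exact Finset.mem_insert.2 (Or.inl e)
      · exact Finset.mem_insert.2 (Or.inr (hall x hx e))
    have h2 := (Finset.card_le_card h1).trans (Finset.card_insert_le _ _)
    have h3 : Y0.card ≤ T.index * (q - 2) := by
      refine Finset.card_image_le.trans ?_
      rw [Finset.card_product, Finset.card_univ, hL, ← Nat.card_eq_fintype_card,
        Subgroup.index_eq_card]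
    rw [hHs, ← T.card_mul_index, hTc] at h2
    have h4 : (q - 1) * T.index = T.index * (q - 2) + T.index := by
      rw [show q - 1 = q - 2 + 1 by omega]; ring
    have h5 : T.index ≠ 0 := Subgroup.index_ne_zero_of_finite
    have h6 : T.index = 1 := by omega
    exact Subgroup.subgroupOf_eq_top.1 (Subgroup.index_eq_one.1 h6)
  exfalso
  push Not at hall
  obtain ⟨x, hx, hx1, hxY⟩ := hall
  obtain ⟨y, k, hk, hxy, hky⟩ := h_form h hfix hno hx1 hx
  let yb : Bool → Cfsg.Sz F m := fun b => if b then y else 1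
  have hyfix : ∀ b, ∀ l : Fˣ, hEl h l • ((yb b)⁻¹ • α) = (yb b)⁻¹ • α := by
    intro b l
    cases b
    · simp only [yb, Bool.false_eq_true, if_false, inv_one, one_smul]
      exact torus_le h hfix hk0 hα l
    · simp only [yb, if_true]
      exact torus_le h hfix hk hky l
  let f : Bool × (Cfsg.Sz F m) × Fˣ → Cfsg.Sz F m := fun p =>
    p.2.1 * yb p.1 * hEl h p.2.2 * (p.2.1 * yb p.1)⁻¹
  let S : Finset (Bool × (Cfsg.Sz F m) × Fˣ) := Finset.univ ×ˢ (Hs ×ˢ L)
  have hS : ∀ p ∈ S, p.2.1 ∈ H ∧ p.2.2 ≠ 1 := fun p hp => by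
    simpa [S, Hs, L] using hp
  have himg : S.image f ⊆ Hs := by
    intro v hv
    obtain ⟨⟨b, hh, l⟩, hp, rfl⟩ := Finset.mem_image.1 hv
    obtain ⟨hh', -⟩ := hS _ hp
    refine Finset.mem_filter.2 ⟨Finset.mem_univ _, ?_⟩
    show f (b, hh, l) • α = α
    have e : hh⁻¹ • α = α := (inv_mem hh' : hh⁻¹ ∈ H)
    simp only [f, mul_inv_rev, mul_smul]
    rw [e, hyfix, smul_inv_smul]
    exact hh'
  have hfib : ∀ v ∈ S.image f, (S.filter fun p => f p = v).card ≤ q - 1 := by
    intro v hv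
    obtain ⟨⟨b0, h0, l0⟩, hp0, rfl⟩ := Finset.mem_image.1 hv
    obtain ⟨hh0, hl0⟩ := hS _ hp0
    have hsub : (S.filter fun p => f p = f (b0, h0, l0)) ⊆ (Finset.univ : Finset Fˣ).image
        fun c => (b0, h0 * yb b0 * hEl h c * (yb b0)⁻¹, l0) := by
      rintro ⟨b, hh, l⟩ hp
      rw [Finset.mem_filter] at hp
      obtain ⟨hpS, hpe⟩ := hp
      obtain ⟨hhh, hl⟩ := hS _ hpS
      set s := (h0 * yb b0)⁻¹ * (hh * yb b) with hs
      have hse : s * hEl h l * s⁻¹ = hEl h l0 := by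
        have e := congrArg (fun u => (h0 * yb b0)⁻¹ * u * (h0 * yb b0)) hpe
        simp only [f] at e
        rw [show (h0 * yb b0)⁻¹ * (h0 * yb b0 * hEl h l0 * (h0 * yb b0)⁻¹) * (h0 * yb b0) =
          hEl h l0 by group] at e
        rw [← e, hs]; group
      by_cases hb : b = b0
      · subst hb
        obtain ⟨c, hc | hc⟩ := conj_cases h hl hse
        · rw [hc, hEl_comm, mul_inv_cancel_right] at hse
          obtain rfl := hEl_inj h hse
          refine Finset.mem_image.2 ⟨c, Finset.mem_univ _, ?_⟩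
          rw [← hc, hs]
          simp only [Prod.mk.injEq, true_and, and_true]
          group
        · exfalso
          have hsfix : s • ((yb b)⁻¹ • α) = (yb b)⁻¹ • α := by
            have e1 : (h0⁻¹ * hh) • α = α := mul_mem (inv_mem hh0) hhh
            rw [hs, mul_smul, mul_smul, smul_inv_smul, mul_inv_rev, mul_smul, ← mul_smul h0⁻¹, e1]
          rw [hc, mul_smul, hyfix] at hsfix
          exact wEl_ne_one h (no_two h hfix hno (wEl_sq h) hsfix)
      · exfalso
        apply hxY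
        have hse' : s⁻¹ * hEl h l0 * s⁻¹⁻¹ = hEl h l := by rw [← hse]; group
        cases b <;> cases b0 <;> simp only [not_true, Bool.true_eq_false,
          Bool.false_eq_true, not_false_eq_true] at hb
        · -- here `b = false`, `b0 = true`
          obtain ⟨j, hj, hje⟩ := torus_norm h hl0 hse' hk
          have hye : y = h0⁻¹ * hh * s⁻¹ := by
            simp only [hs, yb, if_true, Bool.false_eq_true, if_false]; group
          have e : x = (h0⁻¹ * hh) * hEl h j * (h0⁻¹ * hh)⁻¹ := by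
            rw [hxy, hye, ← hje]; group
          rw [e]
          exact hY0 _ (mul_mem (inv_mem hh0) hhh) j hj
        · obtain ⟨j, hj, hje⟩ := torus_norm h hl hse hk
          have hye : y = hh⁻¹ * h0 * s := by
            simp only [hs, yb, if_true, Bool.false_eq_true, if_false]; group
          have e : x = (hh⁻¹ * h0) * hEl h j * (hh⁻¹ * h0)⁻¹ := by
            rw [hxy, hye, ← hje]; group
          rw [e]
          exact hY0 _ (mul_mem (inv_mem hhh) hh0) j hj
    refine (Finset.card_le_card hsub).trans (Finset.card_image_le.trans ?_)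
    rw [Finset.card_univ, ← Nat.card_eq_fintype_card, Nat.card_units, h.card]
  have h1 := (Finset.card_le_mul_card_image S (q - 1) hfib).trans
    (Nat.mul_le_mul le_rfl (Finset.card_le_card himg))
  rw [Finset.card_product, Finset.card_product, hL, hHs, Finset.card_univ, Fintype.card_bool] at h1
  have h2 : 0 < Nat.card H := Nat.card_pos
  have h3 : 2 * (q - 2) ≤ q - 1 := by nlinarith
  omega

omit hno

/-- Transitive actions of `Sz(q)` of fixity two. -/
theorem sz_main (htr : MulAction.IsPretransitive (Cfsg.Sz F m) Ω)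
    (hex : ∃ g : Cfsg.Sz F m, g ≠ 1 ∧ Nat.card (MulAction.fixedBy Ω g) = 2) :
    (Nat.card Ω = Nat.card F ^ 2 + 1 ∧ MulAction.IsMultiplyPretransitive (Cfsg.Sz F m) Ω 2) ∨
    (Nat.card Ω = Nat.card F ^ 2 * (Nat.card F ^ 2 + 1) ∧
      ∀ α : Ω, Nat.card (MulAction.stabilizer (Cfsg.Sz F m) α) = Nat.card F - 1) := by
  have := finite_sz h
  have := h.finite
  obtain ⟨g0, hg0, hcard0⟩ := hex
  by_cases hno : ∀ (β : Ω) (a b : F), uEl h a b • β = β → a = 0 ∧ b = 0
  · right
    have : Nonempty (MulAction.fixedBy Ω g0) := (Nat.card_pos_iff.1 (by omega)).1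
    obtain ⟨β, hβ⟩ := this
    obtain ⟨y, k, hk, -, hky⟩ := h_form h hfix hno hg0 hβ
    have hst := stabilizer_eq h hfix hno hk hky
    have hidx := MulAction.index_stabilizer_of_transitive (Cfsg.Sz F m) (y⁻¹ • β)
    have hmul := (MulAction.stabilizer (Cfsg.Sz F m) (y⁻¹ • β)).card_mul_index
    rw [hidx, hst, card_hGrp, ← h.card, card_sz h, ← h.card] at hmul
    have hq8 := h.eight_le
    have hΩ : Nat.card Ω = Nat.card F ^ 2 * (Nat.card F ^ 2 + 1) := by
      refine Nat.eq_of_mul_eq_mul_left (show 0 < Nat.card F - 1 by omega) ?_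
      rw [hmul]; ring
    refine ⟨hΩ, fun α => ?_⟩
    have hmul' := (MulAction.stabilizer (Cfsg.Sz F m) α).card_mul_index
    rw [MulAction.index_stabilizer_of_transitive (Cfsg.Sz F m) α, card_sz h, ← h.card, hΩ] at hmul'
    refine Nat.eq_of_mul_eq_mul_right
      (show 0 < Nat.card F ^ 2 * (Nat.card F ^ 2 + 1) by positivity) ?_
    rw [hmul']; ring
  · left
    push Not at hno
    obtain ⟨α, a, b, hu, hab⟩ := hno
    rcases unipotent_case h hfix (fun e => hab e.1 e.2) hu with hst | hst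
    · exfalso
      have h1 : Subsingleton Ω := ⟨fun p r => by
        have h2 : ∀ p : Ω, p = α := fun p => by
          obtain ⟨g, rfl⟩ := MulAction.exists_smul_eq (Cfsg.Sz F m) α p
          exact MulAction.mem_stabilizer_iff.1 (hst ▸ Subgroup.mem_top g)
        rw [h2 p, h2 r]⟩
      have h3 : Nat.card (MulAction.fixedBy Ω g0) ≤ 1 :=
        Finite.card_le_one_iff_subsingleton.2 inferInstance
      omega
    have := pretransitive h
    have hN : Nat.card Ω = Nat.card F ^ 2 + 1 := by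
      rw [← MulAction.index_stabilizer_of_transitive (Cfsg.Sz F m) α, hst,
        MulAction.index_stabilizer_of_transitive, card_ovoid' h, h.card]
    refine ⟨hN, ?_⟩
    have hsec : ∀ p : Ω, ∃ g : Cfsg.Sz F m, g • α = p := MulAction.exists_smul_eq _ α
    choose sec hsec using hsec
    let ψ : Ω → Cfsg.suzukiOvoid F m := fun p => sec p • inf' F m
    have hψ : ∀ (g : Cfsg.Sz F m) (p r : Ω), g • ψ p = ψ r → g • p = r := by
      intro g p r e
      have h1 : (sec r)⁻¹ * g * sec p ∈ MulAction.stabilizer (Cfsg.Sz F m) (inf' F m) := by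
        rw [MulAction.mem_stabilizer_iff, mul_smul, mul_smul, inv_smul_eq_iff]; exact e
      rw [← hst, MulAction.mem_stabilizer_iff, mul_smul, mul_smul, inv_smul_eq_iff, hsec, hsec] at h1
      exact h1
    have hψi : Function.Injective ψ := fun p r e => by
      simpa using hψ 1 p r (by rw [one_smul]; exact e)
    rw [MulAction.is_two_pretransitive_iff]
    intro p r u v hpr huv
    obtain ⟨g, h1, h2⟩ := MulAction.is_two_pretransitive_iff.1 (two_transitive h)
      (hψi.ne hpr) (hψi.ne huv)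
    exact ⟨g, hψ g p u h1, hψ g r v h2⟩

end Cfsg.Agent.SmallOrder.SzFixity
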