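import Mathlib

/-!
Irreducible fixed-point-free cyclic linear groups over a prime field: the enveloping field.
-/

namespace Cfsg.Agent.SmallOrder

/-- A domain all of whose elements are roots of `X ^ k - X` has at most `k` elements. -/
theorem card_le_of_forall_pow_eq {R : Type*} [CommRing R] [IsDomain R] [Finite R] {k : ℕ} (hk : 1 < k)
    (h : ∀ r : R, r ^ k = r) : Nat.card R ≤ k := by
  classical
  have := Fintype.ofFinite R
  let f : Polynomial R := Polynomial.X ^ k - Polynomial.X
  have hnd : f.natDegree = k := by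
    rw [Polynomial.natDegree_sub_eq_left_of_natDegree_lt] <;> rw [Polynomial.natDegree_X_pow]
    rw [Polynomial.natDegree_X]; exact hk
  have hf : f ≠ 0 := Polynomial.ne_zero_of_natDegree_gt (n := 1) (by rw [hnd]; exact hk)
  have hsub : (Finset.univ : Finset R) ⊆ f.roots.toFinset := fun r _ => by
    rw [Multiset.mem_toFinset, Polynomial.mem_roots hf, Polynomial.IsRoot.def]
    show Polynomial.eval r (Polynomial.X ^ k - Polynomial.X) = 0
    rw [Polynomial.eval_sub, Polynomial.eval_pow, Polynomial.eval_X, h, sub_self]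
  rw [Nat.card_eq_fintype_card, ← Finset.card_univ, ← hnd]
  exact (Finset.card_le_card hsub).trans ((Multiset.toFinset_card_le _).trans (Polynomial.card_roots' f))

set_option maxHeartbeats 400000 in
/-- If `u` of order `q` acts irreducibly on a group `V` of order `p ^ d` and `A = ker ψ` where `ψ`
describes a group normalising `⟨u⟩`, then the normalising group modulo the centralizer has order
dividing `d`, and `u ^ (p ^ i) ≠ u` for `0 < i < d`. -/
theorem cyclic_irreducible {H V : Type*} [Group H] [Finite H] [AddCommGroup V] [Finite V] {p d : ℕ} [Fact p.Prime]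
    (hd : 0 < d) (hV : Nat.card V = p ^ d) (hpV : ∀ v : V, p • v = 0) (c : H →* AddMonoid.End V) (a : H)
    (hnorm : ∀ h : H, ∃ j : ℕ, h * a * h⁻¹ = a ^ j) (hinj : Function.Injective c)
    (hirr : ∀ W : AddSubgroup V, (∀ v ∈ W, c a v ∈ W) → W = ⊥ ∨ W = ⊤) :
    (∀ i, 0 < i → i < d → a ^ (p ^ i) ≠ a) ∧
      ((Subgroup.centralizer ({a} : Set H)).index ∣ d) := by
  classical
  have : Finite (AddMonoid.End V) := Finite.of_injective (fun f => (f : V → V)) DFunLike.coe_injective
  set u := c a
  set R := Subring.closure ({u} : Set (AddMonoid.End V))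
  have hu : u ∈ R := Subring.subset_closure rfl
  have hRc : R ≤ Subring.centralizer ({u} : Set (AddMonoid.End V)) := by
    rw [Subring.closure_le, Set.singleton_subset_iff, SetLike.mem_coe, Subring.mem_centralizer_iff]
    rintro g rfl; rfl
  have hcommu : ∀ r ∈ R, ∀ v, u (r v) = r (u v) := fun r hr v =>
    DFunLike.congr_fun (Subring.mem_centralizer_iff.mp (hRc hr) u rfl) v
  have : Nontrivial V := Finite.one_lt_card_iff_nontrivial.mp (hV ▸ Nat.one_lt_pow hd.ne' (Fact.out : p.Prime).one_lt)
  obtain ⟨v₀, hv₀⟩ := exists_ne (0 : V)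
  have hker : ∀ r ∈ R, r ≠ 0 → ∀ v, r v = 0 → v = 0 := by
    intro r hr hr0 v hv
    rcases hirr (AddMonoidHom.ker (r : V →+ V)) (fun w hw => by
      show r (u w) = 0
      rw [← hcommu r hr, show r w = 0 from hw, map_zero]) with h | h
    · exact AddSubgroup.mem_bot.mp (h ▸ hv : v ∈ (⊥ : AddSubgroup V))
    · refine absurd (AddMonoidHom.ext fun w => ?_) hr0
      have : w ∈ AddMonoidHom.ker (r : V →+ V) := h.symm ▸ AddSubgroup.mem_top w
      exact this
  have hcomm : ∀ x ∈ R, ∀ y ∈ R, x * y = y * x := by
    intro x hx y hy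
    induction hx using Subring.closure_induction with
    | mem z hz => rw [Set.mem_singleton_iff] at hz; exact hz ▸ (Subring.mem_centralizer_iff.mp (hRc hy) u rfl)
    | zero => simp
    | one => simp
    | add a b _ _ ha hb => rw [add_mul, mul_add, ha, hb]
    | neg a _ ha => rw [neg_mul, mul_neg, ha]
    | mul a b _ _ ha hb => rw [mul_assoc, hb, ← mul_assoc, ha, mul_assoc]
  let _ : CommRing R := { (inferInstance : Ring R) with mul_comm := fun x y => Subtype.ext (hcomm x x.2 y y.2) }
  have : NoZeroDivisors R := ⟨fun {x y} hxy => by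
    by_contra h
    push Not at h
    refine h.2 (Subtype.ext (AddMonoidHom.ext fun v => ?_))
    exact hker x x.2 (fun e => h.1 (Subtype.ext e)) _ (DFunLike.congr_fun (congrArg Subtype.val hxy) v)⟩
  have hbij : Function.Bijective fun r : R => (r : AddMonoid.End V) v₀ := by
    refine ⟨fun r s h => ?_, fun v => ?_⟩
    · by_contra hne
      refine hv₀ (hker _ (R.sub_mem r.2 s.2) (fun e => hne (Subtype.ext (sub_eq_zero.mp e))) v₀ ?_)
      show (r : AddMonoid.End V) v₀ - (s : AddMonoid.End V) v₀ = 0
      exact sub_eq_zero.mpr h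
    · let W : AddSubgroup V :=
        { carrier := {w | ∃ r : R, (r : AddMonoid.End V) v₀ = w}
          zero_mem' := ⟨0, rfl⟩
          add_mem' := fun ⟨r, hr⟩ ⟨s, hs⟩ => ⟨r + s, by rw [← hr, ← hs]; rfl⟩
          neg_mem' := fun ⟨r, hr⟩ => ⟨-r, by rw [← hr]; rfl⟩ }
      rcases hirr W (fun w hw => by obtain ⟨r, hr⟩ := hw; exact ⟨⟨u, hu⟩ * r, by rw [← hr]; rfl⟩) with h | h
      · refine absurd ?_ hv₀
        have h1 : v₀ ∈ W := ⟨1, rfl⟩
        rw [h] at h1
        exact AddSubgroup.mem_bot.mp h1
      · exact (h.symm ▸ AddSubgroup.mem_top v : v ∈ W)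
  have hRcard : Nat.card R = p ^ d := (Nat.card_congr (Equiv.ofBijective _ hbij)).trans hV
  have : Nontrivial R := Finite.one_lt_card_iff_nontrivial.mp (hRcard ▸ Nat.one_lt_pow hd.ne' (Fact.out : p.Prime).one_lt)
  have : IsDomain R := NoZeroDivisors.to_isDomain R
  have hpR : (p : R) = 0 := Subtype.ext (AddMonoidHom.ext fun v => by
    show ((p : R) : AddMonoid.End V) v = 0
    rw [SubringClass.coe_natCast, ← nsmul_one p]
    exact hpV v)
  have : CharP R p := (CharP.charP_iff_prime_eq_zero Fact.out).mpr hpR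
  refine ⟨fun i hi hid e => ?_, ?_⟩
  · have he : u ^ (p ^ i) = u := by rw [← map_pow, e]
    let φ := iterateFrobenius R p i
    have hall : ∀ r (hr : r ∈ R), (⟨r, hr⟩ : R) ^ (p ^ i) = ⟨r, hr⟩ := by
      intro r hr
      rw [← iterateFrobenius_def]
      induction hr using Subring.closure_induction with
      | mem z hz =>
        rw [Set.mem_singleton_iff] at hz; subst hz
        rw [iterateFrobenius_def]; exact Subtype.ext (by simpa using he)
      | zero => exact map_zero φ
      | one => exact map_one φ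
      | add a b _ _ ha hb => rw [show (⟨a + b, _⟩ : R) = ⟨a, _⟩ + ⟨b, _⟩ from rfl, map_add, ha, hb]
      | neg a _ ha => rw [show (⟨-a, _⟩ : R) = -⟨a, _⟩ from rfl, map_neg, ha]
      | mul a b _ _ ha hb => rw [show (⟨a * b, _⟩ : R) = ⟨a, _⟩ * ⟨b, _⟩ from rfl, map_mul, ha, hb]
    have h1 : 1 < p ^ i := Nat.one_lt_pow hi.ne' (Fact.out : p.Prime).one_lt
    have h2 := card_le_of_forall_pow_eq h1 (fun r : R => hall r r.2)
    rw [hRcard] at h2
    exact absurd h2 (not_le.mpr (Nat.pow_lt_pow_right (Fact.out : p.Prime).one_lt hid))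
  · let _ : Field R := (Finite.isField_of_domain R).toField
    let _ : Algebra (ZMod p) R := ZMod.algebra R p
    have hcc : ∀ h, c h * c h⁻¹ = 1 := fun h => by rw [← map_mul, mul_inv_cancel, map_one]
    have hmap : ∀ h, ∀ r ∈ R, c h * r * c h⁻¹ ∈ R := by
      intro h r hr
      induction hr using Subring.closure_induction with
      | mem z hz =>
        rw [Set.mem_singleton_iff] at hz; subst hz
        obtain ⟨j, hj⟩ := hnorm h
        rw [← map_mul, ← map_mul, hj, map_pow]
        exact R.pow_mem hu j
      | zero => simp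
      | one => rw [mul_one, hcc]; exact R.one_mem
      | add a b _ _ ha hb => rw [mul_add, add_mul]; exact R.add_mem ha hb
      | neg a _ ha => rw [mul_neg, neg_mul]; exact R.neg_mem ha
      | mul a b _ _ ha hb =>
        have hcc' : c h⁻¹ * c h = 1 := by rw [← map_mul, inv_mul_cancel, map_one]
        have : c h * (a * b) * c h⁻¹ = (c h * a * c h⁻¹) * (c h * b * c h⁻¹) := by
          rw [mul_assoc (c h * a), ← mul_assoc (c h⁻¹), ← mul_assoc (c h⁻¹), hcc', one_mul]
          noncomm_ring
        rw [this]; exact R.mul_mem ha hb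
    let σ : H → R →+* R := fun h =>
      { toFun := fun r => ⟨c h * (r : AddMonoid.End V) * c h⁻¹, hmap h r r.2⟩
        map_one' := Subtype.ext (by show c h * 1 * c h⁻¹ = 1; rw [mul_one, hcc])
        map_mul' := fun r s => Subtype.ext (by
          have hcc' : c h⁻¹ * c h = 1 := by rw [← map_mul, inv_mul_cancel, map_one]
          show c h * ((r : AddMonoid.End V) * s) * c h⁻¹ = c h * r * c h⁻¹ * (c h * s * c h⁻¹)
          rw [mul_assoc (c h * (r : AddMonoid.End V)), ← mul_assoc (c h⁻¹), ← mul_assoc (c h⁻¹), hcc', one_mul]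
          noncomm_ring)
        map_zero' := Subtype.ext (by show c h * 0 * c h⁻¹ = 0; simp)
        map_add' := fun r s => Subtype.ext (by
          show c h * ((r : AddMonoid.End V) + s) * c h⁻¹ = c h * r * c h⁻¹ + c h * s * c h⁻¹
          rw [mul_add, add_mul]) }
    have hσmul : ∀ g h r, σ (g * h) r = σ g (σ h r) := fun g h r => Subtype.ext (by
      show c (g * h) * (r : AddMonoid.End V) * c (g * h)⁻¹ = c g * (c h * r * c h⁻¹) * c g⁻¹
      rw [mul_inv_rev, map_mul, map_mul]; noncomm_ring)
    have hσone : ∀ r, σ 1 r = r := fun r => Subtype.ext (by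
      show c 1 * (r : AddMonoid.End V) * c 1⁻¹ = r
      simp)
    let S : H →* (R ≃ₐ[ZMod p] R) :=
      { toFun := fun h => AlgEquiv.ofBijective
          ({ toRingHom := σ h, commutes' := fun z => by
              obtain ⟨n, rfl⟩ := ZMod.natCast_zmod_surjective z
              simp } : R →ₐ[ZMod p] R)
          ⟨fun r s e => by
              have : σ h⁻¹ (σ h r) = σ h⁻¹ (σ h s) := congrArg (σ h⁻¹) (e : σ h r = σ h s)
              rwa [← hσmul, ← hσmul, inv_mul_cancel, hσone, hσone] at this,
            fun r => ⟨σ h⁻¹ r, by show σ h (σ h⁻¹ r) = r; rw [← hσmul, mul_inv_cancel, hσone]⟩⟩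
        map_one' := AlgEquiv.ext hσone
        map_mul' := fun g h => AlgEquiv.ext (hσmul g h) }
    have hker : S.ker = Subgroup.centralizer ({a} : Set H) := by
      ext h
      rw [MonoidHom.mem_ker, Subgroup.mem_centralizer_singleton_iff]
      constructor
      · intro hh
        have h1 : c h * u * c h⁻¹ = u :=
          congrArg Subtype.val (DFunLike.congr_fun hh ⟨u, hu⟩ : S h ⟨u, hu⟩ = ⟨u, hu⟩)
        have h2 : h * a * h⁻¹ = a := hinj (by rw [map_mul, map_mul]; exact h1)
        exact mul_inv_eq_iff_eq_mul.mp h2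
      · intro hh
        refine AlgEquiv.ext fun r => Subtype.ext ?_
        show c h * (r : AddMonoid.End V) * c h⁻¹ = r
        have h1 : c h * u = u * c h := by rw [← map_mul, hh, map_mul]
        have h2 : (r : AddMonoid.End V) ∈ Subring.centralizer ({c h} : Set (AddMonoid.End V)) := by
          refine (?_ : R ≤ _) r.2
          rw [Subring.closure_le, Set.singleton_subset_iff, SetLike.mem_coe, Subring.mem_centralizer_iff]
          rintro g rfl; exact h1
        rw [Subring.mem_centralizer_iff.mp h2 (c h) rfl, mul_assoc, hcc, mul_one]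
    have hfin : Module.finrank (ZMod p) R = d := by
      have h := Module.natCard_eq_pow_finrank (K := ZMod p) (V := R)
      rw [Nat.card_zmod, hRcard] at h
      exact (Nat.pow_right_injective (Fact.out : p.Prime).two_le h).symm
    rw [← hker, Subgroup.index_ker, ← hfin, ← IsGalois.card_aut_eq_finrank]
    exact Subgroup.card_subgroup_dvd_card _

end Cfsg.Agent.SmallOrder
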