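import Mathlib

/-!
Closures of affine permutation groups, and Carlitz's theorem on difference quotients in a subgroup.
-/

namespace Cfsg.Agent.SmallOrder

open Polynomial

/-- A permutation agreeing on every triple with an affine map is affine on every line. -/
theorem affine_on_lines {K V : Type*} [Field K] [AddCommGroup V] [Module K V] (σ : V → V)
    (hσ : ∀ t : Fin 3 → V, ∃ (A : V ≃ₗ[K] V) (b : V), ∀ i, σ (t i) = A (t i) + b) (u w : V) (c : K) :
    σ (u + c • (w - u)) = σ u + c • (σ w - σ u) := by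
  obtain ⟨A, b, h⟩ := hσ ![u, w, u + c • (w - u)]
  have h0 := h 0; have h1 := h 1; have h2 := h 2
  simp only [Matrix.cons_val_zero, Matrix.cons_val_one, Matrix.cons_val] at h0 h1 h2
  rw [h0, h1, h2, map_add, map_smul, map_sub, add_sub_add_right_eq_sub]
  abel

/-- A bijection affine on every line is affine, in odd characteristic. -/
theorem affine_of_affine_on_lines {K V : Type*} [Field K] [AddCommGroup V] [Module K V] (h2 : (2 : K) ≠ 0)
    (σ : Equiv.Perm V) (hσ : ∀ u w : V, ∀ c : K, σ (u + c • (w - u)) = σ u + c • (σ w - σ u)) :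
    ∃ (A : V ≃ₗ[K] V) (b : V), ∀ x, σ x = A x + b := by
  have hsmul : ∀ (c : K) (v : V), σ (c • v) - σ 0 = c • (σ v - σ 0) := fun c v => by
    have := hσ 0 v c
    rw [zero_add, sub_zero] at this
    rw [this, add_sub_cancel_left]
  have hadd : ∀ u w : V, σ (u + w) - σ 0 = (σ u - σ 0) + (σ w - σ 0) := fun u w => by
    have hm : (2 : K) • (u + (2 : K)⁻¹ • (w - u)) = u + w := by
      rw [smul_add, smul_smul, mul_inv_cancel₀ h2, one_smul, two_smul]; abel
    rw [← hm, hsmul, hσ u w, smul_sub, smul_add, smul_smul, mul_inv_cancel₀ h2, one_smul, two_smul, two_smul]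
    abel
  let L : V →ₗ[K] V :=
    { toFun := fun v => σ v - σ 0
      map_add' := hadd
      map_smul' := hsmul }
  refine ⟨LinearEquiv.ofBijective L ⟨fun u w h => σ.injective (sub_left_inj.mp h),
    fun y => ⟨σ.symm (y + σ 0), by show σ (σ.symm (y + σ 0)) - σ 0 = y; simp⟩⟩, σ 0, fun x => ?_⟩
  show σ x = σ x - σ 0 + σ 0
  rw [sub_add_cancel]

/-- For a linear functional `φ` and a vector `v`, the determinant of `x ↦ x + φ x • v`. -/
theorem det_id_add_smulRight {K : Type*} [Field K] {n : ℕ} (φ : (Fin n → K) →ₗ[K] K) (v : Fin n → K) :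
    LinearMap.det (LinearMap.id + φ.smulRight v) = 1 + φ v := by
  rw [← LinearMap.det_toMatrix']
  have h : LinearMap.toMatrix' (LinearMap.id + φ.smulRight v)
      = 1 + Matrix.replicateCol (Fin 1) v * Matrix.replicateRow (Fin 1) (fun j => φ (Pi.single j 1)) := by
    rw [map_add, LinearMap.toMatrix'_id]
    congr 1
    ext i j
    simp [LinearMap.toMatrix'_apply, Matrix.mul_apply, mul_comm]
  rw [h]
  refine (Matrix.det_one_add_replicateCol_mul_replicateRow (ι := Fin 1) v fun j => φ (Pi.single j 1)).trans ?_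
  congr 1
  conv_rhs => rw [pi_eq_sum_univ' v, map_sum]
  simp [dotProduct, mul_comm]

/-- Carlitz: if all difference quotients of `f` lie in a proper subgroup of `F_p^*`, then `f` is affine. -/
theorem affine_of_quotients_mem {p : ℕ} [Fact p.Prime] (A : Subgroup (ZMod p)ˣ) (hA : A ≠ ⊤)
    (σ : Equiv.Perm (ZMod p)) (h : ∀ x y, x ≠ y → ∃ a ∈ A, σ x - σ y = (a : ZMod p) * (x - y)) :
    ∃ a ∈ A, ∀ x, σ x = (a : ZMod p) * x + σ 0 := by
  classical
  suffices hlin : ∃ a : ZMod p, ∀ x, σ x = a * x + σ 0 by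
    obtain ⟨a, ha⟩ := hlin
    obtain ⟨b, hb, e⟩ := h 1 0 one_ne_zero
    refine ⟨b, hb, fun x => ?_⟩
    have e1 : a = (b : ZMod p) := by rw [ha 1] at e; simpa using e
    rw [← e1]; exact ha x
  have hp : p.Prime := Fact.out
  set m := Fintype.card A with hm
  have hm0 : 0 < m := Fintype.card_pos
  have h2m : 2 * m + 1 ≤ p := by
    have h1 : m ∣ p - 1 := by
      have := A.card_subgroup_dvd_card
      rwa [Nat.card_eq_fintype_card, Nat.card_eq_fintype_card, ZMod.card_units] at this
    have h2 : m ≠ p - 1 := fun e => hA (Subgroup.eq_top_of_card_eq _ (by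
      rw [Nat.card_eq_fintype_card, Nat.card_eq_fintype_card, ZMod.card_units, ← hm, e]))
    obtain ⟨c, hc⟩ := h1
    have := hp.two_le
    rcases c with _ | _ | c
    · omega
    · exact absurd (by rw [hc]; ring) h2
    · have : m * 2 ≤ p - 1 := hc ▸ Nat.mul_le_mul_left m (by omega)
      omega
  rcases Nat.eq_or_lt_of_le (hm0 : 1 ≤ m) with hm1 | hm1
  · refine ⟨1, fun x => ?_⟩
    by_cases hx : x = 0
    · simp [hx]
    obtain ⟨a, ha, e⟩ := h x 0 hx
    have hbot : A = ⊥ := Subgroup.eq_bot_of_card_eq _ (by rw [Nat.card_eq_fintype_card, ← hm, ← hm1])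
    rw [hbot, Subgroup.mem_bot] at ha
    rw [ha, Units.val_one, sub_zero] at e
    exact (sub_eq_iff_eq_add.mp e)
  -- the interpolation polynomial of `σ`
  set f : (ZMod p)[X] := Lagrange.interpolate Finset.univ id σ with hf
  have hinj : Set.InjOn (id : ZMod p → ZMod p) (Finset.univ : Finset (ZMod p)) := Function.injective_id.injOn
  have hfe : ∀ x, f.eval x = σ x := fun x => Lagrange.eval_interpolate_at_node σ hinj (Finset.mem_univ x)
  have hfd : f.degree < (p : ℕ) := by
    have := Lagrange.degree_interpolate_lt σ hinj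
    rwa [Finset.card_univ, ZMod.card] at this
  have hfn : f.natDegree < p := by
    rcases eq_or_ne f 0 with h0 | h0
    · rw [h0, natDegree_zero]; exact hp.pos
    · exact (natDegree_lt_iff_degree_lt h0).mpr hfd
  set n := f.natDegree with hn
  by_cases hn1 : n ≤ 1
  · refine ⟨f.coeff 1, fun x => ?_⟩
    have e := eq_X_add_C_of_natDegree_le_one hn1
    have h0 : σ 0 = f.coeff 0 := by rw [← hfe 0]; exact coeff_zero_eq_eval_zero f |>.symm
    conv_lhs => rw [← hfe x, e]
    simp [h0]
  exfalso
  push Not at hn1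
  obtain ⟨k, hk0, hkm, hkn, hkn', hkp⟩ : ∃ k, 0 < k ∧ k < m ∧ m ≤ k * n ∧ (k - 1) * n < m ∧ k * n < p := by
    have hex : ∃ k, m ≤ k * n := ⟨m, Nat.le_mul_of_pos_right m (by omega)⟩
    refine ⟨Nat.find hex, ?_, ?_, Nat.find_spec hex, ?_, ?_⟩
    · rw [Nat.find_pos]; omega
    · have : Nat.find hex ≤ m - 1 := Nat.find_min' hex (by
        have := Nat.mul_le_mul_left (m - 1) (show 2 ≤ n by omega)
        omega)
      omega
    · by_contra hc
      push Not at hc
      have := Nat.find_min' hex hc
      have : 0 < Nat.find hex := by rw [Nat.find_pos]; omega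
      omega
    · by_cases hnm : m ≤ n
      · have : Nat.find hex ≤ 1 := Nat.find_min' hex (by omega)
        calc Nat.find hex * n ≤ 1 * n := Nat.mul_le_mul_right n this
          _ < p := by omega
      · by_contra hc
        push Not at hc
        have hq : 0 < Nat.find hex := by rw [Nat.find_pos]; omega
        have h3 : ¬ m ≤ (Nat.find hex - 1) * n := Nat.find_min hex (by omega)
        have : Nat.find hex * n = (Nat.find hex - 1) * n + n := by
          rw [Nat.sub_one_mul]; have := Nat.le_mul_of_pos_left n hq; omega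
        omega
  have hps : ∀ i, i ≠ 0 → i < m → ∑ a : A, ((a : (ZMod p)ˣ) : ZMod p) ^ i = 0 :=
    fun i h1 h2 => FiniteField.sum_subgroup_pow_eq_zero h1 h2
  have hpm : ∑ a : A, ((a : (ZMod p)ˣ) : ZMod p) ^ m = m := by
    have h1 : ∀ a : A, ((a : (ZMod p)ˣ) : ZMod p) ^ m = 1 := fun a => by
      have : a ^ m = 1 := pow_card_eq_one
      rw [← Units.val_pow_eq_pow_val, ← Subgroup.coe_pow, this]; rfl
    simp [h1, ← hm]
  -- sums of translates
  let S : (ZMod p)[X] → (ZMod p)[X] := fun g => ∑ a : A, taylor ((a : (ZMod p)ˣ) : ZMod p) g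
  have hcoeff : ∀ (g : (ZMod p)[X]) (s : ℕ), g.natDegree - s ≤ m →
      (S g).coeff s = m * (g.coeff s + (hasseDeriv s g).coeff m) := by
    intro g s hgs
    have hd : (hasseDeriv s g).natDegree < m + 1 := by
      have := natDegree_hasseDeriv_le g s; omega
    rw [finset_sum_coeff]
    simp only [taylor_coeff, eval_eq_sum_range' hd]
    rw [Finset.sum_comm, Finset.sum_range_succ, ← Finset.mul_sum, hpm]
    simp only [← Finset.mul_sum]
    rw [Finset.sum_eq_single 0]
    · simp [hasseDeriv_coeff, hm]; ring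
    · intro i hi hi0
      rw [hps i hi0 (Finset.mem_range.mp hi), mul_zero]
    · intro h0; exact absurd (Finset.mem_range.mpr hm0) h0
  have hsmall : ∀ g : (ZMod p)[X], g.natDegree < m → S g = (m : ZMod p) • g := by
    intro g hg
    ext s
    rw [hcoeff g s (by omega), coeff_smul, smul_eq_mul]
    rw [coeff_eq_zero_of_natDegree_lt ((natDegree_hasseDeriv_le g s).trans_lt (by omega)), add_zero]
  -- the key identity
  let P : (ZMod p)[X] := S (f ^ k) - (m : ZMod p) • f ^ k
  have hPe : ∀ x, P.eval x = 0 := by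
    intro x
    have hperm : ∑ a : A, (f.eval (x + ((a : (ZMod p)ˣ) : ZMod p)) - f.eval x) ^ k = 0 := by
      have hex : ∀ a : A, ∃ b : A, σ (x + ((a : (ZMod p)ˣ) : ZMod p)) - σ x = ((b : (ZMod p)ˣ) : ZMod p) := by
        intro a
        obtain ⟨c, hc, e⟩ := h (x + ((a : (ZMod p)ˣ) : ZMod p)) x (by simp)
        rw [add_sub_cancel_left] at e
        exact ⟨⟨c * a, A.mul_mem hc a.2⟩, by rw [e]; push_cast; rfl⟩
      choose ψ hψ using hex
      have hψi : Function.Injective ψ := fun a b e => by
        have h1 := hψ a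
        rw [e, ← hψ b, sub_left_inj, σ.injective.eq_iff, add_right_inj] at h1
        exact Subtype.ext (Units.ext h1)
      simp only [hfe, hψ]
      rw [Fintype.sum_bijective ψ (Finite.injective_iff_bijective.mp hψi)
        (fun a => ((ψ a : (ZMod p)ˣ) : ZMod p) ^ k) (fun b => ((b : (ZMod p)ˣ) : ZMod p) ^ k) fun a => rfl]
      exact hps k hk0.ne' hkm
    have hlow : ∀ j < k, (S (f ^ j)).eval x = m * f.eval x ^ j := by
      intro j hj
      rw [hsmall (f ^ j) ?_, eval_smul, eval_pow, smul_eq_mul]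
      calc (f ^ j).natDegree ≤ j * n := natDegree_pow_le
        _ ≤ (k - 1) * n := Nat.mul_le_mul_right n (by omega)
        _ < m := hkn'
    have hSe : ∀ j, (S (f ^ j)).eval x = ∑ a : A, f.eval (x + ((a : (ZMod p)ˣ) : ZMod p)) ^ j := fun j => by
      simp only [S, eval_finsetSum, taylor_eval, eval_pow]
    simp only [sub_eq_add_neg, add_pow] at hperm
    rw [Finset.sum_comm, Finset.sum_range_succ] at hperm
    rw [Finset.sum_congr rfl fun j hj => show
      ∑ a : A, f.eval (x + ((a : (ZMod p)ˣ) : ZMod p)) ^ j * (-f.eval x) ^ (k - j) * (k.choose j : ZMod p)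
        = (m : ZMod p) * (f.eval x ^ j * (-f.eval x) ^ (k - j) * (k.choose j : ZMod p)) by
      rw [← Finset.sum_mul, ← Finset.sum_mul, ← hSe, hlow j (Finset.mem_range.mp hj)]; ring] at hperm
    simp only [Nat.sub_self, pow_zero, mul_one, Nat.choose_self, Nat.cast_one] at hperm
    rw [← hSe, ← Finset.mul_sum] at hperm
    have hzero : ∑ j ∈ Finset.range k, f.eval x ^ j * (-f.eval x) ^ (k - j) * (k.choose j : ZMod p) = -(f.eval x ^ k) := by
      have h1 := add_pow (f.eval x) (-f.eval x) k
      rw [add_neg_cancel, zero_pow hk0.ne', Finset.sum_range_succ] at h1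
      simp only [Nat.sub_self, pow_zero, mul_one, Nat.choose_self, Nat.cast_one] at h1
      exact eq_neg_of_add_eq_zero_left h1.symm
    rw [hzero] at hperm
    simp only [P, eval_sub, eval_smul, eval_pow, smul_eq_mul]
    rw [← hperm]; ring
  have hgd : (f ^ k).natDegree = k * n := natDegree_pow f k
  have hPd : P.natDegree < p := by
    refine lt_of_le_of_lt (natDegree_sub_le _ _) (max_lt ?_ ?_)
    · refine lt_of_le_of_lt (natDegree_sum_le_of_forall_le _ _ fun a _ => ?_) hkp
      rw [natDegree_taylor, hgd]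
    · exact lt_of_le_of_lt ((natDegree_smul_le _ _).trans hgd.le) hkp
  have hP0 : P = 0 := eq_zero_of_natDegree_lt_card_of_eval_eq_zero P Function.injective_id hPe
    (by rwa [ZMod.card])
  have hc := congrArg (fun q : (ZMod p)[X] => q.coeff (k * n - m)) hP0
  simp only [P, coeff_sub, coeff_smul, smul_eq_mul, coeff_zero] at hc
  rw [hcoeff _ _ (by rw [hgd]; omega), hasseDeriv_coeff, show m + (k * n - m) = (f ^ k).natDegree by rw [hgd]; omega,
    coeff_natDegree, leadingCoeff_pow] at hc
  rw [mul_add, add_sub_cancel_left, hgd, mul_eq_zero, mul_eq_zero] at hc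
  rcases hc with hc | hc | hc
  · rw [ZMod.natCast_eq_zero_iff] at hc
    exact absurd (Nat.le_of_dvd hm0 hc) (by omega)
  · rw [ZMod.natCast_eq_zero_iff] at hc
    have h1 := Nat.choose_mul_factorial_mul_factorial (show k * n - m ≤ k * n by omega)
    have h2 : p ∣ (k * n).factorial := h1 ▸ (hc.mul_right _).mul_right _
    exact absurd ((Nat.Prime.dvd_factorial hp).mp h2) (by omega)
  · have hf0 : f ≠ 0 := fun h0 => by rw [hn, h0, natDegree_zero] at hn1; omega
    exact pow_ne_zero k (leadingCoeff_ne_zero.mpr hf0) hc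

end Cfsg.Agent.SmallOrder
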