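import Cfsg.Prelude.Def_Transfer
import Cfsg.Agent.Screen.GL23.Model
import Cfsg.Agent.S0111
import Mathlib.GroupTheory.FixedPointFree

/-!
A group without a subgroup of index two in which an involution has centraliser `GL(2,3)` is simple.
-/

set_option autoImplicit false
set_option linter.unusedSectionVars false
set_option linter.style.haveILetI false

namespace Cfsg.Agent.SmallOrder.GL23Simple

open Cfsg Cfsg.Agent.Screen.GL23

/-- The determinant of an index. -/
def detQ (q : Q) : ℕ := (q.1.1 % 3 * (q.1.1 / 27 % 3) + 2 * (q.1.1 / 3 % 3 * (q.1.1 / 9 % 3))) % 3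

/-- An involution or the identity. -/
abbrev small (q : Q) : Prop := mul q q = one

theorem detQ_mul : ∀ a b : Q, detQ (mul a b) = detQ a * detQ b % 3 := by decide +kernel

theorem detQ_cases : detQ one = 1 ∧ (∀ a : Q, detQ a = 1 ∨ detQ a = 2) ∧
    ∀ a : Q, isInv a → a ≠ negOne → detQ a = 2 := by decide +kernel

theorem three_not_normal : ∀ h : Q, h ≠ one → pw h 3 = one →
    ∃ q : Q, mul q h ≠ mul h q ∧ mul q h ≠ mul (mul h h) q := by decide +kernel

theorem inv_generate : ∀ q : Q, ∃ a b : Q, small a ∧ small b ∧ small (mul (mul b a) q) := by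
  decide +kernel

theorem exists_other : ∃ q : Q, isInv q ∧ q ≠ negOne := by decide +kernel

variable {G : Type*} [Group G] [Finite G] {t : G}
  (e : Subgroup.centralizer ({t} : Set G) ≃* GL (Fin 2) (ZMod 3)) (ht : orderOf t = 2)

/-- The index of an element of the centraliser. -/
noncomputable def hq (h : Subgroup.centralizer ({t} : Set G)) : Q := toQ (e h)

theorem hq_bij : Function.Bijective (hq e) := toQ_bijective.comp e.bijective

theorem hq_mul (a b : Subgroup.centralizer ({t} : Set G)) : hq e (a * b) = mul (hq e a) (hq e b) := by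
  simp only [hq, map_mul, toQ_mul]

theorem hq_one : hq e 1 = one := by simp only [hq, map_one, toQ_one]

theorem hq_pow (a : Subgroup.centralizer ({t} : Set G)) (k : ℕ) : hq e (a ^ k) = pw (hq e a) k := by
  induction k with
  | zero => rw [pow_zero, hq_one]; rfl
  | succ k ih => rw [pow_succ, hq_mul, ih]; rfl

theorem mem_C {g : G} : g ∈ Subgroup.centralizer ({t} : Set G) ↔ g * t = t * g := by
  rw [Subgroup.mem_centralizer_singleton_iff]

theorem t_mem : t ∈ Subgroup.centralizer ({t} : Set G) := mem_C.2 rfl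

theorem isInv_iff (a : Subgroup.centralizer ({t} : Set G)) :
    isInv (hq e a) ↔ (a : G) ≠ 1 ∧ (a : G) * (a : G) = 1 := by
  unfold isInv
  rw [← hq_mul, ← hq_one e, ← Subgroup.coe_mul]
  simp only [ne_eq, (hq_bij e).1.eq_iff, OneMemClass.coe_eq_one]

include e ht

theorem card_C : Nat.card (Subgroup.centralizer ({t} : Set G)) = 48 := by
  rw [Nat.card_congr e.toEquiv, card_GL23]

theorem t_ne : t ≠ 1 := fun h => by simp [h] at ht

theorem tt : t * t = 1 := by rw [← pow_two, ← ht]; exact pow_orderOf_eq_one t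

theorem hq_t : hq e ⟨t, t_mem⟩ = negOne := by
  refine (facts_negOne.2.2 _ fun q => ?_).resolve_left fun h => t_ne e ht ?_
  · obtain ⟨b, rfl⟩ := (hq_bij e).2 q
    rw [← hq_mul, ← hq_mul]
    exact congrArg _ (Subtype.ext (mem_C.1 b.2).symm)
  · exact congrArg Subtype.val ((hq_bij e).1 (h.trans (hq_one e).symm))

/-- The only involution of `C` centralised by a subgroup of order sixteen is `t`. -/
theorem eq_t_of_central {H : Subgroup G} (hH : H ≤ Subgroup.centralizer ({t} : Set G)) (h16 : Nat.card H = 16)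
    {w : G} (hwC : w ∈ Subgroup.centralizer ({t} : Set G)) (hw1 : w ≠ 1) (hww : w * w = 1)
    (hc : ∀ p ∈ H, w * p = p * w) : w = t := by
  classical
  by_contra hne
  have h4 := facts_noncentral _ ((isInv_iff e ⟨w, hwC⟩).2 ⟨hw1, hww⟩) fun h => hne
    (congrArg Subtype.val ((hq_bij e).1 (h.trans (hq_t e ht).symm)))
  let f : H → Q := fun p => hq e ⟨p, hH p.2⟩
  have hf : Function.Injective f := fun a b h =>
    Subtype.ext (congrArg (fun z : Subgroup.centralizer ({t} : Set G) => (z : G)) ((hq_bij e).1 h) :)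
  have hle : Nat.card H ≤ 4 := by
    rw [← h4, ← Nat.card_eq_finsetCard]
    refine Nat.card_le_card_of_injective
      (fun p => ⟨f p, Finset.mem_filter.2 ⟨Finset.mem_univ _, ?_⟩⟩) fun a b h => hf (congrArg Subtype.val h)
    rw [← hq_mul, ← hq_mul]
    exact congrArg _ (Subtype.ext (hc p p.2))
  omega

theorem exists_sylow : ∃ P : Sylow 2 G, (P : Subgroup G) ≤ Subgroup.centralizer ({t} : Set G) ∧
    Nat.card (P : Subgroup G) = 16 := by
  haveI : Fact (Nat.Prime 2) := ⟨Nat.prime_two⟩
  have hC := card_C e ht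
  obtain ⟨H, h16⟩ := Sylow.exists_subgroup_card_pow_prime (G := Subgroup.centralizer ({t} : Set G)) 2 (n := 4)
    (by rw [hC]; norm_num)
  set H' : Subgroup G := H.map (Subgroup.centralizer ({t} : Set G)).subtype with hH'
  have h16' : Nat.card H' = 16 := by
    rw [hH', Subgroup.card_map_of_injective (Subgroup.centralizer ({t} : Set G)).subtype_injective, h16]
    norm_num
  have hH'C : H' ≤ Subgroup.centralizer ({t} : Set G) := Subgroup.map_subtype_le H
  have htH : t ∈ H' := by
    let Z := Subgroup.zpowers t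
    have hZ : H' ≤ Subgroup.normalizer (Z : Set G) := fun h hh => by
      refine Subgroup.centralizer_le_normalizer _ (Subgroup.mem_centralizer_iff.2 fun z hz => ?_)
      obtain ⟨k, rfl⟩ := Subgroup.mem_zpowers_iff.1 hz
      exact ((show Commute t h from (mem_C.1 (hH'C hh)).symm).zpow_left k).eq
    have hp : IsPGroup 2 (H' ⊔ Z : Subgroup G) :=
      (IsPGroup.of_card (n := 4) (h16'.trans (by norm_num))).to_sup_of_normal_right'
        (IsPGroup.of_card (n := 1) (by rw [Nat.card_zpowers, ht, pow_one])) hZ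
    have hle : H' ⊔ Z ≤ Subgroup.centralizer ({t} : Set G) := sup_le hH'C (Subgroup.zpowers_le.2 t_mem)
    have hd := Subgroup.card_dvd_of_le hle
    obtain ⟨j, hj⟩ := IsPGroup.iff_card.1 hp
    rw [hC, hj] at hd
    have hj4 : j ≤ 4 := by
      by_contra h
      have h32 := (Nat.pow_dvd_pow 2 (show 5 ≤ j by omega)).trans hd
      norm_num at h32
    have := Subgroup.eq_of_le_of_card_ge (le_sup_left : H' ≤ H' ⊔ Z) (by
      rw [hj, h16']; exact (Nat.pow_le_pow_right (by norm_num) hj4).trans (by norm_num))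
    exact this ▸ Subgroup.mem_sup_right (Subgroup.mem_zpowers t)
  obtain ⟨P, hP⟩ := (IsPGroup.of_card (n := 4) (h16'.trans (by norm_num)) : IsPGroup 2 H').exists_le_sylow
  haveI : Nontrivial (P : Subgroup G) :=
    ⟨⟨t, hP htH⟩, 1, fun h => t_ne e ht (congrArg Subtype.val h)⟩
  haveI := P.2.center_nontrivial
  have h2 : 2 ∣ Nat.card (Subgroup.center (P : Subgroup G)) := by
    obtain ⟨n, hn⟩ := IsPGroup.iff_card.1 (P.2.to_subgroup (Subgroup.center (P : Subgroup G)))
    have : 1 < Nat.card (Subgroup.center (P : Subgroup G)) := Finite.one_lt_card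
    rw [hn] at this ⊢
    exact dvd_pow_self 2 (by rintro rfl; norm_num at this)
  obtain ⟨z, hz⟩ := exists_prime_orderOf_dvd_card' (G := Subgroup.center (P : Subgroup G)) 2 h2
  set w : G := ((z : (P : Subgroup G)) : G) with hw
  have hwc : ∀ p ∈ P, w * p = p * w := fun p hp =>
    (congrArg Subtype.val (Subgroup.mem_center_iff.1 z.2 ⟨p, hp⟩)).symm
  have hwo : orderOf w = 2 := by rw [hw, Subgroup.orderOf_coe, Subgroup.orderOf_coe, hz]
  have hwt : w = t := eq_t_of_central e ht hH'C h16' (mem_C.2 (hwc t (hP htH)))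
    (fun h => by simp [h] at hwo) (by rw [← pow_two, ← hwo]; exact pow_orderOf_eq_one w)
    fun p hp => hwc p (hP hp)
  have hPC : (P : Subgroup G) ≤ Subgroup.centralizer ({t} : Set G) := fun p hp =>
    mem_C.2 (by have := hwc p hp; rw [hwt] at this; exact this.symm)
  refine ⟨P, hPC, ?_⟩
  have hd := Subgroup.card_dvd_of_le hPC
  obtain ⟨j, hj⟩ := IsPGroup.iff_card.1 P.2
  rw [hC, hj] at hd
  have hj4 : j ≤ 4 := by
    by_contra h
    have h32 := (Nat.pow_dvd_pow 2 (show 5 ≤ j by omega)).trans hd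
    norm_num at h32
  have hge := Subgroup.card_le_of_le hP
  rw [h16', hj] at hge
  rw [hj]
  have := (Nat.pow_le_pow_right (show 0 < 2 by norm_num) hj4)
  omega

variable (hO : Cfsg.pResidual 2 G = ⊤)
include hO

/-- All involutions are conjugate. -/
theorem one_class {u : G} (hu1 : u ≠ 1) (huu : u * u = 1) : IsConj t u := by
  haveI : Fact (Nat.Prime 2) := ⟨Nat.prime_two⟩
  obtain ⟨P, hPC, hP16⟩ := exists_sylow e ht
  -- move `u` into the Sylow subgroup
  obtain ⟨Pu, hPu⟩ := (IsPGroup.of_card (p := 2) (n := 1) (G := Subgroup.zpowers u) (by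
    rw [Nat.card_zpowers, pow_one]; exact orderOf_eq_prime (by rw [pow_two]; exact huu) hu1)).exists_le_sylow
  obtain ⟨g, hg⟩ := MulAction.exists_smul_eq G Pu P
  have huP : g * u * g⁻¹ ∈ P := by rw [← hg]; exact ⟨u, hPu (Subgroup.mem_zpowers u), rfl⟩
  refine IsConj.trans ?_ (isConj_iff.2 ⟨g, rfl⟩ : IsConj u (g * u * g⁻¹)).symm
  set v := g * u * g⁻¹ with hv
  have hv1 : v ≠ 1 := fun h1 => hu1 (conj_eq_one_iff.1 h1)
  have hvv : v * v = 1 := by
    calc v * v = g * (u * u) * g⁻¹ := by rw [hv]; group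
      _ = 1 := by rw [huu, mul_one, mul_inv_cancel]
  by_cases h : v = t
  · rw [h]
  -- the elements of determinant one
  let Q0 : Subgroup G :=
    { carrier := {x | ∃ hx : x ∈ P, detQ (hq e ⟨x, hPC hx⟩) = 1}
      one_mem' := ⟨P.one_mem, by
        rw [show (⟨1, hPC P.one_mem⟩ : Subgroup.centralizer ({t} : Set G)) = 1 from rfl, hq_one]
        exact detQ_cases.1⟩
      mul_mem' := by
        rintro a b ⟨ha, ha'⟩ ⟨hb, hb'⟩
        refine ⟨mul_mem ha hb, ?_⟩
        rw [show (⟨a * b, hPC (mul_mem ha hb)⟩ : Subgroup.centralizer ({t} : Set G)) =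
          ⟨a, hPC ha⟩ * ⟨b, hPC hb⟩ from rfl, hq_mul, detQ_mul, ha', hb']
      inv_mem' := by
        rintro a ⟨ha, ha'⟩
        refine ⟨inv_mem ha, ?_⟩
        have := detQ_mul (hq e ⟨a⁻¹, hPC (inv_mem ha)⟩) (hq e ⟨a, hPC ha⟩)
        rw [← hq_mul, show (⟨a⁻¹, hPC (inv_mem ha)⟩ : Subgroup.centralizer ({t} : Set G)) * ⟨a, hPC ha⟩ = 1 from
          Subtype.ext (inv_mul_cancel a), hq_one, detQ_cases.1, ha'] at this
        rcases detQ_cases.2.1 (hq e ⟨a⁻¹, hPC (inv_mem ha)⟩) with h' | h' <;> omega }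
  have hQP : Q0 ≤ (P : Subgroup G) := fun x hx => hx.1
  have hdv : detQ (hq e ⟨v, hPC huP⟩) = 2 := detQ_cases.2.2 _ ((isInv_iff e _).2 ⟨hv1, hvv⟩) fun h' => h
    (congrArg Subtype.val ((hq_bij e).1 (h'.trans (hq_t e ht).symm)))
  have hvQ : v ∉ Q0 := fun ⟨_, h'⟩ => by rw [hdv] at h'; omega
  have hidx : Q0.relIndex (P : Subgroup G) = 2 := by
    rw [Subgroup.relIndex, Subgroup.index_eq_two_iff]
    refine ⟨⟨v, huP⟩, fun b => ?_⟩
    simp only [Subgroup.mem_subgroupOf, Subgroup.coe_mul]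
    rcases detQ_cases.2.1 (hq e ⟨b, hPC b.2⟩) with hb | hb
    · refine Or.inr ⟨⟨b.2, hb⟩, fun ⟨hbv, h'⟩ => ?_⟩
      rw [show (⟨(b : G) * v, hPC hbv⟩ : Subgroup.centralizer ({t} : Set G)) =
        ⟨b, hPC b.2⟩ * ⟨v, hPC huP⟩ from rfl, hq_mul, detQ_mul, hb, hdv] at h'
      omega
    · refine Or.inl ⟨⟨mul_mem b.2 huP, ?_⟩, fun ⟨_, h'⟩ => by rw [hb] at h'; omega⟩
      rw [show (⟨(b : G) * v, hPC (mul_mem b.2 huP)⟩ : Subgroup.centralizer ({t} : Set G)) =
        ⟨b, hPC b.2⟩ * ⟨v, hPC huP⟩ from rfl, hq_mul, detQ_mul, hb, hdv]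
  rcases S0111.result P Q0 hQP hidx v (orderOf_eq_prime (by rw [pow_two]; exact hvv) hv1) huP hvQ with
    ⟨M, hM, hM2, hvM⟩ | ⟨x, hx⟩
  · exfalso
    refine hvM (?_ : v ∈ M)
    have hle : Cfsg.pResidual 2 G ≤ M := by
      refine (Subgroup.closure_le _).2 fun a ha => ?_
      haveI := hM
      have h1 : orderOf (QuotientGroup.mk' M a) ∣ Nat.gcd (orderOf a) 2 :=
        Nat.dvd_gcd (orderOf_map_dvd _ a) (by
          have := orderOf_dvd_natCard (QuotientGroup.mk' M a)
          rwa [← Subgroup.index_eq_card, hM2] at this)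
      rw [(show Nat.Coprime (orderOf a) 2 from ha).gcd_eq_one, Nat.dvd_one, orderOf_eq_one_iff] at h1
      exact (QuotientGroup.eq_one_iff a).1 h1
    exact hle (hO ▸ Subgroup.mem_top v)
  · obtain ⟨hxP, hdx⟩ := hx
    have hxt : x * v * x⁻¹ = t := by
      by_contra hne
      have := detQ_cases.2.2 (hq e ⟨_, hPC hxP⟩) ((isInv_iff e _).2 ⟨fun h1 => hv1 (conj_eq_one_iff.1 h1), by
        show x * v * x⁻¹ * (x * v * x⁻¹) = 1
        calc x * v * x⁻¹ * (x * v * x⁻¹) = x * (v * v) * x⁻¹ := by group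
          _ = 1 := by rw [hvv, mul_one, mul_inv_cancel]⟩) fun h' => hne
        (congrArg Subtype.val ((hq_bij e).1 (h'.trans (hq_t e ht).symm)))
      omega
    exact (isConj_iff.2 ⟨x, hxt⟩ : IsConj v t).symm

/-- The group is simple. -/
theorem isSimpleGroup : IsSimpleGroup G := by
  classical
  haveI : Fact (Nat.Prime 2) := ⟨Nat.prime_two⟩
  obtain ⟨P, hPC, hP16⟩ := exists_sylow e ht
  haveI : Nontrivial G := ⟨⟨t, 1, t_ne e ht⟩⟩
  refine ⟨fun N hN => or_iff_not_imp_left.2 fun hN1 => ?_⟩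
  haveI := hN
  have hinvN : ∀ {u : G}, u ≠ 1 → u * u = 1 → t ∈ N → u ∈ N := fun hu1 huu htN => by
    obtain ⟨c, hc⟩ := isConj_iff.1 (one_class e ht hO hu1 huu)
    exact hc ▸ hN.conj_mem t htN c
  by_cases h2 : 2 ∣ Nat.card N
  · obtain ⟨⟨u, huN⟩, hu⟩ := exists_prime_orderOf_dvd_card' 2 h2
    rw [Subgroup.orderOf_mk] at hu
    have hu1 : u ≠ 1 := fun h => by simp [h] at hu
    have htN : t ∈ N := by
      obtain ⟨c, hc⟩ := isConj_iff.1 (one_class e ht hO hu1 (by rw [← pow_two, ← hu]; exact pow_orderOf_eq_one u))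
      have := hN.conj_mem u huN c⁻¹
      rw [← hc] at this
      simpa [mul_assoc] using this
    have hsmall : ∀ c : Subgroup.centralizer ({t} : Set G), small (hq e c) → (c : G) ∈ N := fun c hc => by
      by_cases h1 : (c : G) = 1
      · rw [h1]; exact one_mem N
      · have hcc : hq e (c * c) = hq e 1 := by rw [hq_mul, hq_one]; exact hc
        exact hinvN h1 (congrArg Subtype.val ((hq_bij e).1 hcc)) htN
    have hCN : Subgroup.centralizer ({t} : Set G) ≤ N := fun g hg => by
      obtain ⟨a, b, ha, hb, hab⟩ := inv_generate (hq e ⟨g, hg⟩)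
      obtain ⟨a', rfl⟩ := (hq_bij e).2 a
      obtain ⟨b', rfl⟩ := (hq_bij e).2 b
      rw [← hq_mul, ← hq_mul] at hab
      have h3 := hsmall _ hab
      simp only [Subgroup.coe_mul] at h3
      have := N.mul_mem (N.mul_mem (N.inv_mem (hsmall _ ha)) (N.inv_mem (hsmall _ hb))) h3
      simpa [mul_assoc] using this
    have hNC : Subgroup.normalizer ((P : Subgroup G) : Set G) ≤ Subgroup.centralizer ({t} : Set G) := fun g hg => by
      have htP : t ∈ (P : Subgroup G) := by
        obtain ⟨j, hj⟩ := IsPGroup.iff_card.1 P.2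
        by_contra htP
        have hcl : ∀ p ∈ (P : Subgroup G), Commute t p := fun p hp => (mem_C.1 (hPC hp)).symm
        have hZ : (P : Subgroup G) ≤ Subgroup.normalizer (Subgroup.zpowers t : Set G) := fun p hp => by
          refine Subgroup.centralizer_le_normalizer _ (Subgroup.mem_centralizer_iff.2 fun z hz => ?_)
          obtain ⟨k, rfl⟩ := Subgroup.mem_zpowers_iff.1 hz
          exact ((hcl p hp).zpow_left k).eq
        have hp : IsPGroup 2 ((P : Subgroup G) ⊔ Subgroup.zpowers t : Subgroup G) :=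
          P.2.to_sup_of_normal_right' (IsPGroup.of_card (n := 1) (by rw [Nat.card_zpowers, ht, pow_one])) hZ
        exact htP (P.3 hp le_sup_left ▸ Subgroup.mem_sup_right (Subgroup.mem_zpowers t))
      have htN' : g * t * g⁻¹ ∈ (P : Subgroup G) := (Subgroup.mem_normalizer_iff.1 hg t).1 htP
      refine mem_C.2 ?_
      have : g * t * g⁻¹ = t := eq_t_of_central e ht hPC hP16 (hPC htN') (fun h => t_ne e ht (conj_eq_one_iff.1 h))
        (by calc g * t * g⁻¹ * (g * t * g⁻¹) = g * (t * t) * g⁻¹ := by group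
              _ = 1 := by rw [tt e ht, mul_one, mul_inv_cancel]) fun p hp => by
          have h' : g⁻¹ * p * g ∈ (P : Subgroup G) := by
            rw [Subgroup.mem_normalizer_iff.1 hg]; simpa [mul_assoc] using hp
          have hc := mem_C.1 (hPC h')
          calc g * t * g⁻¹ * p = g * (t * (g⁻¹ * p * g)) * g⁻¹ := by group
            _ = g * ((g⁻¹ * p * g) * t) * g⁻¹ := by rw [hc]
            _ = p * (g * t * g⁻¹) := by group
      exact mul_inv_eq_iff_eq_mul.1 this
    have := Sylow.normalizer_sup_eq_top' P (hPC.trans hCN)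
    exact top_le_iff.1 (this.symm.le.trans (sup_le (hNC.trans hCN) le_rfl))
  · exfalso
    apply hN1
    -- no element of `N` commutes with `t`
    have hC1 : ∀ x ∈ N, x * t = t * x → x = 1 := by
      intro x hxN hx
      by_contra hx1
      let X := N.subgroupOf (Subgroup.centralizer ({t} : Set G))
      have hd1 : Nat.card X ∣ 48 := card_C e ht ▸ Subgroup.card_subgroup_dvd_card X
      have hd2 : Nat.card X ∣ Nat.card N := by
        rw [← Subgroup.card_map_of_injective (K := X) (Subgroup.centralizer ({t} : Set G)).subtype_injective]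
        exact Subgroup.card_dvd_of_le (by rw [Subgroup.subgroupOf_map_subtype]; exact inf_le_left)
      have hd3 : Nat.card X ∣ 3 := by
        refine Nat.Coprime.dvd_of_dvd_mul_left (k := Nat.card X) (m := 16) ?_ (by rwa [show 16 * 3 = 48 from rfl])
        rw [show 16 = 2 ^ 4 from rfl]
        exact Nat.Coprime.pow_right _ (Nat.Coprime.symm ((Nat.prime_two.coprime_iff_not_dvd).2 fun h => h2 (h.trans hd2)))
      let x' : Subgroup.centralizer ({t} : Set G) := ⟨x, mem_C.2 hx⟩
      have hx'X : x' ∈ X := hxN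
      have hX3 : Nat.card X = 3 := ((Nat.dvd_prime Nat.prime_three).1 hd3).resolve_left fun h => hx1 (by
        have : (⟨x', hx'X⟩ : X) = 1 := (Nat.card_eq_one_iff_unique.1 h).1.elim _ _
        exact congrArg (fun z : X => ((z : Subgroup.centralizer ({t} : Set G)) : G)) this)
      have hx'1 : x' ≠ 1 := fun h => hx1 (congrArg Subtype.val h)
      have hx'3 : orderOf x' = 3 := ((Nat.dvd_prime Nat.prime_three).1 (hX3 ▸ Subgroup.orderOf_dvd_natCard X hx'X)).resolve_left
        (fun h => hx'1 (orderOf_eq_one_iff.1 h))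
      obtain ⟨q, hq1, hq2⟩ := three_not_normal (hq e x') (fun h => hx'1 ((hq_bij e).1 (h.trans (hq_one e).symm)))
        (by rw [← hq_pow, ← hx'3, pow_orderOf_eq_one, hq_one])
      obtain ⟨c, rfl⟩ := (hq_bij e).2 q
      have hXn : X.Normal := inferInstance
      have hzX : Subgroup.zpowers x' = X := Subgroup.eq_of_le_of_card_ge (Subgroup.zpowers_le.2 hx'X)
        (by rw [Nat.card_zpowers, hx'3, hX3])
      obtain ⟨k, hk⟩ := Subgroup.mem_zpowers_iff.1 (hzX ▸ hXn.conj_mem x' hx'X c)
      rw [← zpow_mod_orderOf, hx'3] at hk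
      rw [← hq_mul, ← hq_mul] at hq1
      rw [← hq_mul, ← hq_mul, ← hq_mul] at hq2
      have hk' : k % ((3 : ℕ) : ℤ) = 0 ∨ k % ((3 : ℕ) : ℤ) = 1 ∨ k % ((3 : ℕ) : ℤ) = 2 := by omega
      rcases hk' with h | h | h <;> rw [h] at hk
      · rw [zpow_zero] at hk
        exact hx'1 (conj_eq_one_iff.1 hk.symm)
      · rw [zpow_one] at hk
        exact hq1 (congrArg _ (by rw [← mul_inv_eq_iff_eq_mul]; exact hk.symm))
      · rw [zpow_two] at hk
        exact hq2 (congrArg _ (by rw [← mul_inv_eq_iff_eq_mul]; exact hk.symm))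
    -- every involution inverts `N`
    have hinv : ∀ v : G, v ≠ 1 → v * v = 1 → ∀ n ∈ N, v * n * v⁻¹ = n⁻¹ := by
      intro v hv1 hvv n hn
      have hfp : MonoidHom.FixedPointFree ((MulAut.conjNormal v : MulAut N) : N →* N) := by
        intro m hm
        have hm' : v * (m : G) * v⁻¹ = m := congrArg Subtype.val hm
        obtain ⟨c, hc⟩ := isConj_iff.1 (one_class e ht hO hv1 hvv)
        have h' := hC1 (c⁻¹ * m * c) (by simpa using hN.conj_mem m m.2 c⁻¹) (by
          rw [← hc] at hm'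
          calc c⁻¹ * (m : G) * c * t = c⁻¹ * ((m : G) * (c * t * c⁻¹)) * c := by group
            _ = c⁻¹ * (c * t * c⁻¹ * (m : G)) * c := by
                rw [← mul_inv_eq_iff_eq_mul.1 hm']
            _ = t * (c⁻¹ * (m : G) * c) := by group)
        exact Subtype.ext (by simpa [mul_assoc] using congrArg (fun z => c * z * c⁻¹) h')
      have h := hfp.coe_eq_inv_of_involutive (fun m => Subtype.ext (by
        show v * (v * (m : G) * v⁻¹) * v⁻¹ = m
        calc v * (v * (m : G) * v⁻¹) * v⁻¹ = (v * v) * m * (v * v)⁻¹ := by group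
          _ = m := by rw [hvv]; simp))
      exact congrArg Subtype.val (congrFun h ⟨n, hn⟩)
    obtain ⟨q, hqi, hqn⟩ := exists_other
    obtain ⟨u, rfl⟩ := (hq_bij e).2 q
    obtain ⟨hu1, huu⟩ := (isInv_iff e u).1 hqi
    have hut : (u : G) ≠ t := fun h => hqn (by rw [← hq_t e ht]; exact congrArg _ (Subtype.ext h))
    have huc : t * (u : G) = (u : G) * t := (mem_C.1 u.2).symm
    have htu1 : t * (u : G) ≠ 1 := fun h => hut
      ((eq_inv_of_mul_eq_one_right h).trans (inv_eq_of_mul_eq_one_right (tt e ht)))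
    have htu2 : t * (u : G) * (t * u) = 1 := by
      calc t * (u : G) * (t * u) = (t * u) * (u * t) := by rw [huc]
        _ = t * ((u : G) * u) * t := by group
        _ = 1 := by rw [huu, mul_one, tt e ht]
    refine (Subgroup.eq_bot_iff_forall N).2 fun n hn => ?_
    have h1 := hinv _ (t_ne e ht) (tt e ht) n hn
    have h2' := hinv _ hu1 huu n hn
    have h3 := hinv _ htu1 htu2 n hn
    have h4 : n = n⁻¹ := by
      rw [← h3]
      calc n = t * (t * n * t⁻¹) * t⁻¹ := by
            rw [show t⁻¹ = t from inv_eq_of_mul_eq_one_right (tt e ht)]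
            calc n = (t * t) * n * (t * t) := by rw [tt e ht, one_mul, mul_one]
              _ = _ := by group
        _ = t * n⁻¹ * t⁻¹ := by rw [h1]
        _ = t * ((u : G) * n * (u : G)⁻¹) * t⁻¹ := by rw [h2']
        _ = _ := by group
    by_contra hn1
    have h22 : orderOf n = 2 := orderOf_eq_prime (by rw [pow_two]; nth_rewrite 2 [h4]; exact mul_inv_cancel n) hn1
    exact h2 (h22 ▸ Subgroup.orderOf_dvd_natCard N hn)

end Cfsg.Agent.SmallOrder.GL23Simple
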