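import Mathlib

/-!
Linear groups over a prime field that are transitive on the non-zero vectors: the field spanned by a
normal abelian subgroup, and semilinear coordinates when it is irreducible.
-/

set_option autoImplicit false
set_option linter.style.haveILetI false
set_option linter.unusedSectionVars false

namespace Cfsg.Agent.SmallOrder.TransLin

variable {p : ℕ} [hp : Fact p.Prime] {V : Type*} [AddCommGroup V] [Module (ZMod p) V] [Finite V]
  {G : Type*} [Group G] [Finite G]

/-- The action as endomorphisms. -/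
def endHom (ρ : G →* (V ≃ₗ[ZMod p] V)) : G →* Module.End (ZMod p) V where
  toFun g := (ρ g : V →ₗ[ZMod p] V)
  map_one' := by rw [map_one]; rfl
  map_mul' g h := by rw [map_mul]; rfl

variable {ρ : G →* (V ≃ₗ[ZMod p] V)}

theorem endHom_apply (g : G) (v : V) : endHom ρ g v = ρ g v := rfl

theorem endHom_inv_mul (g : G) : endHom ρ g⁻¹ * endHom ρ g = 1 := by
  rw [← map_mul, inv_mul_cancel, map_one]

theorem endHom_mul_inv (g : G) : endHom ρ g * endHom ρ g⁻¹ = 1 := by
  rw [← map_mul, mul_inv_cancel, map_one]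

theorem endHom_injective (hρ : Function.Injective ρ) : Function.Injective (endHom ρ) := fun a b h =>
  hρ (LinearEquiv.ext (LinearMap.congr_fun h))

theorem endHom_ne_zero (g : G) {v : V} (hv : v ≠ 0) : endHom ρ g v ≠ 0 := fun h =>
  hv ((ρ g).map_eq_zero_iff.1 h)

/-- The algebra spanned by a subgroup. -/
def alg (ρ : G →* (V ≃ₗ[ZMod p] V)) (A : Subgroup G) : Subalgebra (ZMod p) (Module.End (ZMod p) V) :=
  Algebra.adjoin (ZMod p) (endHom ρ '' (A : Set G))

theorem mem_alg {A : Subgroup G} {a : G} (ha : a ∈ A) : endHom ρ a ∈ alg ρ A :=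
  Algebra.subset_adjoin ⟨a, ha, rfl⟩

theorem alg_commute {A : Subgroup G} {g : G} (hg : g ∈ Subgroup.centralizer (A : Set G))
    {r : Module.End (ZMod p) V} (hr : r ∈ alg ρ A) : endHom ρ g * r = r * endHom ρ g := by
  induction hr using Algebra.adjoin_induction with
  | mem y hy =>
    obtain ⟨a, ha, rfl⟩ := hy
    rw [← map_mul, ← map_mul, Subgroup.mem_centralizer_iff.1 hg a ha]
  | algebraMap c => exact (Algebra.commutes c _).symm
  | add y z _ _ hy hz => rw [mul_add, add_mul, hy, hz]
  | mul y z _ _ hy hz => rw [← mul_assoc, hy, mul_assoc, hz, mul_assoc]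

theorem alg_comm {A : Subgroup G} (hA : IsMulCommutative A) {r s : Module.End (ZMod p) V}
    (hr : r ∈ alg ρ A) (hs : s ∈ alg ρ A) : r * s = s * r := by
  induction hr using Algebra.adjoin_induction with
  | mem y hy =>
    obtain ⟨a, ha, rfl⟩ := hy
    refine alg_commute (Subgroup.mem_centralizer_iff.2 fun b hb => ?_) hs
    exact congrArg Subtype.val (hA.is_comm.comm ⟨b, hb⟩ ⟨a, ha⟩)
  | algebraMap c => exact Algebra.commutes c _
  | add y z _ _ hy hz => rw [add_mul, mul_add, hy, hz]
  | mul y z _ _ hy hz => rw [mul_assoc, hz, ← mul_assoc, hy, mul_assoc]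

theorem conj_mem_alg {A : Subgroup G} [A.Normal] (g : G) {r : Module.End (ZMod p) V}
    (hr : r ∈ alg ρ A) : endHom ρ g * r * endHom ρ g⁻¹ ∈ alg ρ A := by
  induction hr using Algebra.adjoin_induction with
  | mem y hy =>
    obtain ⟨a, ha, rfl⟩ := hy
    rw [← map_mul, ← map_mul]
    exact mem_alg (Subgroup.Normal.conj_mem ‹_› a ha g)
  | algebraMap c =>
    rw [← Algebra.commutes c, mul_assoc, endHom_mul_inv, mul_one]
    exact Subalgebra.algebraMap_mem _ c
  | add y z _ _ hy hz => rw [mul_add, add_mul]; exact add_mem hy hz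
  | mul y z _ _ hy hz =>
    have : endHom ρ g * (y * z) * endHom ρ g⁻¹ =
        (endHom ρ g * y * endHom ρ g⁻¹) * (endHom ρ g * z * endHom ρ g⁻¹) := by
      simp only [mul_assoc]
      rw [← mul_assoc (endHom ρ g⁻¹) (endHom ρ g), endHom_inv_mul, one_mul]
    rw [this]; exact mul_mem hy hz

/-- In a transitive group the algebra of a normal abelian subgroup has no zero divisors on `V`. -/
theorem alg_eq_zero (htrans : ∀ v w : V, v ≠ 0 → w ≠ 0 → ∃ g : G, ρ g v = w) {A : Subgroup G}
    [A.Normal] (hA : IsMulCommutative A) {r : Module.End (ZMod p) V} (hr : r ∈ alg ρ A) {v : V}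
    (hv : v ≠ 0) (hrv : r v = 0) : r = 0 := by
  classical
  -- the cyclic submodules
  let M : V → Submodule (ZMod p) V := fun x =>
    Submodule.map (LinearMap.applyₗ x) (Subalgebra.toSubmodule (alg ρ A))
  have hM : ∀ x y, y ∈ M x ↔ ∃ s ∈ alg ρ A, s x = y := fun x y => by simp [M, Submodule.mem_map]
  have hxM : ∀ x, x ∈ M x := fun x => (hM x x).2 ⟨1, one_mem _, rfl⟩
  -- moving cyclic submodules
  have hmove : ∀ (g : G) x y, y ∈ M x → ρ g y ∈ M (ρ g x) := by
    intro g x y hy
    obtain ⟨s, hs, rfl⟩ := (hM x y).1 hy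
    refine (hM _ _).2 ⟨_, conj_mem_alg g hs, ?_⟩
    show endHom ρ g (s ((endHom ρ g⁻¹ * endHom ρ g) x)) = endHom ρ g (s x)
    rw [endHom_inv_mul, Module.End.one_apply]
  -- all cyclic submodules are minimal
  obtain ⟨x₀, hx₀, hmin⟩ : ∃ x₀ : V, x₀ ≠ 0 ∧ ∀ x : V, x ≠ 0 → M x ≤ M x₀ → M x = M x₀ := by
    obtain ⟨x₀, hx₀, h⟩ := Set.exists_min_image {x : V | x ≠ 0} (fun x => Nat.card (M x))
      (Set.toFinite _) ⟨v, hv⟩
    refine ⟨x₀, hx₀, fun x hx hle => SetLike.coe_injective ?_⟩
    exact Set.eq_of_subset_of_ncard_le hle (by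
      rw [← Nat.card_coe_set_eq, ← Nat.card_coe_set_eq]; exact h x hx) (Set.toFinite _)
  have hsimple : ∀ x y : V, x ≠ 0 → y ≠ 0 → y ∈ M x → x ∈ M y := by
    intro x y hx hy hyx
    obtain ⟨g, hg⟩ := htrans x x₀ hx hx₀
    have h1 : ρ g y ∈ M x₀ := hg ▸ hmove g x y hyx
    have h2 : M (ρ g y) ≤ M x₀ := fun z hz => by
      obtain ⟨s, hs, rfl⟩ := (hM _ _).1 hz
      obtain ⟨t, ht, ht'⟩ := (hM _ _).1 h1
      exact (hM _ _).2 ⟨s * t, mul_mem hs ht, by rw [Module.End.mul_apply, ht']⟩
    have h3 := hmin _ (fun h => hy ((ρ g).map_eq_zero_iff.1 h)) h2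
    have h4 := hmove g⁻¹ (ρ g y) x₀ (h3 ▸ hxM x₀)
    rw [← hg, ← LinearEquiv.mul_apply, ← LinearEquiv.mul_apply, ← map_mul, inv_mul_cancel, map_one,
      LinearEquiv.coe_one, id, id] at h4
    exact h4
  have hann : ∀ w : V, r w = 0 := by
    intro w
    by_contra hrw
    have hw : w ≠ 0 := fun h => hrw (by rw [h, map_zero])
    have hvw : v + w ≠ 0 := fun h => hrw (by
      rw [← neg_eq_of_add_eq_zero_right h, map_neg, hrv, neg_zero])
    have h1 : r (v + w) = r w := by rw [map_add, hrv, zero_add]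
    -- `r w` lies in the minimal module of `v + w`, so that module is the module of `w`
    have h2 : r w ∈ M (v + w) := (hM _ _).2 ⟨r, hr, h1⟩
    obtain ⟨s, hs, hs'⟩ := (hM _ _).1 (hsimple _ _ hvw hrw h2)
    have h3 : v ∈ M w := by
      refine (hM _ _).2 ⟨s * r - 1, sub_mem (mul_mem hs hr) (one_mem _), ?_⟩
      rw [LinearMap.sub_apply, Module.End.mul_apply, hs', Module.End.one_apply, add_sub_cancel_right]
    obtain ⟨u, hu, hu'⟩ := (hM _ _).1 (hsimple w v hw hv h3)
    apply hrw
    rw [← hu', ← Module.End.mul_apply, alg_comm hA hr hu, Module.End.mul_apply, hrv, map_zero]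
  exact LinearMap.ext hann

theorem finite_alg (A : Subgroup G) : Finite (alg ρ A) :=
  haveI : Finite (Module.End (ZMod p) V) := Finite.of_injective (fun f => (f : V → V)) DFunLike.coe_injective
  inferInstance

theorem isDomain_alg [Nontrivial V] (htrans : ∀ v w : V, v ≠ 0 → w ≠ 0 → ∃ g : G, ρ g v = w)
    {A : Subgroup G} [A.Normal] (hA : IsMulCommutative A) : IsDomain (alg ρ A) := by
  haveI : Nontrivial (alg ρ A) := ⟨⟨1, 0, fun h => by
    obtain ⟨v, hv⟩ := exists_ne (0 : V)
    exact hv (LinearMap.congr_fun (congrArg Subtype.val h) v)⟩⟩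
  haveI : NoZeroDivisors (alg ρ A) := ⟨fun {r s} h => by
    by_cases hs : s = 0
    · exact Or.inr hs
    left
    obtain ⟨v, hv⟩ : ∃ v, (s : Module.End (ZMod p) V) v ≠ 0 := by
      by_contra hcon
      push Not at hcon
      exact hs (Subtype.ext (LinearMap.ext hcon))
    exact Subtype.ext (alg_eq_zero htrans hA r.2 hv (LinearMap.congr_fun (congrArg Subtype.val h) v))⟩
  exact NoZeroDivisors.to_isDomain _

/-- The degree of the field. -/
noncomputable def deg (ρ : G →* (V ≃ₗ[ZMod p] V)) (A : Subgroup G) : ℕ := Module.finrank (ZMod p) (alg ρ A)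

theorem card_alg (A : Subgroup G) : Nat.card (alg ρ A) = p ^ deg ρ A := by
  haveI := finite_alg (ρ := ρ) A
  rw [deg, Module.natCard_eq_pow_finrank (K := ZMod p), Nat.card_zmod]

/-- A normal abelian subgroup is cyclic of order dividing `q - 1`; the index of its centralizer
divides the degree, and the vectors form a space over the field. -/
theorem field_facts [Nontrivial V] (hρ : Function.Injective ρ)
    (htrans : ∀ v w : V, v ≠ 0 → w ≠ 0 → ∃ g : G, ρ g v = w) {A : Subgroup G} [A.Normal]
    (hA : IsMulCommutative A) :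
    IsCyclic A ∧ Nat.card A ∣ p ^ deg ρ A - 1 ∧ 0 < deg ρ A ∧
      (Subgroup.centralizer (A : Set G)).index ∣ deg ρ A ∧
      ∃ d : ℕ, 0 < d ∧ Module.finrank (ZMod p) V = deg ρ A * d := by
  classical
  haveI := finite_alg (ρ := ρ) A
  haveI := isDomain_alg htrans hA
  haveI := Fintype.ofFinite (alg ρ A)
  letI : CommRing (alg ρ A) :=
    { (inferInstance : Ring (alg ρ A)) with
      mul_comm := fun r s => Subtype.ext (alg_comm hA r.2 s.2) }
  haveI : IsDomain (alg ρ A) := isDomain_alg htrans hA
  letI : Field (alg ρ A) := (Finite.isDomain_to_isField (alg ρ A)).toField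
  have hk : 0 < deg ρ A := by
    by_contra h0
    have h1 := card_alg (ρ := ρ) A
    rw [show deg ρ A = 0 by omega, pow_zero] at h1
    exact absurd h1 Finite.one_lt_card.ne'
  refine ⟨?_, ?_, hk, ?_, ?_⟩
  · let f : A →* alg ρ A :=
      { toFun := fun a => ⟨endHom ρ (a : G), mem_alg a.2⟩
        map_one' := Subtype.ext (map_one (endHom ρ))
        map_mul' := fun a b => Subtype.ext (map_mul (endHom ρ) _ _) }
    exact isCyclic_of_subgroup_isDomain f fun a b e =>
      Subtype.ext (endHom_injective hρ (congrArg Subtype.val e))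
  · let f : A →* alg ρ A :=
      { toFun := fun a => ⟨endHom ρ (a : G), mem_alg a.2⟩
        map_one' := Subtype.ext (map_one (endHom ρ))
        map_mul' := fun a b => Subtype.ext (map_mul (endHom ρ) _ _) }
    have hf : Function.Injective f := fun a b e => Subtype.ext (endHom_injective hρ (congrArg Subtype.val e))
    have hinj : Function.Injective f.toHomUnits := fun a b e => hf (congrArg Units.val e)
    have h := Subgroup.card_dvd_of_injective f.toHomUnits hinj
    rwa [Nat.card_units, card_alg] at h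
  · let c : G → alg ρ A → alg ρ A := fun g r => ⟨endHom ρ g * r.1 * endHom ρ g⁻¹, conj_mem_alg g r.2⟩
    have hcinj : ∀ g, Function.Injective (c g) := fun g r s e => by
      have e' : endHom ρ g * r.1 * endHom ρ g⁻¹ = endHom ρ g * s.1 * endHom ρ g⁻¹ := congrArg Subtype.val e
      have := congrArg (fun z => endHom ρ g⁻¹ * z * endHom ρ g) e'
      simp only [← mul_assoc, endHom_inv_mul, one_mul] at this
      simp only [mul_assoc, endHom_inv_mul, mul_one] at this
      exact Subtype.ext this
    let σ : G → (alg ρ A ≃ₐ[ZMod p] alg ρ A) := fun g =>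
      AlgEquiv.ofBijective
        { toFun := c g
          map_one' := Subtype.ext (by
            show endHom ρ g * 1 * endHom ρ g⁻¹ = 1
            rw [mul_one, endHom_mul_inv])
          map_mul' := fun r s => Subtype.ext (by
            show endHom ρ g * (r.1 * s.1) * endHom ρ g⁻¹ =
              endHom ρ g * r.1 * endHom ρ g⁻¹ * (endHom ρ g * s.1 * endHom ρ g⁻¹)
            simp only [mul_assoc]
            rw [← mul_assoc (endHom ρ g⁻¹) (endHom ρ g), endHom_inv_mul, one_mul])
          map_zero' := Subtype.ext (by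
            show endHom ρ g * 0 * endHom ρ g⁻¹ = 0
            rw [mul_zero, zero_mul])
          map_add' := fun r s => Subtype.ext (by
            show endHom ρ g * (r.1 + s.1) * endHom ρ g⁻¹ = _
            rw [mul_add, add_mul]; rfl)
          commutes' := fun a => Subtype.ext (by
            show endHom ρ g * algebraMap (ZMod p) _ a * endHom ρ g⁻¹ = algebraMap (ZMod p) _ a
            rw [← Algebra.commutes a, mul_assoc, endHom_mul_inv, mul_one]) }
        (Finite.injective_iff_bijective.1 (hcinj g))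
    let ψ : G →* (alg ρ A ≃ₐ[ZMod p] alg ρ A) :=
      MonoidHom.mk' σ fun g h => AlgEquiv.ext fun r => Subtype.ext (by
        show endHom ρ (g * h) * r.1 * endHom ρ (g * h)⁻¹ =
          endHom ρ g * (endHom ρ h * r.1 * endHom ρ h⁻¹) * endHom ρ g⁻¹
        rw [mul_inv_rev, map_mul, map_mul]
        simp only [mul_assoc])
    have hker : ψ.ker = Subgroup.centralizer (A : Set G) := by
      refine le_antisymm (fun g hg => ?_) (fun g hg => ?_)
      · rw [Subgroup.mem_centralizer_iff]
        intro a ha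
        have e := congrArg Subtype.val (AlgEquiv.congr_fun hg ⟨endHom ρ a, mem_alg ha⟩)
        change endHom ρ g * endHom ρ a * endHom ρ g⁻¹ = endHom ρ a at e
        rw [← map_mul, ← map_mul] at e
        rw [← mul_inv_eq_iff_eq_mul.1 (endHom_injective hρ e)]
      · refine AlgEquiv.ext fun r => Subtype.ext ?_
        show endHom ρ g * r.1 * endHom ρ g⁻¹ = r.1
        rw [alg_commute hg r.2, mul_assoc, endHom_mul_inv, mul_one]
    rw [← hker, Subgroup.index_ker]
    have hcard : Nat.card (alg ρ A ≃ₐ[ZMod p] alg ρ A) = deg ρ A := by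
      rw [← Nat.card_eq_of_bijective _ (FiniteField.bijective_frobeniusAlgEquivOfAlgebraic_pow (ZMod p) (alg ρ A)),
        Nat.card_fin]
      rfl
    exact hcard ▸ Subgroup.card_subgroup_dvd_card ψ.range
  · letI : Module (alg ρ A) V := Module.compHom V (alg ρ A).val.toRingHom
    have h1 := Module.natCard_eq_pow_finrank (K := alg ρ A) (V := V)
    rw [card_alg, ← pow_mul, Module.natCard_eq_pow_finrank (K := ZMod p) (V := V), Nat.card_zmod] at h1
    exact ⟨_, Module.finrank_pos, Nat.pow_right_injective hp.out.two_le h1⟩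

/-- A type with `N` elements and no algebraic structure of its own. -/
def Carrier (N : ℕ) : Type := Fin N

instance (N : ℕ) : Fintype (Carrier N) := inferInstanceAs (Fintype (Fin N))

/-- If the field has as many elements as there are vectors, the group is semilinear. -/
theorem semilinear [Nontrivial V] (htrans : ∀ v w : V, v ≠ 0 → w ≠ 0 → ∃ g : G, ρ g v = w)
    {A : Subgroup G} [A.Normal] (hA : IsMulCommutative A) (hcard : p ^ deg ρ A = Nat.card V) :
    ∃ (F : Type) (_ : Field F) (_ : Fintype F) (e : V ≃+ F),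
      ∀ g : G, ∃ (a : F) (σ : F ≃+* F), ∀ v : V, e (ρ g v) = a * σ (e v) := by
  classical
  haveI := finite_alg (ρ := ρ) A
  haveI := isDomain_alg htrans hA
  haveI := Fintype.ofFinite (alg ρ A)
  letI : CommRing (alg ρ A) :=
    { (inferInstance : Ring (alg ρ A)) with
      mul_comm := fun r s => Subtype.ext (alg_comm hA r.2 s.2) }
  haveI : IsDomain (alg ρ A) := isDomain_alg htrans hA
  letI : Field (alg ρ A) := (Finite.isDomain_to_isField (alg ρ A)).toField
  obtain ⟨v₀, hv₀⟩ := exists_ne (0 : V)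
  let ev : alg ρ A →+ V :=
    AddMonoidHom.mk' (fun r => (r : Module.End (ZMod p) V) v₀) fun r s => by
      show ((r : Module.End (ZMod p) V) + (s : Module.End (ZMod p) V)) v₀ = _
      rfl
  have hinj : Function.Injective ev := by
    rw [injective_iff_map_eq_zero]
    exact fun r hr => Subtype.ext (alg_eq_zero htrans hA r.2 hv₀ hr)
  have hbij : Function.Bijective ev :=
    (Nat.bijective_iff_injective_and_card ev).mpr ⟨hinj, (card_alg A).trans hcard⟩
  let e₀ : alg ρ A ≃+ V := AddEquiv.ofBijective ev hbij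
  obtain ⟨N, ⟨eq⟩⟩ : ∃ N : ℕ, Nonempty (alg ρ A ≃ Carrier N) :=
    ⟨_, ⟨(Finite.equivFin (alg ρ A))⟩⟩
  letI : Field (Carrier N) := eq.symm.field
  let er : alg ρ A ≃+* Carrier N := (eq.symm.ringEquiv).symm
  refine ⟨Carrier N, inferInstance, inferInstance, e₀.symm.trans er.toAddEquiv, fun g => ?_⟩
  let c : alg ρ A → alg ρ A := fun r => ⟨endHom ρ g * r.1 * endHom ρ g⁻¹, conj_mem_alg g r.2⟩
  have hcinj : Function.Injective c := fun r s e => by
    have e' : endHom ρ g * r.1 * endHom ρ g⁻¹ = endHom ρ g * s.1 * endHom ρ g⁻¹ := congrArg Subtype.val e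
    have := congrArg (fun z => endHom ρ g⁻¹ * z * endHom ρ g) e'
    simp only [← mul_assoc, endHom_inv_mul, one_mul] at this
    simp only [mul_assoc, endHom_inv_mul, mul_one] at this
    exact Subtype.ext this
  let σ : alg ρ A ≃+* alg ρ A :=
    { Equiv.ofBijective c (Finite.injective_iff_bijective.1 hcinj) with
      map_mul' := fun r s => Subtype.ext (by
        show endHom ρ g * (r.1 * s.1) * endHom ρ g⁻¹ =
          endHom ρ g * r.1 * endHom ρ g⁻¹ * (endHom ρ g * s.1 * endHom ρ g⁻¹)
        simp only [mul_assoc]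
        rw [← mul_assoc (endHom ρ g⁻¹) (endHom ρ g), endHom_inv_mul, one_mul])
      map_add' := fun r s => Subtype.ext (by
        show endHom ρ g * (r.1 + s.1) * endHom ρ g⁻¹ = _
        rw [mul_add, add_mul]; rfl) }
  obtain ⟨b, hb⟩ := hbij.2 (ρ g v₀)
  refine ⟨er b, (er.symm.trans σ).trans er, fun v => ?_⟩
  obtain ⟨r, rfl⟩ := e₀.surjective v
  have hgr : ρ g (e₀ r) = e₀ (b * σ r) := by
    rw [mul_comm]
    show endHom ρ g (r.1 v₀) = (endHom ρ g * r.1 * endHom ρ g⁻¹) (b.1 v₀)
    rw [show b.1 v₀ = endHom ρ g v₀ from hb]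
    show endHom ρ g (r.1 v₀) = endHom ρ g (r.1 ((endHom ρ g⁻¹ * endHom ρ g) v₀))
    rw [endHom_inv_mul, Module.End.one_apply]
  show er (e₀.symm (ρ g (e₀ r))) = er b * er (σ (er.symm (er (e₀.symm (e₀ r)))))
  rw [hgr, e₀.symm_apply_apply, e₀.symm_apply_apply, er.symm_apply_apply, map_mul]

end Cfsg.Agent.SmallOrder.TransLin
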